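import Cfsg.Agent.H1.FP0

/-! FP chunks TR, KR, WT, CE. -/

set_option autoImplicit false

namespace H28.FP
open MulAction H1.FP
universe u

theorem tr (ps : PS.{u}) : TR.{u} := by
  intro p K _ _ x A _ _ Θ _ _ s hA h2A h2Θ hN
  haveI := Fact.mk s.hp
  have hK : IsPretransitive K Θ := ⟨fun a b => by
    obtain ⟨g, hg⟩ := hN.exists_smul_eq a b
    exact ⟨g, hg⟩⟩
  have hp' : ¬ p ∣ Nat.card (kr K A) := by
    intro hd
    obtain ⟨y, hy⟩ := exists_prime_orderOf_dvd_card' p hd
    have hy' : orderOf (y : K) = p := by rw [Subgroup.orderOf_coe]; exact hy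
    obtain ⟨g, hg⟩ := s.conj_fix hy'
    obtain ⟨a, ha⟩ := s.moves hA h2A
    have h1 : (y : K) • (g • a) = g • a := congrArg (fun σ : Equiv.Perm A => σ (g • a)) y.2
    have h2 := (hg A (g • a)).1 h1
    rw [inv_smul_smul] at h2
    exact ha h2
  have hq : ¬ p ∣ Nat.card ((kr K A).map (toPermHom K Θ)) :=
    fun h => hp' (h.trans (Subgroup.card_map_dvd _ _))
  have hx : x ∈ Subgroup.normalizer ((kr K A : Subgroup K) : Set K) := by
    rw [Subgroup.normalizer_eq_top]; exact Subgroup.mem_top x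
  have h := ps K Θ (kr K A) x p s.hp hx hq
    (fun u => by rw [← s.ord, pow_orderOf_eq_one, one_smul]) (s.moves hK h2Θ) hN
  rw [card_eq (x := x) (Δ := Θ) s.hp s.ord] at h
  have h3 : p * fx x Θ ≤ p * lx p x Θ := by nlinarith
  exact Nat.le_of_mul_le_mul_left h3 s.hp.pos

theorem krr (ps : PS.{u}) : KR.{u} := by
  intro p K _ _ x A _ _ Θ _ _ s hA hlt hΘ h2Θ
  by_contra hc
  have hne : fixedPoints (kr K Θ) A ≠ .univ := by
    intro h
    apply hc
    intro y hy
    ext a
    exact (h ▸ Set.mem_univ a : a ∈ fixedPoints (kr K Θ) A) ⟨y, hy⟩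
  have ht : IsPretransitive (kr K Θ) A :=
    IsQuasiPreprimitive.isPretransitive_of_normal hne
  have h2A : 2 ≤ Nat.card A := by
    by_contra h
    have : Subsingleton A := Finite.card_le_one_iff_subsingleton.1 (by omega)
    exact hne (Set.eq_univ_of_forall fun a g => Subsingleton.elim _ _)
  have := tr ps p K x Θ A s hΘ h2Θ h2A ht
  omega

theorem wt : WT.{u} := by
  intro p K _ _ x Δ _ a b s ht ha hb
  obtain ⟨g, rfl⟩ := ht.exists_smul_eq a b
  have hx : x ∈ Op p (stabilizer K (g • a)) := mem_Op hb s.ord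
  have hy : g * x * g⁻¹ ∈ Op p (stabilizer K (g • a)) := Op_conj (mem_Op ha s.ord)
  have hyo : orderOf (⟨g * x * g⁻¹, hy⟩ : Op p (stabilizer K (g • a))) = p := by
    rw [← Subgroup.orderOf_coe]; exact ((MulAut.conj g).orderOf_eq x).trans s.ord
  obtain ⟨h, hh⟩ := (s.sub hx).conj hyo
  have e : Subgroup.zpowers (g * x * g⁻¹) = Subgroup.zpowers ((h : K) * x * (h : K)⁻¹) := by
    have := congrArg (Subgroup.map (Op p (stabilizer K (g • a))).subtype) hh
    rw [MonoidHom.map_zpowers, MonoidHom.map_zpowers] at this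
    exact this
  have e2 : (Subgroup.zpowers x).map (MulAut.conj ((h : K)⁻¹ * g)).toMonoidHom =
      Subgroup.zpowers x := by
    have := congrArg (Subgroup.map (MulAut.conj (h : K)⁻¹).toMonoidHom) e
    rw [MonoidHom.map_zpowers, MonoidHom.map_zpowers] at this
    rw [MonoidHom.map_zpowers]
    convert this using 2
    · simp [mul_assoc]
    · simp [mul_assoc]
  refine ⟨(h : K)⁻¹ * g, ?_, ?_⟩
  · rw [Subgroup.mem_normalizer_iff]
    intro n
    constructor
    · intro hn
      rw [← e2]
      exact ⟨n, hn, rfl⟩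
    · intro hn
      rw [← e2] at hn
      obtain ⟨m, hm, hmn⟩ := hn
      have : m = n := (MulAut.conj ((h : K)⁻¹ * g)).injective hmn
      exact this ▸ hm
  · rw [mul_smul, inv_smul_eq_iff]
    exact (Op_le _ h.2).symm

theorem per_le {K : Type u} [Group K] {Δ : Type u} [Finite Δ] [MulAction K Δ] (z : K) (u : Δ)
    (S : Set Δ) (h : ∀ n : ℕ, z ^ n • u ∈ S) : period z u ≤ S.ncard := by
  have h1 : (Set.Iio (period z u)).ncard ≤ S.ncard := by
    refine Set.ncard_le_ncard_of_injOn (fun n => (fun v : Δ => z • v)^[n] u) (fun n _ => ?_)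
      Function.iterate_injOn_Iio_minimalPeriod
    rw [smul_iterate]; exact h n
  rwa [← Finset.coe_range, Set.ncard_coe_finset, Finset.card_range] at h1

theorem dvd_per {K : Type u} [Group K] {Δ : Type u} [MulAction K Δ] {y : K} {u : Δ} {r j : ℕ}
    (hr : r.Prime) (hy : y ^ (r ^ j) = 1) (hu : y • u ≠ u) : r ∣ period y u := by
  have h1 : period y u ∣ r ^ j := by
    rw [← pow_smul_eq_iff_period_dvd, hy, one_smul]
  obtain ⟨k, -, hk⟩ := (Nat.dvd_prime_pow hr).1 h1
  rcases k with _ | k
  · exfalso; apply hu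
    have : y ^ 1 • u = u := by rw [pow_smul_eq_iff_period_dvd, hk]; simp
    simpa using this
  · rw [hk]; exact dvd_pow_self r (Nat.succ_ne_zero k)

theorem ce : CE.{u} := by
  intro K _ Δ _ _ x y p r j hp hr hne ho hy hc
  have hxp : x ^ (p ^ 1) = 1 := by rw [pow_one, ← ho, pow_orderOf_eq_one]
  have hfix : ∀ (z : K) (u : Δ), Commute x z → (x • z • u = z • u ↔ x • u = u) := by
    intro z u hz
    rw [← mul_smul, hz.eq, mul_smul, smul_left_cancel_iff]
  constructor
  · intro hl u hu
    by_contra hyu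
    have hpos : 0 < period (x * y) u := by
      refine period_pos_of_fixed (n := p * r ^ j) (Nat.mul_pos hp.pos (pow_pos hr.pos j)) ?_
      rw [hc.mul_pow, pow_mul x, ← ho, pow_orderOf_eq_one, one_pow, one_mul, mul_comm, pow_mul, hy,
        one_pow, one_smul]
    have hle : period (x * y) u ≤ (fixedBy Δ x)ᶜ.ncard := by
      refine per_le _ _ _ fun n hn => hu ?_
      exact (hfix _ u (((Commute.refl x).mul_right hc).pow_right n)).1 hn
    have hcard : (fixedBy Δ x)ᶜ.ncard = p * lx p x Δ := by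
      have h1 := card_eq (x := x) (Δ := Δ) hp ho
      have h2 := Set.ncard_add_ncard_compl (fixedBy Δ x)
      rw [fx_eq] at h1
      omega
    set t := period (x * y) u with ht
    have h0 : (x * y) ^ t • u = u := by rw [pow_smul_eq_iff_period_dvd]
    have h1 : x ^ (t * r ^ j) • u = u := by
      have : (x * y) ^ (t * r ^ j) • u = u := by
        rw [pow_smul_eq_iff_period_dvd]; exact Dvd.intro _ rfl
      rwa [hc.mul_pow, mul_comm t, pow_mul y, hy, one_pow, mul_one, mul_comm] at this
    have hpt : p ∣ t := by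
      have h2 := (dvd_per hp hxp hu).trans (pow_smul_eq_iff_period_dvd.1 h1)
      rcases (Nat.Prime.dvd_mul hp).1 h2 with h | h
      · exact h
      · exact absurd ((Nat.prime_dvd_prime_iff_eq hp hr).1 (hp.dvd_of_dvd_pow h)).symm hne
    have hrt : r ∣ t := by
      have hx1 : x ^ t = 1 := by rw [← orderOf_dvd_iff_pow_eq_one, ho]; exact hpt
      rw [hc.mul_pow, hx1, one_mul] at h0
      exact (dvd_per hr hy hyu).trans (pow_smul_eq_iff_period_dvd.1 h0)
    have hd : p * r ∣ t :=
      Nat.Coprime.mul_dvd_of_dvd_of_dvd ((Nat.coprime_primes hp hr).2 (Ne.symm hne)) hpt hrt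
    have h3 := Nat.le_of_dvd hpos hd
    have h4 : p * lx p x Δ < p * r := Nat.mul_lt_mul_of_pos_left hl hp.pos
    omega
  · intro hf u hu
    by_contra hyu
    have hpos : 0 < period y u :=
      period_pos_of_fixed (n := r ^ j) (pow_pos hr.pos j) (by rw [hy, one_smul])
    have hle : period y u ≤ (fixedBy Δ x).ncard :=
      per_le _ _ _ fun n => (hfix _ u (hc.pow_right n)).2 hu
    have h3 := Nat.le_of_dvd hpos (dvd_per hr hy hyu)
    rw [fx_eq] at hf
    omega

end H28.FP
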