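import Cfsg.Agent.H28.TI1
import Cfsg.Agent.H10.Fusion

/-! Groups with abelian Sylow 2-intersections: essential subgroups and their automizers. -/

set_option autoImplicit false
set_option linter.unusedSectionVars false

namespace H28.AI

open Cfsg Subgroup
open scoped Pointwise

local notation:max "#" H:max => Nat.card H

universe u
variable {G : Type u} [Group G] [Finite G] {S E A P T : Subgroup G} {a b c d e g h n s t v w x y z : G}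

/-- `S` is a Sylow 2-subgroup whose intersections with its conjugates are abelian -/
structure Hy (S : Subgroup G) : Prop where
  syl : IsSylowIn 2 S ⊤
  ai : ∀ g, ∀ x ∈ S, ∀ y ∈ S, g * x * g⁻¹ ∈ S → g * y * g⁻¹ ∈ S → ¬ Commute x y → g ∈ 𝐍 S

/-- essential subgroups -/
structure Ess (S E : Subgroup G) : Prop where
  hy : Hy S
  le : E ≤ S
  ab : ∀ x ∈ E, ∀ y ∈ E, Commute x y
  cen : ∀ s ∈ S, (∀ e ∈ E, Commute s e) → s ∈ E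
  syl : IsSylowIn 2 (S ⊓ 𝐍 E) (𝐍 E)
  nc : ∃ g ∈ 𝐍 E, ∀ n ∈ 𝐍 E, n ∈ 𝐍 S → ∃ e ∈ E, g * e * g⁻¹ ≠ n * e * n⁻¹

theorem cje (h : Commute g x) : g * x * g⁻¹ = x := by rw [h.eq, mul_inv_cancel_right]
theorem cjc (h : g * x * g⁻¹ = x) : Commute g x := mul_inv_eq_iff_eq_mul.1 h
theorem cm (hg : g ∈ 𝐍 E) (hx : x ∈ E) : g * x * g⁻¹ ∈ E := conj_mem_of_mem_normalizer hg hx
theorem cm' (hg : g ∈ 𝐍 E) (hx : x ∈ E) : g⁻¹ * x * g ∈ E := conj_mem_of_mem_normalizer' hg hx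
theorem nof (h : ∀ x ∈ E, g * x * g⁻¹ ∈ E) : g ∈ 𝐍 E := mem_normalizer_of_cj_le (by
  rintro _ ⟨x, hx, rfl⟩; exact h x hx)
theorem nn (h1 : g ∈ 𝐍 S) (h2 : g ∈ 𝐍 E) : g ∈ 𝐍 (S ⊓ 𝐍 E) :=
  nof fun _ hx => mem_inf.2 ⟨cm h1 hx.1, mul_mem (mul_mem h2 hx.2) (inv_mem h2)⟩

theorem Hy.le (H : Hy S) (hP : IsPGroup 2 P) (hx : x ∈ S) (hy : y ∈ S) (k1 : x ∈ P) (k2 : y ∈ P)
    (nc : ¬ Commute x y) : P ≤ S := by
  obtain ⟨g, -, hg⟩ := H.syl.exists_conj_le hP le_top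
  have := H.ai g x hx y hy (hg (conj_mem_cj k1)) (hg (conj_mem_cj k2)) nc
  exact fun p hp => by simpa [mul_assoc] using cm' this (hg (conj_mem_cj hp))

/-- Alperin's fusion theorem -/
theorem Hy.fus (H : Hy S) (r : G → G → Prop) (tr : ∀ a b c, r a b → r b c → r a c)
    (h1 : ∀ n ∈ 𝐍 S, ∀ x ∈ S, r x (n * x * n⁻¹))
    (h2 : ∀ E, Ess S E → ∀ g ∈ 𝐍 E, ∀ x ∈ E, r x (g * x * g⁻¹)) (hx : x ∈ S) (hg : g * x * g⁻¹ ∈ S) :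
    r x (g * x * g⁻¹) := by
  obtain ⟨P, rfl⟩ := H.syl.exists_sylow_top
  refine H10.fusion_master P r tr (fun s hs => h1 s (le_normalizer hs)) (fun T k1 k2 k3 g hg _ x hx => ?_) hx hg
  by_cases ab : ∀ x ∈ T, ∀ y ∈ T, Commute x y
  · by_cases k : ∃ g ∈ 𝐍 T, ∀ n ∈ 𝐍 T, n ∈ 𝐍 (P : Subgroup G) → ∃ e ∈ T, g * e * g⁻¹ ≠ n * e * n⁻¹
    · exact h2 T ⟨H, k1, ab, fun s hs k => k2 ⟨hs, mem_centralizer'.2 fun e he => (k e he).symm.eq⟩, k3, k⟩ g hg x hx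
    · push Not at k
      obtain ⟨n, -, k4, k5⟩ := k g hg
      exact k5 x hx ▸ h1 n k4 x (k1 hx)
  · push Not at ab
    obtain ⟨a, ha, b, hb, k⟩ := ab
    exact h1 g (H.ai g a (k1 ha) b (k1 hb) (k1 (cm hg ha)) (k1 (cm hg hb)) k) x (k1 hx)

/-- a linear model of the action of `N(E)` on `E` -/
structure Md (S E : Subgroup G) {V : Type u} [AddCommGroup V] [Finite V] {X : Type u} [Group X] [Finite X]
    [DistribMulAction X V] (T : Subgroup X) (ι : V → G) (π : G → X) : Prop where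
  m : TI.M V T
  inj : Function.Injective ι
  mem : ∀ v, ι v ∈ E
  sur : ∀ e ∈ E, ∃ v, ι v = e
  add : ∀ u v, ι (u + v) = ι u * ι v
  mul : ∀ g ∈ 𝐍 E, ∀ h ∈ 𝐍 E, π (g * h) = π g * π h
  act : ∀ g ∈ 𝐍 E, ∀ v, ι (π g • v) = g * ι v * g⁻¹
  surX : ∀ x, ∃ g ∈ 𝐍 E, π g = x
  mT : ∀ t ∈ S, t ∈ 𝐍 E → π t ∈ T
  surT : ∀ x ∈ T, ∃ t ∈ S, t ∈ 𝐍 E ∧ π t = x
  surN : ∀ x ∈ 𝐍 T, ∃ n ∈ 𝐍 E, n ∈ 𝐍 S ∧ π n = x

namespace Ess
variable (H : Ess S E)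
include H

theorem pg : IsPGroup 2 E := H.hy.syl.isPGroup.to_le H.le

theorem nc' (hs : s ∈ S) (k : s ∉ E) : ∃ e ∈ E, ¬ Commute s e := by
  by_contra! h; exact k (H.cen s hs h)

theorem ex : ∃ t ∈ S, t ∈ 𝐍 E ∧ t ∉ E := by
  by_contra! k
  obtain rfl := eq_of_inf_normalizer_le H.hy.syl.isPGroup H.le fun t ht => k t ht.1 ht.2
  obtain ⟨g, hg, k⟩ := H.nc
  obtain ⟨e, -, k⟩ := k g hg hg
  exact k rfl

/-- elements conjugating `t` into `S` modulo `C(E)` normalize `S` modulo `C(E) N_S(E)` -/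
theorem lift (ht : t ∈ S) (k1 : t ∈ 𝐍 E) (k2 : t ∉ E) (hg : g ∈ 𝐍 E) (hs : s ∈ S) (k3 : s ∈ 𝐍 E)
    (k : ∀ e ∈ E, g * t * g⁻¹ * e * (g * t * g⁻¹)⁻¹ = s * e * s⁻¹) :
    ∃ n ∈ 𝐍 E, n ∈ 𝐍 S ∧ ∀ e ∈ E, g * e * g⁻¹ = n * e * n⁻¹ := by
  have hC : E ≤ 𝐂 E := fun x hx => mem_centralizer'.2 fun y hy => (H.ab y hy x hx).eq
  have nC := normalizer_le_normalizer_centralizer E
  have l1 : zpowers s ≤ 𝐍 E := zpowers_le.2 k3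
  have gt : g * t * g⁻¹ ∈ 𝐍 E := mul_mem (mul_mem hg k1) (inv_mem hg)
  have p : ∀ x ∈ S, x ∈ 𝐍 E → ∀ g ∈ 𝐍 E, IsPGroup 2 (zpowers (g * x * g⁻¹) ⊔ E : Subgroup G) := fun x hx k g hg =>
    isPGroup_sup_of_le_normalizer (cj_zpowers g x ▸ isPGroup_cj g (H.hy.syl.isPGroup.to_le (zpowers_le.2 hx))) H.pg
      (zpowers_le.2 (mul_mem (mul_mem hg k) (inv_mem hg)))
  have sE : s ∉ E := fun k4 => k2 (H.cen t ht fun e he => cjc (by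
    have := k _ (cm hg he)
    rw [cje (H.ab s k4 _ (cm hg he))] at this
    calc _ = g⁻¹ * (g * t * g⁻¹ * (g * e * g⁻¹) * (g * t * g⁻¹)⁻¹) * g := by group
      _ = _ := by rw [this]; group))
  obtain ⟨Q, hQ, lQ⟩ := exists_isSylowIn_ge (H := zpowers s ⊔ 𝐂 E) (p s hs k3 1 (one_mem _))
    (sup_le (by simp) (le_sup_of_le_right hC))
  obtain ⟨e, he, ne⟩ := H.nc' hs sE
  have QS := H.hy.le hQ.isPGroup hs (H.le he) (lQ (mem_sup_left (by simp))) (lQ (mem_sup_right he)) ne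
  obtain ⟨m, hm, lm⟩ := hQ.exists_conj_le (p t ht k1 g hg) (sup_le (zpowers_le.2 (by
    rw [← mul_inv_cancel_left s (g * t * g⁻¹)]
    refine mul_mem (mem_sup_left (mem_zpowers s)) (mem_sup_right (mem_centralizer'.2 fun e he => ?_))
    refine (cjc ?_).symm.eq
    calc _ = s⁻¹ * (g * t * g⁻¹ * e * (g * t * g⁻¹)⁻¹) * s := by group
      _ = _ := by rw [k e he]; group)) (le_sup_of_le_right hC))
  obtain ⟨a, ha, c, hc, rfl⟩ := (mem_sup_of_le_normalizer (l1.trans nC)).1 hm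
  have cN : c ∈ 𝐍 E := le_normalizer_of_le_centralizer le_rfl hc
  have mN : a * c * g ∈ 𝐍 E := mul_mem (mul_mem (l1 ha) cN) hg
  obtain ⟨e, he, ne⟩ := H.nc' ht k2
  have nS := H.hy.ai (a * c * g) t ht e (H.le he)
    (by simpa [mul_assoc] using QS (lm (conj_mem_cj (mem_sup_left (mem_zpowers _))))) (H.le (cm mN he)) ne
  refine ⟨a⁻¹ * (a * c * g), mul_mem (inv_mem (l1 ha)) mN,
    mul_mem (inv_mem (le_normalizer (zpowers_le.2 hs ha))) nS, fun e he => ?_⟩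
  calc _ = c * (g * e * g⁻¹) * c⁻¹ := (cje (mem_centralizer'.1 hc _ (cm hg he)).symm).symm
    _ = _ := by group

theorem model : ∃ (V : Type u) (_ : AddCommGroup V) (_ : Finite V) (X : Type u) (_ : Group X) (_ : Finite X)
    (_ : DistribMulAction X V) (T : Subgroup X) (ι : V → G) (π : G → X), Md S E T ι π := by
  classical
  letI : CommGroup E := { (inferInstance : Group E) with
    mul_comm := fun a b => Subtype.ext (H.ab _ a.2 _ b.2).eq }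
  let φ := E.normalizerMonoidHom.rangeRestrict
  letI : DistribMulAction E.normalizerMonoidHom.range (Additive E) :=
    { smul := fun x v => Additive.ofMul (x.1 v.toMul)
      one_smul := fun _ => rfl
      mul_smul := fun _ _ _ => rfl
      smul_zero := fun x => congrArg Additive.ofMul (map_one x.1)
      smul_add := fun x u v => congrArg Additive.ofMul (map_mul x.1 _ _) }
  let π : G → E.normalizerMonoidHom.range := fun g => if h : g ∈ 𝐍 E then φ ⟨g, h⟩ else 1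
  have pe : ∀ g (h : g ∈ 𝐍 E), π g = φ ⟨g, h⟩ := fun g h => dif_pos h
  have ext : ∀ g (hg : g ∈ 𝐍 E) n (hn : n ∈ 𝐍 E), φ ⟨g, hg⟩ = φ ⟨n, hn⟩ ↔ ∀ e ∈ E, g * e * g⁻¹ = n * e * n⁻¹ :=
    fun g hg n hn => ⟨fun k e he => congrArg (fun x : E.normalizerMonoidHom.range => (x.1 ⟨e, he⟩ : G)) k,
      fun k => Subtype.ext (MulEquiv.ext fun e => Subtype.ext (k e e.2))⟩
  let T := ((S ⊓ 𝐍 E).subgroupOf (𝐍 E)).map φ
  have mT : ∀ x, x ∈ T ↔ ∃ t ∈ S, ∃ h : t ∈ 𝐍 E, φ ⟨t, h⟩ = x := fun x =>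
    ⟨fun ⟨t, h1, h2⟩ => ⟨t, h1.1, t.2, h2⟩, fun ⟨t, h1, h2, h3⟩ => ⟨⟨t, h2⟩, ⟨h1, h2⟩, h3⟩⟩
  have sX : ∀ x, ∃ g, ∃ h : g ∈ 𝐍 E, φ ⟨g, h⟩ = x := fun x =>
    let ⟨g, hg⟩ := E.normalizerMonoidHom.rangeRestrict_surjective x; ⟨g, g.2, hg⟩
  have lf : ∀ g (hg : g ∈ 𝐍 E), ∀ t ∈ T, t ≠ 1 → φ ⟨g, hg⟩ * t * (φ ⟨g, hg⟩)⁻¹ ∈ T →
      ∃ n, ∃ h : n ∈ 𝐍 E, n ∈ 𝐍 S ∧ φ ⟨n, h⟩ = φ ⟨g, hg⟩ := fun g hg t ht t1 k => by
    obtain ⟨t, h1, h2, rfl⟩ := (mT _).1 ht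
    obtain ⟨s, h3, h4, k⟩ := (mT _).1 k
    rw [← map_inv, ← map_mul, ← map_mul] at k
    obtain ⟨n, k1, k2, k3⟩ := H.lift h1 h2 (fun e => t1 (((ext t h2 1 (one_mem _)).2 fun x hx => by
      simpa using cje (H.ab t e x hx)).trans (map_one φ))) hg h3 h4 ((ext _ _ _ _).1 k.symm)
    exact ⟨n, k1, k2, ((ext _ _ _ _).2 k3).symm⟩
  have nT : ∀ n (h : n ∈ 𝐍 E), n ∈ 𝐍 S → φ ⟨n, h⟩ ∈ 𝐍 T := fun n h k => nof fun x hx => by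
    obtain ⟨t, h1, h2, rfl⟩ := (mT _).1 hx
    rw [← map_inv, ← map_mul, ← map_mul]
    exact (mT _).2 ⟨_, cm k h1, _, rfl⟩
  obtain ⟨t, t1, t2, t3⟩ := H.ex
  have t4 : φ ⟨t, t2⟩ ≠ 1 := fun k => t3 (H.cen t t1 fun e he => cjc (by
    simpa using (ext t t2 1 (one_mem _)).1 (k.trans (map_one φ).symm) e he))
  have sN : ∀ g (hg : g ∈ 𝐍 E), φ ⟨g, hg⟩ ∈ 𝐍 T → ∃ n, ∃ h : n ∈ 𝐍 E, n ∈ 𝐍 S ∧ φ ⟨n, h⟩ = φ ⟨g, hg⟩ :=
    fun g hg k => lf g hg _ ((mT _).2 ⟨t, t1, t2, rfl⟩) t4 (cm k ((mT _).2 ⟨t, t1, t2, rfl⟩))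
  refine ⟨Additive E, inferInstance, inferInstance, E.normalizerMonoidHom.range, inferInstance, inferInstance,
    inferInstance, T, fun v => (v.toMul : G), π, ⟨fun x k => Subtype.ext (MulEquiv.ext k), ?_, ?_, ?_, ?_⟩,
    fun u v e => Subtype.ext e, fun v => v.toMul.2, fun e he => ⟨Additive.ofMul ⟨e, he⟩, rfl⟩, fun _ _ => rfl,
    fun g hg h hh => ?_, fun g hg v => ?_, fun x => ?_, fun t h1 h2 => ?_, fun x hx => ?_, fun x hx => ?_⟩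
  · obtain ⟨k, hk⟩ := H.pg.exists_card_eq
    exact ⟨k, fun v => by rw [← hk]; exact card_nsmul_eq_zero'⟩
  · have := H.syl.subgroupOf_top.map φ
    rwa [← MonoidHom.range_eq_map, MonoidHom.range_eq_top.2 E.normalizerMonoidHom.rangeRestrict_surjective] at this
  · intro x t ht t1 k
    obtain ⟨g, hg, rfl⟩ := sX x
    obtain ⟨n, h1, h2, h3⟩ := lf g hg t ht t1 k
    exact h3 ▸ nT n h1 h2
  · obtain ⟨g, hg, k⟩ := H.nc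
    refine ⟨φ ⟨g, hg⟩, fun k1 => ?_⟩
    obtain ⟨n, h1, h2, h3⟩ := sN g hg k1
    obtain ⟨e, he, k⟩ := k n h1 h2
    exact k ((ext _ _ _ _).1 h3.symm e he)
  · rw [pe g hg, pe h hh, pe _ (mul_mem hg hh), ← map_mul]; rfl
  · rw [pe g hg]; rfl
  · obtain ⟨g, hg, k⟩ := sX x
    exact ⟨g, hg, (pe g hg).trans k⟩
  · exact (mT _).2 ⟨t, h1, h2, (pe t h2).symm⟩
  · obtain ⟨t, h1, h2, k⟩ := (mT _).1 hx
    exact ⟨t, h1, h2, (pe t h2).trans k⟩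
  · obtain ⟨g, hg, rfl⟩ := sX x
    obtain ⟨n, h1, h2, h3⟩ := sN g hg hx
    exact ⟨n, h1, h2, (pe n h1).trans h3⟩

end Ess

namespace Md
variable {V : Type u} [AddCommGroup V] [Finite V] {X : Type u} [Group X] [Finite X]
    [DistribMulAction X V] {T : Subgroup X} {ι : V → G} {π : G → X} (K : Md S E T ι π) {p q : V}
include K

theorem zero : ι 0 = 1 := by simpa using K.add 0 0
theorem sub (p q : V) : ι (p - q) = ι p * (ι q)⁻¹ := by rw [eq_mul_inv_iff_mul_eq, ← K.add, sub_add_cancel]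
theorem nsm (i : ℕ) (p : V) : ι (i • p) = ι p ^ i := by
  induction i with
  | zero => simp [K.zero]
  | succ i ih => rw [succ_nsmul, K.add, ih, pow_succ]
theorem two (p : V) : ι (2 • p) = ι p * ι p := by rw [K.nsm, pow_two]
theorem eq0 : p = 0 ↔ ι p = 1 := by rw [← K.inj.eq_iff, K.zero]
theorem fix (hg : g ∈ 𝐍 E) : π g • p = p ↔ Commute g (ι p) := by
  rw [← K.inj.eq_iff, K.act g hg]; exact ⟨cjc, cje⟩
theorem com (hg : g ∈ 𝐍 E) (p : V) : ι (π g • p - p) = g * ι p * g⁻¹ * (ι p)⁻¹ := by rw [K.sub, K.act g hg]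
theorem eq1 (H : Ess S E) (hs : s ∈ S) (hg : s ∈ 𝐍 E) : π s = 1 ↔ s ∈ E :=
  ⟨fun k => H.cen s hs fun e he => by
    obtain ⟨v, rfl⟩ := K.sur e he
    exact (K.fix hg).1 (by rw [k, one_smul]),
   fun k => K.m.faith _ fun v => (K.fix hg).2 (H.ab s k _ (K.mem v))⟩
theorem eqv (H : Ess S E) (hs : s ∈ S) (h1 : s ∈ 𝐍 E) (ht : t ∈ S) (h2 : t ∈ 𝐍 E) (e : π s = π t) :
    s * t⁻¹ ∈ E := by
  rw [← K.eq1 H (mul_mem hs (inv_mem ht)) (mul_mem h1 (inv_mem h2)), K.mul _ h1 _ (inv_mem h2), e,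
    ← K.mul _ h2 _ (inv_mem h2), mul_inv_cancel, K.eq1 H (one_mem _) (one_mem _)]
  exact one_mem _

end Md

namespace Ess
variable (H : Ess S E)
include H

theorem om (hs : s ∈ S) (k : ∀ e ∈ E, e * e = 1 → Commute s e) : s ∈ E := by
  obtain ⟨V, _, _, X, _, _, _, T, ι, π, K⟩ := H.model
  have l : E ≤ S ⊓ centralizer {e | e ∈ E ∧ e * e = 1} := fun x hx => ⟨H.le hx, fun e he => (H.ab e he.1 x hx).eq⟩
  refine (eq_of_inf_normalizer_le (H.hy.syl.isPGroup.to_le inf_le_left) l fun t ht => ?_).ge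
    ⟨hs, fun e he => (k e he.1 he.2).symm.eq⟩
  exact (K.eq1 H ht.1.1 ht.2).1 (K.m.om (K.mT t ht.1.1 ht.2) fun v hv => (K.fix ht.2).2
    (ht.1.2 _ ⟨K.mem v, by rw [← K.two, hv, K.zero]⟩).symm)

theorem cyc (h1 : d ∈ S) (h2 : d ∈ 𝐍 E) (h3 : d ∉ E) (h4 : d * d ∈ E) (hz : z ∈ E)
    (k : ∀ e ∈ E, (d * e * d⁻¹ * e⁻¹) * (d * e * d⁻¹ * e⁻¹) = 1 → d * e * d⁻¹ * e⁻¹ = 1 ∨ d * e * d⁻¹ * e⁻¹ = z) :
    (∀ e ∈ E, d * e * d⁻¹ * e⁻¹ = 1 ∨ d * e * d⁻¹ * e⁻¹ = z) ∨ ∃ y ∈ E, Commute d y ∧ y * y = z := by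
  obtain ⟨V, _, _, X, _, _, _, T, ι, π, K⟩ := H.model
  obtain ⟨z, rfl⟩ := K.sur z hz
  refine (K.m.cyc (z := z) (K.mT d h1 h2) (mt (K.eq1 H h1 h2).1 h3)
    (by rwa [← K.mul d h2 d h2, K.eq1 H (mul_mem h1 h1) (mul_mem h2 h2)]) fun v hv => ?_).imp (fun l e he => ?_)
    fun ⟨y, l1, l2⟩ => ⟨_, K.mem y, (K.fix h2).1 l1, by rw [← K.two, l2]⟩
  · rw [K.eq0, ← K.inj.eq_iff, K.com h2]
    exact k _ (K.mem v) (by rw [← K.com h2, ← K.two, hv, K.zero])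
  · obtain ⟨v, rfl⟩ := K.sur e he
    have := l v
    rwa [K.eq0, ← K.inj.eq_iff, K.com h2] at this

theorem off (h1 : A ≤ S) (ab : ∀ x ∈ A, ∀ y ∈ A, Commute x y) (cen : ∀ s ∈ S, (∀ e ∈ A, Commute s e) → s ∈ A)
    (n1 : A ≤ 𝐍 E) (n2 : E ≤ 𝐍 A) (hc : #E ≤ #A) (ne : ¬ A ≤ E) :
    (∀ t ∈ S, t ∈ 𝐍 E → ∃ a ∈ A, t * a⁻¹ ∈ E) ∧
    (∀ e ∈ E, ∀ a ∈ A, ∀ c ∈ E, a * e * a⁻¹ * e⁻¹ = c * c → e ∈ A ∨ a ∈ E) ∧
    (∀ e ∈ E, ∃ i ∈ E, i * i = 1 ∧ i⁻¹ * e ∈ A) ∧ ∀ a ∈ A, a * a ∈ E := by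
  obtain ⟨V, _, _, X, _, _, _, T, ι, π, K⟩ := H.model
  let ψ : A →* X := MonoidHom.mk' (fun a => π a) fun a b => K.mul _ (n1 a.2) _ (n1 b.2)
  have mF : ∀ v, v ∈ TI.Fx V ψ.range 1 ↔ ι v ∈ A := fun v =>
    ⟨fun k => cen _ (H.le (K.mem v)) fun a ha => ((K.fix (n1 ha)).1 (by simpa [ψ] using k _ ⟨⟨a, ha⟩, rfl⟩)).symm,
      by rintro k _ ⟨a, rfl⟩; simpa [ψ] using (K.fix (n1 a.2)).2 (ab _ a.2 _ k)⟩
  have e1 : ∀ a : A, ψ a = 1 ↔ a.1 ∈ E := fun a => K.eq1 H (h1 a.2) (n1 a.2)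
  have O : TI.Off V T ψ.range := ⟨K.m, by rintro _ ⟨a, rfl⟩; exact K.mT _ (h1 a.2) (n1 a.2),
    fun k => ne fun a ha => (e1 ⟨a, ha⟩).1 (k.le ⟨_, rfl⟩), by
      rintro _ ⟨a, rfl⟩ v
      rw [mF]
      exact K.com (n1 a.2) v ▸ by
        simpa [mul_assoc] using mul_mem a.2 (cm (n2 (K.mem v)) (inv_mem a.2)), by
    choose f hf using fun a : ψ.ker => K.sur _ ((e1 a.1).1 a.2)
    refine (Nat.card_le_card_of_injective (fun v => (⟨ι v, K.mem v⟩ : E)) fun u v e =>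
      K.inj (congrArg Subtype.val e)).trans (hc.trans ?_)
    rw [← ψ.ker.card_mul_index, index_ker, mul_comm]
    exact Nat.mul_le_mul_left _ (Nat.card_le_card_of_injective (fun a => ⟨f a, (mF _).2 (hf a ▸ a.1.2)⟩)
      fun a b e => Subtype.ext (Subtype.ext (by rw [← hf a, ← hf b, show f a = f b from congrArg Subtype.val e])))⟩
  obtain ⟨h, hh⟩ := O.ex_opp 1
  refine ⟨fun t k1 k2 => ?_, fun e he a ha c hc k => or_iff_not_imp_right.2 fun k1 => ?_, fun e he => ?_,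
    fun a ha => ?_⟩
  · obtain ⟨a, ha⟩ := O.eq_T.ge (K.mT t k1 k2)
    exact ⟨a, a.2, K.eqv H k1 k2 (h1 a.2) (n1 a.2) ha.symm⟩
  · obtain ⟨v, rfl⟩ := K.sur e he
    obtain ⟨c, rfl⟩ := K.sur c hc
    rw [← K.com (n1 ha), ← K.two, K.inj.eq_iff] at k
    refine (mF v).1 (O.g4 (K.m.opp_symm hh) ⟨⟨a, ha⟩, rfl⟩ (mt (e1 _).1 k1) ?_)
    simpa using (show ψ ⟨a, ha⟩ • v - v = _ from k) ▸ O.two_mem h c
  · obtain ⟨v, rfl⟩ := K.sur e he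
    obtain ⟨a, ha, a1⟩ := O.ex
    obtain ⟨p, k1, w, k2, rfl⟩ := O.decU hh ha a1 v
    exact ⟨_, K.mem p, by rw [← K.two, O.Um_two ha k1, K.zero], by
      rw [K.add, inv_mul_cancel_left]; exact (mF w).1 k2⟩
  · exact (e1 ⟨_, mul_mem ha ha⟩).1 ((map_mul ψ ⟨a, ha⟩ ⟨a, ha⟩).trans (O.sq ⟨_, rfl⟩))

theorem tv (h1 : d ∈ S) (h2 : d ∈ 𝐍 E) (h3 : d ∉ E) (h4 : d * d ∈ E)
    (k : ∀ e ∈ E, d * e * d⁻¹ * e⁻¹ = 1 ∨ d * e * d⁻¹ * e⁻¹ = z) :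
    z ∈ E ∧ (∀ t ∈ S, t ∈ 𝐍 E → t ∈ E ∨ t * d⁻¹ ∈ E) ∧ (∀ c ∈ E, c * c ≠ z) ∧
    (∀ c ∈ E, Commute d c → (∀ g ∈ 𝐍 E, Commute d (g * c * g⁻¹)) ∨ ∀ g ∈ 𝐍 E, Commute d (g * (c * z) * g⁻¹)) ∧
    ∃ h ∈ 𝐍 E, d * (h * z * h⁻¹) * d⁻¹ = h * z * h⁻¹ * z ∧
      (∀ g ∈ 𝐍 E, g * z * g⁻¹ = z ∨ g * z * g⁻¹ = h * z * h⁻¹ ∨ g * z * g⁻¹ = h * z * h⁻¹ * z) ∧
      ∀ g ∈ 𝐍 E, ∃ n ∈ 𝐍 E, n ∈ 𝐍 S ∧ ∀ e ∈ E, ∃ i j : ℕ,
        g * e * g⁻¹ = n * (e * (z ^ i * (h * z * h⁻¹) ^ j)) * n⁻¹ ∧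
        ((∀ x ∈ 𝐍 E, Commute d (x * e * x⁻¹)) → g * e * g⁻¹ = n * e * n⁻¹) := by
  have hz : z ∈ E := by
    obtain ⟨e, he, ne⟩ := H.nc' h1 h3
    exact (k e he).resolve_left (fun l => ne (cjc (mul_inv_eq_one.1 l))) ▸ mul_mem (cm h2 he) (inv_mem he)
  obtain ⟨V, _, _, X, _, _, _, T, ι, π, K⟩ := H.model
  obtain ⟨z, rfl⟩ := K.sur z hz
  obtain ⟨a1, a2, a3, h, a4, a5, a6⟩ := K.m.tv (z := z) (K.mT d h1 h2) (mt (K.eq1 H h1 h2).1 h3)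
    (by rwa [← K.mul d h2 d h2, K.eq1 H (mul_mem h1 h1) (mul_mem h2 h2)]) fun v => by
      rw [K.eq0, ← K.inj.eq_iff, K.com h2]; exact k _ (K.mem v)
  obtain ⟨h, hh, rfl⟩ := K.surX h
  have fx : ∀ c, (∀ x : X, π d • x • c = x • c) ↔ ∀ g ∈ 𝐍 E, Commute d (g * ι c * g⁻¹) := fun c =>
    ⟨fun l g hg => K.act g hg c ▸ (K.fix h2).1 (l _), fun l x => by
      obtain ⟨g, hg, rfl⟩ := K.surX x
      exact (K.fix h2).2 (K.act g hg c ▸ l g hg)⟩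
  refine ⟨K.mem z, fun t k1 k2 => (a1 _ (K.mT t k1 k2)).imp (K.eq1 H k1 k2).1 (K.eqv H k1 k2 h1 h2),
    fun c hc l => ?_, fun c hc l => ?_, h, hh, ?_, fun g hg => ?_, fun g hg => ?_⟩
  · obtain ⟨c, rfl⟩ := K.sur c hc
    exact a2 c (K.inj (by rwa [K.two]))
  · obtain ⟨c, rfl⟩ := K.sur c hc
    rw [← K.add, ← fx, ← fx]
    exact a3 c ((K.fix h2).2 l)
  · rw [← K.act h hh, ← K.act d h2, a4, K.add]
  · simpa only [← K.act g hg, ← K.act h hh, ← K.add, K.inj.eq_iff] using a5 (π g)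
  · obtain ⟨n, k1, k2⟩ := a6 (π g)
    obtain ⟨n, k3, k4, rfl⟩ := K.surN n k1
    refine ⟨n, k3, k4, fun e he => ?_⟩
    obtain ⟨e, rfl⟩ := K.sur e he
    obtain ⟨i, j, k5, k6⟩ := k2 e
    exact ⟨i, j, by rw [← K.act g hg, k5, K.act n k3, K.add, K.add, K.nsm, K.nsm, K.act h hh],
      fun l => by rw [← K.act g hg, k6 ((fx e).2 l), K.act n k3]⟩

theorem conj (hn : n ∈ 𝐍 S) : Ess S (cj n E) := by
  refine ⟨H.hy, cj_le_of_mem_normalizer H.le hn, ?_, fun s hs k => mem_cj.2 (H.cen _ (cm' hn hs) fun e he => ?_),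
    by simpa only [cj_inf, cj_normalizer, cj_eq_self hn] using H.syl.conj n, ?_⟩
  · rintro _ ⟨x, hx, rfl⟩ _ ⟨y, hy, rfl⟩
    exact (H.ab x hx y hy).map _
  · simpa [mul_assoc] using (k _ (conj_mem_cj he)).map (MulAut.conj n⁻¹)
  · obtain ⟨g, hg, k⟩ := H.nc
    refine ⟨n * g * n⁻¹, cj_normalizer n E ▸ conj_mem_cj hg, fun m k1 k2 => ?_⟩
    rw [← cj_normalizer, mem_cj] at k1
    obtain ⟨e, he, k⟩ := k _ k1 (mul_mem (mul_mem (inv_mem hn) k2) hn)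
    refine ⟨_, conj_mem_cj he, fun l => k ?_⟩
    calc _ = n⁻¹ * (n * g * n⁻¹ * (n * e * n⁻¹) * (n * g * n⁻¹)⁻¹) * n := by group
      _ = _ := by rw [l]; group

theorem eq_of_le {E' : Subgroup G} (ab : ∀ x ∈ E', ∀ y ∈ E', Commute x y) (l : E' ≤ S) (k : E ≤ E') : E' = E :=
  le_antisymm (fun x hx => H.cen x (l hx) fun e he => ab x hx e (k he)) k

end Ess

end H28.AI
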