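/-
Point stabilizers for linear or unitary socle (notes/SB.md): transitivity on vectors.
-/
import Cfsg.Agent.H22.SB3
import Cfsg.Agent.H11.Order3

set_option autoImplicit false
set_option linter.unusedSectionVars false

namespace H28.SB
open Matrix H22.SB

universe u

variable {F : Type} [Field F] [Fintype F] {ι : Type} [Fintype ι] [DecidableEq ι] (Φ : Fm F)

theorem det_vmv (y l : ι → F) : (1 + vecMulVec y l).det = 1 + l ⬝ᵥ y := by
  rw [vecMulVec_eq Unit, det_one_add_replicateCol_mul_replicateRow]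

theorem vmv_apply (y l v : ι → F) : (1 + vecMulVec y l) *ᵥ v = v + (l ⬝ᵥ v) • y := by
  rw [add_mulVec, one_mulVec, vecMulVec_mulVec]; simp [mul_comm]

theorem nm (hu : Φ.u) {a : F} (ha : Φ.c a = a) : ∃ t, t * Φ.c t = a := by
  obtain ⟨t, ht⟩ := H11.exists_norm_eq (Φ.cU hu) (c := a) (Φ.cq a ▸ ha)
  exact ⟨t, by rw [Φ.cq]; exact ht⟩

theorem tr (hu : Φ.u) {a : F} (ha : Φ.c a = a) : ∃ t, t + Φ.c t = a := by
  refine H12.exists_trace_eq (σ := (Φ.c : F →+* F)) (fun h => H11.frob_ne_id (Φ.cU hu) ?_)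
    Φ.c_c ha
  ext x; have := DFunLike.congr_fun h x; simpa [Φ.cq] using this

theorem mu_ne (hu : Φ.u) : ∃ a, Φ.Mu a ∧ a ≠ 1 := by
  obtain ⟨a, ha⟩ := Φ.exists_gen
  have := Φ.q2
  exact ⟨a, ha.pow_eq_one, ha.ne_one (by rw [Φ.zU hu]; omega)⟩

theorem B_self (v : ι → F) : Φ.c (Φ.B v v) = Φ.B v v := Φ.B_symm v v

/-- the map `x ↦ x + c B(x, y) y` -/
def qr (c : F) (y : ι → F) : Matrix ι ι F := 1 + vecMulVec (c • y) (Φ.c ∘ y)

theorem qr_apply (c : F) (y v : ι → F) : qr Φ c y *ᵥ v = v + (c * Φ.B v y) • y := by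
  rw [qr, add_mulVec, one_mulVec, Φ.vmv_mulVec, smul_smul, mul_comm]

theorem qr_det (c : F) (y : ι → F) : (qr Φ c y).det = 1 + c * Φ.B y y := by
  rw [qr, det_vmv, dotProduct_comm, ← Φ.B_dot, Φ.B_smul_left]

theorem qr_mem {c : F} {y : ι → F} (hd : 1 + c * Φ.B y y ≠ 0)
    (h : c + Φ.c c + c * Φ.c c * Φ.B y y = 0) :
    Fm.mkG (qr Φ c y) (by rwa [qr_det]) ∈ Φ.Γ ι := by
  refine Φ.mem_Γ_of_B fun v w => ?_
  simp only [Fm.coe_mkG, qr_apply, Φ.B_add_left, Φ.B_add_right, Φ.B_smul_left, Φ.B_smul_right,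
    map_mul, Φ.B_symm]
  linear_combination Φ.B v y * Φ.B y w * h

theorem two_hyp {V : Type*} [AddCommGroup V] (f g : V →+ F) (hf : ∃ x, f x ≠ 0)
    (hg : ∃ x, g x ≠ 0) : ∃ x, f x ≠ 0 ∧ g x ≠ 0 := by
  obtain ⟨x, hx⟩ := hf
  obtain ⟨y, hy⟩ := hg
  by_cases h1 : g x = 0
  · by_cases h2 : f y = 0
    · exact ⟨x + y, by simpa [h2] using hx, by simpa [h1] using hy⟩
    · exact ⟨y, h2, hy⟩
  · exact ⟨x, hx, h1⟩

theorem exists_dot {v : ι → F} (hv : v ≠ 0) : ∃ l : ι → F, l ⬝ᵥ v ≠ 0 := by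
  obtain ⟨i, hi⟩ := Function.ne_iff.1 hv
  exact ⟨Pi.single i 1, by simpa using hi⟩

theorem tgL (hu : ¬ Φ.u) {v w : ι → F} (hv : v ≠ 0) (hw : w ≠ 0) :
    ∃ g ∈ Φ.Γ ι, (g : Matrix ι ι F) *ᵥ v = w := by
  obtain ⟨l, h1, h2⟩ := two_hyp (V := ι → F) (AddMonoidHom.mk' (· ⬝ᵥ v) fun a b => add_dotProduct ..)
    (AddMonoidHom.mk' (· ⬝ᵥ w) fun a b => add_dotProduct ..) (exists_dot hv) (exists_dot hw)
  change l ⬝ᵥ v ≠ 0 at h1
  change l ⬝ᵥ w ≠ 0 at h2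
  refine ⟨Fm.mkG (1 + vecMulVec (w - v) ((l ⬝ᵥ v)⁻¹ • l)) ?_, fun h => (hu h).elim, ?_⟩
  · rw [det_vmv, smul_dotProduct, dotProduct_sub, smul_eq_mul, mul_sub, inv_mul_cancel₀ h1]
    simpa [h1] using h2
  · rw [Fm.coe_mkG, vmv_apply, smul_dotProduct, smul_eq_mul, inv_mul_cancel₀ h1]; simp

theorem tgU0 {v w : ι → F} (h : Φ.B v v = Φ.B w w) (h1 : Φ.B v w ≠ Φ.B v v) :
    ∃ g ∈ Φ.Γ ι, (g : Matrix ι ι F) *ᵥ v = w := by
  set t := Φ.B v (v - w) with ht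
  have t0 : t ≠ 0 := by rw [ht, Φ.B_sub_right]; exact sub_ne_zero.2 h1.symm
  have c0 : Φ.c t ≠ 0 := by simpa using t0
  have hy : Φ.B (v - w) (v - w) = t + Φ.c t := by
    rw [ht, Φ.B_symm]; simp only [Φ.B_sub_left, Φ.B_sub_right, h]; ring
  refine ⟨_, qr_mem Φ (c := -t⁻¹) (y := v - w) ?_ ?_, ?_⟩
  · rw [hy]; field_simp; simpa using c0
  · rw [hy, map_neg, map_inv₀]; field_simp; ring
  · rw [Fm.coe_mkG, qr_apply, ← ht, neg_mul, inv_mul_cancel₀ t0]; simp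

theorem sc_mem [Nonempty ι] {a : F} (ha : Φ.Mu a) :
    Fm.mkG (a • (1 : Matrix ι ι F)) (by simp [ha.ne]) ∈ Φ.Γ ι :=
  Φ.smul_mem_Γ (one_mem _) ha rfl

theorem tgU (hu : Φ.u) {v w : ι → F} (hv : v ≠ 0) (hw : w ≠ 0) (h : Φ.B v v = Φ.B w w) :
    ∃ g ∈ Φ.Γ ι, (g : Matrix ι ι F) *ᵥ v = w := by
  suffices ∃ x, Φ.B x x = Φ.B v v ∧ Φ.B v x ≠ Φ.B v v ∧
      ∃ g ∈ Φ.Γ ι, (g : Matrix ι ι F) *ᵥ x = w by
    obtain ⟨x, h1, h2, g, hg, e⟩ := this
    obtain ⟨g', hg', e'⟩ := tgU0 Φ h1.symm h2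
    exact ⟨g * g', mul_mem hg hg', by rw [Units.val_mul, ← mulVec_mulVec, e', e]⟩
  by_cases h1 : Φ.B v w = Φ.B v v
  swap
  · exact ⟨w, h.symm, h1, 1, one_mem _, by simp⟩
  by_cases h0 : Φ.B v v = 0
  · obtain ⟨x, h2, h3⟩ := two_hyp (V := ι → F) (AddMonoidHom.mk' (Φ.B v ·) (Φ.B_add_right v))
      (AddMonoidHom.mk' (Φ.B w ·) (Φ.B_add_right w))
      (by by_contra! e; exact hv (Φ.B_nd e)) (by by_contra! e; exact hw (Φ.B_nd e))
    change Φ.B v x ≠ 0 at h2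
    change Φ.B w x ≠ 0 at h3
    obtain ⟨t, ht⟩ := tr Φ hu (a := -Φ.B x x) (by rw [map_neg, B_self])
    have hn : Φ.B (x + (t / Φ.B v x) • v) (x + (t / Φ.B v x) • v) = 0 := by
      have c0 : Φ.B x v ≠ 0 := by rw [← Φ.B_symm]; simpa using h2
      simp only [Φ.B_add_left, Φ.B_add_right, Φ.B_smul_left, Φ.B_smul_right, h0, map_div₀,
        Φ.B_symm]
      field_simp
      linear_combination Φ.B x v * Φ.B v x * ht
    refine ⟨_, hn.trans h0.symm, ?_, tgU0 Φ (by rw [hn, ← h, h0]) ?_⟩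
    · simpa [Φ.B_add_right, Φ.B_smul_right, h0] using h2
    · rw [hn, Φ.B_add_left, Φ.B_smul_left, h1, h0, ← Φ.B_symm]; simpa using h3
  · obtain ⟨a, ha, a1⟩ := mu_ne Φ hu
    have : Nonempty ι := by by_contra! e; exact hv (Subsingleton.elim _ _)
    have hc := (Φ.mu_U hu).1 ha
    refine ⟨a • w, ?_, ?_, _, sc_mem Φ ha.inv, ?_⟩
    · rw [Φ.B_smul_left, Φ.B_smul_right, ← mul_assoc, hc, one_mul, h]
    · rw [Φ.B_smul_right, h1]
      intro e
      have : Φ.c a = 1 := mul_right_cancel₀ h0 (by rw [e, one_mul])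
      exact a1 (by simpa [this] using hc)
    · rw [Fm.coe_mkG, smul_mulVec, one_mulVec, smul_smul, inv_mul_cancel₀ ha.ne, one_smul]

theorem exists_perp (hu : Φ.u) (h3 : 3 ≤ Fintype.card ι) (w : ι → F) :
    ∃ y, Φ.B w y = 0 ∧ Φ.B y y ≠ 0 := by
  by_contra! hc
  have pol : ∀ y y', Φ.B w y = 0 → Φ.B w y' = 0 → Φ.B y y' = 0 := by
    intro y y' h1 h2
    by_contra h0
    obtain ⟨t, ht⟩ := tr Φ hu (a := 1) (map_one _)
    have := hc ((t / Φ.B y y') • y + y') (by rw [Φ.B_add_right, Φ.B_smul_right, h1, h2]; simp)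
    have c0 : Φ.B y' y ≠ 0 := by rw [← Φ.B_symm]; simpa using h0
    simp only [Φ.B_add_left, Φ.B_add_right, Φ.B_smul_left, Φ.B_smul_right, hc y h1, hc y' h2,
      map_div₀, Φ.B_symm] at this
    field_simp at this
    apply mul_ne_zero h0 c0
    linear_combination this - Φ.B y y' * Φ.B y' y * ht
  obtain ⟨i, j, k, hij, hik, hjk⟩ := Fintype.two_lt_card_iff.1 (show 2 < Fintype.card ι by omega)
  have h0 : ∀ i, w i ≠ 0 := fun i e => by
    simpa [Φ.B_single_left] using hc (Pi.single i 1) (by simp [Φ.B_single_right, e])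
  have hy : ∀ j, Φ.B w (Pi.single i (Φ.c (w j)) - Pi.single j (Φ.c (w i))) = 0 := fun j => by
    simp only [Φ.B_sub_right, Φ.B_single_right, Φ.c_c]; ring
  have := pol _ _ (hy j) (hy k)
  simp [Φ.B_sub_left, Φ.B_single_left, Pi.single_apply, hij, hik, hjk, hij.symm, h0] at this

theorem hs (h2 : 2 ≤ Fintype.card ι) (h3 : Φ.u → 3 ≤ Fintype.card ι) : Φ.Hs ι := by
  intro w hw a ha
  by_cases hu : Φ.u
  · obtain ⟨y, h1, h0⟩ := exists_perp Φ hu (h3 hu) w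
    have hc := (Φ.mu_U hu).1 ha
    have hd : 1 + (a - 1) / Φ.B y y * Φ.B y y = a := by field_simp; ring
    refine ⟨_, qr_mem Φ (c := (a - 1) / Φ.B y y) (y := y) (by rw [hd]; exact ha.ne) ?_, ?_, ?_⟩
    · rw [map_div₀, B_self, map_sub, map_one]; field_simp; linear_combination hc
    · rw [Fm.coe_mkG, qr_apply, h1]; simp
    · rw [Fm.coe_mkG, qr_det, hd]
  · obtain ⟨i, hi⟩ := Function.ne_iff.1 hw
    obtain ⟨j, hj⟩ := Fintype.exists_ne_of_one_lt_card (show 1 < Fintype.card ι by omega) i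
    have hi : w i ≠ 0 := hi
    set l : ι → F := Pi.single j 1 - Pi.single i (w j / w i)
    have hd : 1 + l ⬝ᵥ Pi.single j (a - 1) = a := by simp [l, hj]
    refine ⟨Fm.mkG (1 + vecMulVec (Pi.single j (a - 1)) l) (by rw [det_vmv, hd]; exact ha.ne),
      fun h => (hu h).elim, ?_, by rw [Fm.coe_mkG, det_vmv, hd]⟩
    rw [Fm.coe_mkG, vmv_apply]
    have : l ⬝ᵥ w = 0 := by simp [l, hi]
    rw [this]; simp

theorem tg : TG := by
  intro F _ _ Φ ι _ _ v w hv hw h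
  have h1 : ∃ g ∈ Φ.Γ ι, (g : Matrix ι ι F) *ᵥ v = w := by
    by_cases hu : Φ.u
    · exact tgU Φ hu hv hw (h hu)
    · exact tgL Φ hu hv hw
  refine ⟨h1, fun h2 h3 => ?_⟩
  obtain ⟨g, hg, e⟩ := h1
  obtain ⟨g', hg', e', hd⟩ := hs Φ h2 h3 w hw _ (Φ.det_Mu hg).inv
  refine ⟨⟨g' * g, Φ.mem_S.2 ⟨mul_mem hg' hg, ?_⟩⟩, ?_⟩
  · rw [Units.val_mul, det_mul, hd, inv_mul_cancel₀ (Φ.det_Mu hg).ne]
  · change ((g' * g : GL ι F) : Matrix ι ι F) *ᵥ v = w
    rw [Units.val_mul, ← mulVec_mulVec, e, e']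

theorem ir : IR := by
  intro F _ _ Φ n h2 h3 A hA
  refine or_iff_not_imp_left.2 fun h0 => ?_
  obtain ⟨v, hv, v0⟩ := (Submodule.ne_bot_iff A).1 h0
  have key : ∀ w, w ≠ 0 → (Φ.u → Φ.B v v = Φ.B w w) → w ∈ A := fun w hw h => by
    obtain ⟨s, e⟩ := (tg F Φ (Fin n) v w v0 hw h).2 (by simpa) (by simpa)
    exact e ▸ hA s v hv
  suffices ∀ j, ∃ t : F, t ≠ 0 ∧ Pi.single j t ∈ A by
    rw [eq_top_iff, ← (Pi.basisFun F (Fin n)).span_eq, Submodule.span_le]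
    rintro _ ⟨j, rfl⟩
    obtain ⟨t, t0, ht⟩ := this j
    have := A.smul_mem t⁻¹ ht
    rw [← Pi.single_smul, smul_eq_mul, inv_mul_cancel₀ t0] at this
    simpa using this
  intro j
  by_cases hu : Φ.u
  swap
  · exact ⟨1, one_ne_zero, key _ (by simp) fun h => (hu h).elim⟩
  by_cases a0 : Φ.B v v = 0
  · obtain ⟨i, hi⟩ := Fintype.exists_ne_of_one_lt_card
      (show 1 < Fintype.card (Fin n) by simp; omega) j
    obtain ⟨t, ht⟩ := nm Φ hu (a := -1) (by simp)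
    obtain ⟨a, ha, a1⟩ := mu_ne Φ hu
    have hc := (Φ.mu_U hu).1 ha
    have k : ∀ t, t * Φ.c t = -1 → (Pi.single i 1 + Pi.single j t : Fin n → F) ∈ A := fun t ht =>
      key _ (fun e => by simpa [hi] using congrFun e i) fun _ => by
        simp [a0, Φ.B_add_left, Φ.B_single_left, hi, hi.symm, ht]
    have t0 : t ≠ 0 := by rintro rfl; simp at ht
    refine ⟨a * t - t, ?_, ?_⟩
    · intro e; exact a1 (mul_right_cancel₀ t0 (by rw [one_mul]; exact sub_eq_zero.1 e))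
    · have := A.sub_mem (k (a * t) (by rw [map_mul]; linear_combination ht + t * Φ.c t * hc))
        (k t ht)
      rwa [add_sub_add_left_eq_sub, ← Pi.single_sub] at this
  · obtain ⟨t, ht⟩ := nm Φ hu (B_self Φ v)
    have t0 : t ≠ 0 := by rintro rfl; exact a0 (by simpa using ht.symm)
    exact ⟨t, t0, key _ (by simpa using t0) fun _ => by simp [Φ.B_single_left, ht]⟩

theorem ps : PS := by
  intro F _ _ Φ n k β h3 hβ hk
  obtain ⟨i, hi⟩ := hβ ⟨0, by omega⟩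
  obtain ⟨j, hj⟩ := hβ ⟨1, by omega⟩
  have hb : β i ≠ β j := by rw [hi, hj]; simp
  have hij : i ≠ j := fun e => hb (e ▸ rfl)
  have h2 : 2 ≤ Fintype.card (Fin n) := Fintype.one_lt_card_iff.2 ⟨i, j, hij⟩
  obtain ⟨w, wi, wj, hw⟩ : ∃ w : Fin n → F, w i ≠ 0 ∧ w j ≠ 0 ∧ (Φ.u → Φ.B w w = 1) := by
    by_cases hu : Φ.u
    · obtain ⟨l, li, lj⟩ : ∃ l, l ≠ i ∧ l ≠ j := by
        by_contra! e
        have : (Finset.univ : Finset (Fin n)) ⊆ {i, j} := fun l _ => by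
          by_cases h : l = i
          · simp [h]
          · simp [e l h]
        have := (Finset.card_le_card this).trans Finset.card_le_two
        have := h3 hu
        simp at *; omega
      obtain ⟨t, ht⟩ := nm Φ hu (a := -1) (by simp)
      have t0 : t ≠ 0 := by rintro rfl; simp at ht
      refine ⟨Pi.single i 1 + Pi.single j t + Pi.single l 1, by simp [hij, li.symm],
        by simp [hij.symm, lj.symm, t0], fun _ => ?_⟩
      simp [Φ.B_add_left, Φ.B_single_left, hij, hij.symm, li, lj, li.symm, lj.symm, ht]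
    · exact ⟨1, one_ne_zero, one_ne_zero, fun h => (hu h).elim⟩
  obtain ⟨s, e⟩ := (tg F Φ (Fin n) (Pi.single i 1) w (by simp) (fun e => wi (by simp [e]))
    fun hu => by simp [hw hu, Φ.B_single_left]).2 h2 (by simpa)
  refine ⟨s, fun hs => ?_⟩
  obtain ⟨b, hb'⟩ := (hs (eb F β (β i))).1 ⟨_, rfl⟩
  have : eb F β b *ᵥ w = w := by
    rw [hb', ← e, mulVec_mulVec, Units.inv_mul_cancel_right, ← mulVec_mulVec]
    congr 1
    ext l; by_cases h : l = i <;> simp [eb, mulVec_diagonal, h]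
  have k : ∀ l, w l ≠ 0 → β l = b := fun l hl => by
    by_contra h
    have := congrFun this l
    simp [eb, mulVec_diagonal, h, hl.symm] at this
  exact hb ((k i wi).trans (k j wj).symm)

end H28.SB
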