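/-
Point stabilizers for linear or unitary socle (notes/SB.md): orders and vector counts.
-/
import Cfsg.Agent.H28.BD1

set_option autoImplicit false
set_option linter.unusedSectionVars false

namespace H28.SB
open Matrix H22.SB

universe u

variable {F : Type} [Field F] [Fintype F] {ι : Type} [Fintype ι] [DecidableEq ι] (Φ : Fm F)

theorem cardL (hu : ¬ Φ.u) {m : ℕ} (hm : Fintype.card ι = m) :
    Nat.card (Φ.Γ ι) = ∏ i ∈ Finset.range m, (Φ.q ^ m - Φ.q ^ i) := by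
  have : Φ.Γ ι = ⊤ := eq_top_iff.2 fun g _ h => (hu h).elim
  rw [this, Subgroup.card_top, Nat.card_congr (Units.mapEquiv
    (reindexAlgEquiv F F (Fintype.equivFinOfCardEq hm)).toMulEquiv).toEquiv, card_GL_field,
    Φ.cL hu, Finset.prod_range]

theorem B_C (hu : Φ.u) (v w : ι → F) : (H11.hermC ι (Φ.cU hu)).B v w = Φ.B w v := by
  rw [H11.hermC_B]; simp [Fm.B, Φ.cq]

theorem N_C (hu : Φ.u) (v : ι → F) : (H11.hermC ι (Φ.cU hu)).N v = Φ.B v v := by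
  rw [H11.hermC_N]; simp [Fm.B, Φ.cq]

theorem cardU (hu : Φ.u) {m : ℕ} (hm : Fintype.card ι = m) :
    Nat.card (Φ.Γ ι) = Φ.q ^ (m * (m - 1) / 2) *
      ∏ i ∈ Finset.range m, (if Even i then Φ.q ^ (i + 1) + 1 else Φ.q ^ (i + 1) - 1) := by
  rw [← H11.card_isom_herm m (H11.hermC_nondeg (ι := ι) (Φ.cU hu)) (by simpa using hm)]
  refine Nat.card_congr (H11.subgroupGLEquiv (Φ.Γ ι) (H11.hermC ι (Φ.cU hu)).isom fun g =>
    ⟨fun h => And.intro (fun v w => ?_) fun v => ?_, fun h => Φ.mem_Γ_of_B fun v w => ?_⟩).toEquiv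
  · simp only [B_C Φ hu, H11.glEquiv_apply, Fm.B_Γ h hu]
  · simp only [N_C Φ hu, H11.glEquiv_apply, Fm.B_Γ h hu]
  · simpa only [B_C Φ hu, H11.glEquiv_apply] using h.1 w v

theorem prodU (q : ℕ) (j : ℕ) :
    ∏ i ∈ Finset.range (2 * j + 1), (if Even i then q ^ (i + 1) + 1 else q ^ (i + 1) - 1) ≤
      (q + 1) * q ^ (2 * j ^ 2 + 3 * j) := by
  induction j with
  | zero => simp
  | succ j ih =>
    rw [show 2 * (j + 1) + 1 = 2 * j + 1 + 1 + 1 by ring, Finset.prod_range_succ,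
      Finset.prod_range_succ, if_neg (by simp [parity_simps]), if_pos (by simp [parity_simps]),
      mul_assoc, show 2 * (j + 1) ^ 2 + 3 * (j + 1) = 2 * j ^ 2 + 3 * j + (4 * j + 5) by ring,
      pow_add q (2 * j ^ 2 + 3 * j), ← mul_assoc (q + 1)]
    refine Nat.mul_le_mul ih ?_
    rcases Nat.eq_zero_or_pos q with rfl | hq
    · simp
    obtain ⟨a, ha⟩ : ∃ a, q ^ (2 * j + 1 + 1) = a + 1 :=
      ⟨q ^ (2 * j + 1 + 1) - 1, by have := Nat.pow_pos (n := 2 * j + 1 + 1) hq; omega⟩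
    have e : q ^ (4 * j + 5) = q ^ (2 * j + 1 + 1) * q ^ (2 * j + 1 + 1) * q := by ring
    rw [e, pow_succ q (2 * j + 1 + 1), ha, Nat.add_sub_cancel]
    nlinarith

theorem gc : GC := by
  intro F _ _ Φ ι _ _
  have q2 := Φ.q2
  refine ⟨fun h1 => ?_, fun h hu => ?_, fun h hu => ?_, fun h hu hq => ?_⟩
  · obtain ⟨m, hm⟩ : ∃ m, Fintype.card ι = m + 1 := ⟨_, (Nat.sub_add_cancel h1).symm⟩
    rw [hm]
    by_cases hu : Φ.u
    · rw [cardU Φ hu hm, Φ.zU hu]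
      obtain ⟨j, rfl | rfl⟩ := Nat.even_or_odd' m
      · refine (Nat.mul_le_mul_left _ (prodU _ j)).trans (le_of_eq ?_)
        rw [mul_left_comm, ← pow_add]
        congr 2
        have : (2 * j + 1) * (2 * j + 1 - 1) = 2 * ((2 * j + 1) * j) := by
          rw [Nat.add_sub_cancel]; ring
        rw [this, Nat.mul_div_cancel_left _ two_pos]
        exact Nat.eq_sub_of_add_eq (by ring)
      · rw [Finset.prod_range_succ, if_neg (by simp [parity_simps])]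
        refine (Nat.mul_le_mul_left _ (Nat.mul_le_mul (prodU _ j) (Nat.sub_le _ _))).trans
          (le_of_eq ?_)
        rw [mul_assoc, mul_left_comm, ← pow_add, ← pow_add]
        congr 2
        have : (2 * j + 1 + 1) * (2 * j + 1 + 1 - 1) = 2 * ((j + 1) * (2 * j + 1)) := by
          rw [Nat.add_sub_cancel]; ring
        rw [this, Nat.mul_div_cancel_left _ two_pos]
        exact Nat.eq_sub_of_add_eq (by ring)
    · rw [cardL Φ hu hm, Φ.zL hu, Finset.prod_range_succ]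
      refine (Nat.mul_le_mul_right _ (Finset.prod_le_pow_card _ _ (Φ.q ^ (m + 1))
        fun i _ => Nat.sub_le _ _)).trans (le_of_eq ?_)
      rw [Finset.card_range, pow_succ Φ.q m, ← Nat.mul_sub_one, ← pow_succ, ← pow_mul, ← mul_assoc,
        ← pow_add, mul_comm]
      congr 2
      exact Nat.eq_sub_of_add_eq (by ring)
  · rw [cardL Φ hu h]; simp [Finset.prod_range_succ]
  · rw [cardU Φ hu h]; simp [Finset.prod_range_succ, mul_assoc]
  · rw [cardU Φ hu h, hq]; decide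

/-- the number of nonzero vectors of a given norm -/
noncomputable def NN (ι : Type) [Fintype ι] (a : F) : ℕ :=
  Nat.card {w : ι → F | w ≠ 0 ∧ (Φ.u → Φ.B w w = a)}

theorem oc_of {o c : ℕ} (h1 : ∀ v : ι → F, v ≠ 0 → o ≤ NN Φ ι (Φ.B v v))
    (h2 : ∀ a, NN Φ ι a ≤ c) : Φ.Oc ι o c :=
  ⟨fun v hv => (h1 v hv).trans (Nat.card_mono (Set.toFinite _) fun w hw =>
    (tg F Φ ι v w hv hw.1 fun hu => (hw.2 hu).symm).1), h2⟩

theorem NN_L (hu : ¬ Φ.u) (a : F) : NN Φ ι a = Φ.q ^ Fintype.card ι - 1 := by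
  have : {w : ι → F | w ≠ 0 ∧ (Φ.u → Φ.B w w = a)} = {0}ᶜ := by ext; simp [hu]
  rw [NN, this, Nat.card_coe_set_eq, Set.ncard_compl, Set.ncard_singleton, Nat.card_fun,
    Nat.card_eq_fintype_card, Nat.card_eq_fintype_card, Φ.cL hu]

theorem NN_ne (hu : Φ.u) {a : F} (ha : Φ.c a ≠ a) : NN Φ ι a = 0 := by
  have : {w : ι → F | w ≠ 0 ∧ (Φ.u → Φ.B w w = a)} = ∅ :=
    Set.eq_empty_of_forall_notMem fun w hw => ha (hw.2 hu ▸ B_self Φ w)
  rw [NN, this]; simp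

theorem NN_U (hu : Φ.u) {a : F} (ha : Φ.c a = a) (a0 : a ≠ 0) {m : ℕ} (hm : Fintype.card ι = m) :
    NN Φ ι a = if Even m then Φ.q ^ (m - 1) * (Φ.q ^ m - 1) else Φ.q ^ (m - 1) * (Φ.q ^ m + 1) := by
  rw [← H11.cnt_herm_ne (H11.hermC_nondeg (ι := ι) (Φ.cU hu)) (by simpa using hm)
    (Φ.cq a ▸ ha) a0, H11.cnt]
  refine Nat.card_congr (Equiv.subtypeEquivRight fun w => ?_)
  rw [N_C Φ hu]
  refine ⟨fun h => h.2 hu, fun h => ⟨?_, fun _ => h⟩⟩
  rintro rfl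
  exact a0 (h.symm.trans (Φ.B_zero_left _))

theorem NN_0 (hu : Φ.u) {m : ℕ} (hm : Fintype.card ι = m) :
    NN Φ ι 0 = if Even m then (Φ.q ^ m - 1) * (Φ.q ^ (m - 1) + 1)
      else (Φ.q ^ m + 1) * (Φ.q ^ (m - 1) - 1) := by
  have h := H11.cnt_herm_zero (H11.hermC_nondeg (ι := ι) (Φ.cU hu)) (n := m) (by simpa using hm)
  have e : {w : ι → F | (H11.hermC ι (Φ.cU hu)).N w = 0} =
      insert 0 {w : ι → F | w ≠ 0 ∧ (Φ.u → Φ.B w w = 0)} := by
    ext w; by_cases h0 : w = 0 <;> simp [h0, N_C Φ hu, hu, Φ.B_zero_left]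
  have h' : H11.cnt (H11.hermC ι (Φ.cU hu)) 0 = NN Φ ι 0 + 1 := by
    change Nat.card {w : ι → F | (H11.hermC ι (Φ.cU hu)).N w = 0} = _
    rw [e, Nat.card_coe_set_eq, Set.ncard_insert_of_notMem (by simp)]; rfl
  omega

theorem oc_U (hu : Φ.u) {o c n0 n1 : ℕ} (h0 : NN Φ ι 0 = n0)
    (h1 : ∀ a, Φ.c a = a → a ≠ 0 → NN Φ ι a = n1) (ho : n0 = 0 ∨ o ≤ n0) (ho' : o ≤ n1)
    (hc : n0 ≤ c) (hc' : n1 ≤ c) : Φ.Oc ι o c := by
  refine oc_of Φ (fun v hv => ?_) fun a => ?_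
  · by_cases e : Φ.B v v = 0
    · rw [e, h0]
      refine ho.resolve_left fun h => ?_
      have : Nonempty {w : ι → F | w ≠ 0 ∧ (Φ.u → Φ.B w w = 0)} := ⟨⟨v, hv, fun _ => e⟩⟩
      exact Nat.card_pos.ne' (h0.trans h)
    · rwa [h1 _ (B_self Φ v) e]
  · by_cases ha : Φ.c a = a
    · by_cases e : a = 0
      · rwa [e, h0]
      · rwa [h1 a ha e]
    · rw [NN_ne Φ hu ha]; exact Nat.zero_le _

theorem oc : OC := by
  intro F _ _ Φ ι _ _
  refine ⟨fun h => ?_, fun h hu => ⟨?_, hs Φ h.ge fun e => (hu e).elim⟩, fun h hu => ?_,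
    fun h hu hq => ⟨?_, hs Φ (by omega) fun _ => h.ge⟩⟩
  · by_cases hu : Φ.u
    · refine oc_U Φ hu (NN_0 Φ hu h) (fun a ha a0 => NN_U Φ hu ha a0 h) ?_ ?_ ?_ ?_ <;>
        simp [Φ.zU hu]
    · exact oc_of Φ (fun v _ => by simp [NN_L Φ hu, h, Φ.zL hu])
        fun a => by simp [NN_L Φ hu, h, Φ.zL hu]
  · exact oc_of Φ (fun v _ => by simp [NN_L Φ hu, h]) fun a => by simp [NN_L Φ hu, h]
  · refine oc_U Φ hu (NN_0 Φ hu h) (fun a ha a0 => NN_U Φ hu ha a0 h) (Or.inr ?_) ?_ ?_ ?_ <;>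
      simp [mul_comm, Nat.mul_le_mul_right]
  · refine oc_U Φ hu (NN_0 Φ hu h) (fun a ha a0 => NN_U Φ hu ha a0 h) (Or.inr ?_) ?_ ?_ ?_ <;>
      rw [hq] <;> decide

end H28.SB
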