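/-
Point stabilizers for linear or unitary socle (notes/SB.md): order bounds.
-/
import Cfsg.Agent.H28.BD2

set_option autoImplicit false
set_option linter.unusedSectionVars false

namespace H28.SB
open Matrix H22.SB

universe u

theorem card_ringAut {F : Type} [Field F] [Fintype F] {p n : ℕ} (hp : p.Prime) [CharP F p]
    (hq : Fintype.card F = p ^ n) : Nat.card (RingAut F) = n := by
  have := Fact.mk hp
  letI := ZMod.algebra F p
  have h1 := FiniteField.pow_finrank_eq_natCard p F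
  rw [Nat.card_eq_fintype_card, hq] at h1
  rw [← Nat.pow_right_injective hp.two_le h1, ← IsGalois.card_aut_eq_finrank]
  exact Nat.card_congr
    { toFun := fun σ => { σ with
        commutes' := fun c =>
          RingHom.congr_fun (RingHom.ext_zmod ((σ : F →+* F).comp (algebraMap _ F)) _) c }
      invFun := fun σ => σ.toRingEquiv
      left_inv := fun _ => rfl
      right_inv := fun _ => rfl }

theorem sz : SZ.{u} := by
  intro F _ _ Φ G _ _ n X K
  have hch := Φ.ch
  have h1 : (X.Hs K).relIndex K ∣ 2 * Φ.f := by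
    by_cases hu : Φ.u
    · have : X.Hs K = K ⊓ X.σ.ker := by ext; simp [Tx.mem_Hs, X.εU hu]
      rw [this, Subgroup.inf_relIndex_left, Subgroup.relIndex_ker,
        ← card_ringAut (n := 2 * Φ.f) Φ.pp (by rw [Φ.cU hu, Φ.hq, ← pow_mul, mul_comm])]
      exact Subgroup.card_subgroup_dvd_card _
    · have : X.Hs K = K ⊓ (X.σ.prod X.ε).ker := by ext; simp [Tx.mem_Hs]
      rw [this, Subgroup.inf_relIndex_left, Subgroup.relIndex_ker,
        ← card_ringAut (n := Φ.f) Φ.pp (by rw [Φ.cL hu, Φ.hq])]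
      refine (Subgroup.card_subgroup_dvd_card _).trans (dvd_of_eq ?_)
      rw [Nat.card_prod, mul_comm, Nat.card_eq_fintype_card, Fintype.card_units_int]
  refine ⟨h1, fun 𝒳 h𝒳 => ?_⟩
  have := X.ne
  have th : ∀ h : X.Hs K, ∀ x, X.th h x = X.g h * x * ((X.g h)⁻¹ : GL (Fin n) F) := fun h x => by
    obtain ⟨-, e1, e2⟩ := X.mem_Hs.1 h.2
    rw [X.th_lin e2, e1]; rfl
  have h2 : Nat.card (X.Hs K) * Φ.z ≤ Nat.card (St 𝒳 ⊓ Φ.Γ (Fin n) : Subgroup _) := by
    rw [← Φ.card_Mu, ← Nat.card_prod]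
    refine Nat.card_le_card_of_injective (fun x => ⟨Fm.mkG ((x.2 : F) • (1 : Mat n F))
      (by simp [Fm.Mu.ne x.2.2]) * X.g x.1, mul_mem (mem_St_of_comm fun y _ => ?_) fun y => ?_,
      mul_mem (sc_mem Φ x.2.2) (X.gΓ _)⟩) ?_
    · simp [Fm.coe_mkG]
    · rw [← th]; exact Tx.Iv.iff X h𝒳 (X.mem_Hs.1 x.1.2).1 y
    · rintro ⟨h, a, ha⟩ ⟨h', a', ha'⟩ e
      have e : a • (X.g h : Mat n F) = a' • (X.g h' : Mat n F) := by
        simpa [Fm.coe_mkG] using congrArg (fun x => (x.1 : Mat n F)) e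
      have e1 : ∀ x, X.th h x = X.th h' x := fun x => by
        rw [th, th, Units.mul_inv_eq_iff_eq_mul]
        have : (X.g h : Mat n F) = (a⁻¹ * a') • (X.g h' : Mat n F) := by
          rw [mul_smul, ← e, smul_smul, inv_mul_cancel₀ (Fm.Mu.ne ha), one_smul]
        rw [this, smul_mul_assoc, mul_smul_comm, Units.inv_mul_cancel_right]
      have e2 : h = h' := by
        refine Subtype.ext (inv_mul_eq_one.1 (X.eq_one_of_th ?_ fun s => ?_)).symm
        · exact (X.mem_Hs.1 (h'⁻¹ * h).2).2.2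
        · rw [X.th_th, e1, X.th_inv]
      subst e2
      have : a = a' := smul_left_injective F (X.g h).ne_zero e
      subst this
      rfl
  refine ⟨h2, ?_⟩
  have h3 := ((X.Hs K).subgroupOf K).index_mul_card
  rw [Nat.card_congr (Subgroup.subgroupOfEquivOfLe
    (show X.Hs K ≤ K from fun h hh => (X.mem_Hs.1 hh).1)).toEquiv] at h3
  rw [← h3, mul_assoc]
  exact Nat.mul_le_mul (Nat.le_of_dvd (by have := Φ.f1; omega) h1) h2

theorem idx_ge {G : Type*} [Group G] [Finite G] (H : Subgroup G) {t : G} (ht : t ∉ H) :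
    (H.map (MulAut.conj t).toMonoidHom).relIndex H + 1 ≤ H.index := by
  have e : (H.map (MulAut.conj t).toMonoidHom).subgroupOf H =
      MulAction.stabilizer H (t : G ⧸ H) := by
    ext h
    rw [MulAction.mem_stabilizer_iff, Subgroup.mem_subgroupOf, Subgroup.mem_map_equiv, eq_comm]
    change _ ↔ (t : G ⧸ H) = ((h * t : G) : G ⧸ H)
    rw [QuotientGroup.eq]; simp [mul_assoc]
  rw [Subgroup.relIndex, e, MulAction.index_stabilizer, Subgroup.index, ← Set.ncard_univ]
  refine Set.ncard_lt_ncard (Set.ssubset_univ_iff.2 fun h => ht ?_)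
  obtain ⟨h, hh⟩ : ((1 : G) : G ⧸ H) ∈ MulAction.orbit H (t : G ⧸ H) := h ▸ Set.mem_univ _
  have hh : ((h * t : G) : G ⧸ H) = ((1 : G) : G ⧸ H) := hh
  rw [QuotientGroup.eq, mul_one, inv_mem_iff] at hh
  simpa using H.mul_mem (inv_mem h.2) hh

theorem tb : TB.{u} := by
  intro F _ _ Φ G _ _ n X
  have h1 := ((sz F Φ G n X.toTx ⊤).2 ∅ fun _ _ _ h => h.elim).2
  have h2 := (gc F Φ (Fin n)).1 (by have := X.n2; simp; omega)
  have h3 := Subgroup.card_le_of_le (inf_le_right : St (∅ : Set (Mat n F)) ⊓ Φ.Γ (Fin n) ≤ _)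
  have h4 := idx_ge X.H X.sH
  rw [X.hd] at h4
  rw [Subgroup.card_top, ← X.H.card_mul_index] at h1
  rw [Fintype.card_fin] at h2
  refine Nat.le_of_mul_le_mul_right ?_ Φ.z_pos
  calc X.h * (X.d + 1) * Φ.z ≤ Nat.card X.H * X.H.index * Φ.z := by gcongr
    _ ≤ 2 * Φ.f * (Φ.z * Φ.q ^ (n ^ 2 - 1)) := h1.trans (Nat.mul_le_mul_left _ (h3.trans h2))
    _ = _ := by ring

end H28.SB
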