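import Cfsg.Agent.H17.GF0

/-! Groups with central Sylow 2-intersections: the component. -/

set_option autoImplicit false
set_option linter.unusedSectionVars false

namespace H28.CI
open Cfsg Subgroup H18 H17.GS
open H19 hiding eq_bot_mono

local notation "P2" => H19.PG 2

universe u
variable {G : Type u} [Group G] [Finite G] {A B D H J K L M P S T U X Y Z : Subgroup G}
  {a b c g n s t u w x y z : G}

theorem exM (hT : P2 T) (h1 : M < T) (h2 : T ≤ N(M)) (k1 : s ∈ N(M)) (k2 : s ∈ N(T)) (hs : PiE {2} s) :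
    ∃ x ∈ T, x ∉ M ∧ s * x * s⁻¹ * x⁻¹ ∈ M := by
  obtain ⟨x, hx, x1⟩ := exists_ne_one ((hT.quo M).meet_cent ((piG_zpowers.2 hs).quo M)
    (quo_norms (zpowers_le' k2)) fun e => h1.not_ge ((quo_eq_bot_iff h2).1 e))
  obtain ⟨x, hx', rfl⟩ := mem_im.1 hx.1
  have := hx.2
  rw [quo_zpowers k1, cent_zpowers] at this
  exact ⟨x, hx', fun e => x1 (qmk_eq_one.2 e), (qmk_comm k1 x.2).1 (mem_cent1_symm.1 this)⟩

section inn
variable (k2 : s ∈ N(T)) (hs : PiE {2} s) (hn : ∀ n ∈ L ⊓ N(T), s * n * s⁻¹ * n⁻¹ ∈ T)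
include k2 hs hn

theorem fixZ (hT : P2 T) (l : Z ≤ T) (c : Z ≤ C(T)) (n1 : N(T) ≤ N(Z)) (ne : Z ≠ ⊥)
    (tr : ∀ x ∈ Z, ∀ y ∈ Z, x ≠ 1 → y ≠ 1 → ∃ k ∈ L ⊓ N(T), k * x * k⁻¹ = y) : s ∈ C(Z) := by
  obtain ⟨x, hx, x1, e⟩ := exM (hT.of_le l) (bot_lt_iff_ne_bot.2 ne) (norm_bot.ge.trans' le_top) (norm_bot.ge trivial) (n1 k2) hs
  rw [mem_bot, mul_inv_eq_one] at e
  refine mem_cent.2 fun y hy => ?_
  by_cases y1 : y = 1
  · simp [y1]
  obtain ⟨k, hk, rfl⟩ := tr x hx y hy (by simpa using x1) y1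
  rw [eq_comm, ← mul_inv_eq_iff_eq_mul]
  calc _ = s * k * s⁻¹ * k⁻¹ * (k * (s * x * s⁻¹) * k⁻¹) * (s * k * s⁻¹ * k⁻¹)⁻¹ := by group
    _ = _ := by rw [e, conj_eq_of_cent (c hy) (hn k hk)]

theorem Bd.inn (h : Bd L T U K Z) (k1 : s ∈ N(L)) : ∃ y ∈ T, y⁻¹ * s ∈ C(L) := by
  have l : ∀ {k}, k ∈ L ⊓ N(T) ⊓ N(U) → k ∈ L ⊓ N(T) := fun k => k.1
  have c := fixZ k2 hs hn h.pg h.ZT h.cZ h.normZ h.Zne fun x hx y hy x1 y1 =>
    let ⟨k, a, b⟩ := h.tr x hx y hy x1 y1; ⟨k, l (h.le a), b⟩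
  let M : Subgroup G := {
    carrier := {x | x ∈ T ∧ s * x * s⁻¹ * x⁻¹ ∈ Z}
    one_mem' := ⟨one_mem _, by simp⟩
    mul_mem' := fun a b => ⟨mul_mem a.1 b.1, by
      simpa [mul_assoc] using mul_mem a.2 (conj_mem_of_norm (h.TnZ a.1) b.2)⟩
    inv_mem' := fun a => ⟨inv_mem a.1, by simpa [mul_assoc] using conj_mem_of_norm' (h.TnZ a.1) (inv_mem a.2)⟩ }
  have MT : M ≤ T := fun _ a => a.1
  have ZM : Z ≤ M := fun z hz => ⟨h.ZT hz, by simp [conj_eq_of_cent' c hz]⟩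
  have nM : ∀ n ∈ L ⊓ N(T), ∀ x ∈ M, n * x * n⁻¹ ∈ M := fun n k x hx => ⟨conj_mem_of_norm k.2 hx.1, by
    have := mul_mem (conj_mem_of_norm (h.TnZ (hn n k)) (conj_mem_of_norm (h.normZ k.2) hx.2))
      (h.der (comm_mem (hn n k) (conj_mem_of_norm k.2 hx.1)))
    convert this using 1; group⟩
  refine h.lemE k1 c ⟨h.normZ k2, fun x hx => ((?_ : T ≤ M) hx).2⟩
  rcases h.ty with ⟨-, hc, -⟩ | ⟨-, w, hw, w1, -, w2⟩
  · obtain ⟨x, hx, x1, e⟩ := exM h.pg h.Zlt h.TnZ (h.normZ k2) k2 hs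
    intro y hy
    by_cases k' : y ∈ Z
    · exact ZM k'
    obtain ⟨k, hk, z, hz, rfl⟩ := h.trT hc hx x1 hy k'
    exact mul_mem (ZM hz) (nM k (l (h.le hk)) x ⟨hx, e⟩)
  by_contra k
  obtain ⟨x, hx, x1, e⟩ := exM h.pg (lt_of_le_not_ge MT k) (norms_of_der_le (h.der.trans ZM) MT)
    (mem_norm_of_cj_le fun _ a => by
      obtain ⟨x, hx, rfl⟩ := mem_cj'.1 a
      simpa using mul_mem (ZM hx.2) hx) k2 hs
  have cy : ∀ u ∈ M, s * x * s⁻¹ * x⁻¹ * u = u * (s * x * s⁻¹ * x⁻¹) := fun u hu => by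
    have e0 := h.der (comm_mem hx hu.1)
    have e1 := conj_eq_of_cent' c e0
    have e2 := conj_eq_of_cent (h.cZ hu.2) (conj_mem_of_norm k2 hx)
    have e3 := conj_eq_of_cent (h.cZ e0) e.1
    have e4 := conj_eq_of_cent (h.cZ e0) (h.ZT hu.2)
    rw [← mul_inv_eq_iff_eq_mul, mul_assoc, ← mul_inv_eq_one, ← mul_right_inj (x * u * x⁻¹ * u⁻¹), mul_one,
      ← (MulAut.conj (s * u * s⁻¹ * u⁻¹)).injective.eq_iff, MulAut.conj_apply, MulAut.conj_apply, e4]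
    nth_rw 1 [← e3, ← e2]
    nth_rw 2 [← e1]
    group
  have y2 : s * x * s⁻¹ * x⁻¹ ∉ Z := fun a => x1 ⟨hx, a⟩
  generalize s * x * s⁻¹ * x⁻¹ = y at e cy y2
  have k3 : w * y * w⁻¹ * y⁻¹ ∈ Z := (h.memZ _).2 ⟨mul_mem (nM w (l hw) y e).1 (inv_mem e.1), by
    rw [(show Commute y _ from cy _ (nM w (l hw) y e)).inv_left.mul_mul_mul_comm, ← mul_inv_rev,
      show w * y * w⁻¹ * (w * y * w⁻¹) = w * (y * y) * w⁻¹ by group, conj_eq_of_cent' w1 (h.sq y e.1), mul_inv_cancel]⟩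
  have k4 := (le_Cm.1 (zpowers_le' (mem_Cm_zp (h.normZ hw.1.2) (h.TnZ e.1) k3))).2
  have k5 := le_sup_cent_of_commg_le (K := zpowers y) (zpowers_le' (h.normZ hw.1.2))
    (odd_cop h.odd hw (h.pg.of_le h.ZT)) (.inl (sol_zpowers w)) (by rwa [commg_comm])
  rw [cent_zpowers] at k5
  exact y2 (k5.trans (sup_le le_rfl ((inf_le_inf_right _ (sup_le h.ZT (zpowers_le' e.1))).trans
    (h.cw w hw w1 w2))) (mem_zpowers y))

end inn

/-- every non-central element of `S` lies in a unique Sylow 2-subgroup of `H` -/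
structure CI (S H : Subgroup G) : Prop where
  syl : Syl 2 S H
  ci : ∀ g ∈ H, ∀ x ∈ S, g * x * g⁻¹ ∈ S → x ∉ C(S) → g ∈ N(S)

namespace CI
variable (h : CI S H)
include h

theorem mono (h1 : S ≤ K) (h2 : K ≤ H) : CI S K := ⟨h.syl.of_le h1 h2, fun g k => h.ci g (h2 k)⟩

theorem inf (l : L ≤ H) (n : S ≤ N(L)) : CI (S ⊓ L) L := ⟨h.syl.inf_of_norm l n, fun g k x hx k1 k2 =>
  mem_norm_iff_zp.2 (norms_inf (zpowers_le' (h.ci g (l k) x hx.1 k1.1 fun a => k2 (cent_mono inf_le_left a)))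
    (norms_of_le (zpowers_le' k)))⟩

theorem quo (hK : K ⊴ H) : CI (quo K S) (quo K H) := ⟨h.syl.quo hK.norm, fun g k x hx k1 k2 => by
  obtain ⟨g, hg, rfl⟩ := mem_im.1 k
  obtain ⟨x, hx', rfl⟩ := mem_im.1 hx
  have nS := h.syl.le.trans hK.norm
  have l := sup_le hK.le h.syl.le
  rw [← map_inv, ← map_mul, ← map_mul, qmk_mem_quo nS] at k1
  obtain ⟨y, hy, k3⟩ := (h.syl.of_le le_sup_right l).scj_le (zpowers_le' k1)
    (piG_zpowers.2 ((h.syl.pi.elt hx').e_conj _))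
  have k4 := quo_norms (K := K) (zpowers_le' (h.ci _ (mul_mem (l hy) hg) x hx'
    (conj_conj' y g x ▸ k3 (H19.conj_mem_cj.2 (mem_zpowers _))) fun a => k2 (im_cent_le (mem_im_of a))))
    (mem_im_of (x := ⟨y, hK.norm (l hy)⟩ * g) (mem_zpowers _))
  rwa [map_mul, Subgroup.mul_mem_cancel_left _ (le_normalizer ((qmk_mem_quo nS).2 hy))] at k4⟩

theorem scl : SCl Z(S) H := SCl.of_syl h.syl inf_le_left fun a ha g hg k => ⟨k, by_contra fun k1 => k1 (by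
  have := h.ci _ (inv_mem hg) _ k (by simpa [mul_assoc] using ha.1) k1
  simpa using conj_mem_of_norm' (norm_le_norm_cent S this) ha.2)⟩

theorem types (hL : Sim H) : GT H ∧ (Abelem 2 S ∨ ∃ U K Z, Bd H S U K Z) := by
  have k1 := h.scl.ohm (comm_center S)
  have k2 := h.syl.pi.Ohm1_center_ne_bot fun e => hL.nsol (OG.sol (h.syl.eq_bot_iff.1 e))
  have k3 := gold' hL (abelem_Ohm1_center 2 S) k1 k2
  exact ⟨k3, (k3.types hL h.syl k1 k2 (abelem_Ohm1_center 2 S) ((Ohm1_le _ _).trans inf_le_left)).imp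
    (fun e : _ = S => e ▸ abelem_Ohm1_center 2 S) fun ⟨U, K, k⟩ => ⟨U, K, _, k⟩⟩

theorem tr (hL : Sim H) (ab : Abelem 2 S) (hx : x ∈ S) (hy : y ∈ S) (x1 : x ≠ 1) (y1 : y ≠ 1) :
    ∃ k ∈ H ⊓ N(S), k * x * k⁻¹ = y := by
  obtain ⟨g, hg, rfl⟩ := (h.types hL).1.conj hL (h.syl.le hx) (h.syl.le hy) (ord2 ab hx x1) (ord2 ab hy y1)
  exact (SCl.syl h.syl).fusion ab hx hg hy

theorem inner (hL : Sim L) (l : L ≤ H) (n : S ≤ N(L)) (hs : s ∈ S) : ∃ y ∈ S ⊓ L, y⁻¹ * s ∈ C(L) := by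
  have k := h.inf l n
  have k2 : s ∈ N(S ⊓ L) := norms_inf le_normalizer n hs
  have s2 := h.syl.pi.elt hs
  by_cases c : S ⊓ L ≤ C(S)
  · exact lemC hL k.syl (comm_iff_le_cent.2 (c.trans (cent_mono inf_le_left))) (n hs) (piG_zpowers.2 s2)
      (cents_symm c hs)
  obtain ⟨x, hx, c⟩ := SetLike.not_le_iff_exists.1 c
  have hn : ∀ m ∈ L ⊓ N(S ⊓ L), s * m * s⁻¹ * m⁻¹ ∈ S ⊓ L := fun m hm =>
    ⟨by simpa [mul_assoc] using mul_mem hs (conj_mem_of_norm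
      (h.ci m (l hm.1) x hx.1 (conj_mem_of_norm hm.2 hx).1 c) (inv_mem hs)),
     L.mul_mem (conj_mem_of_norm (n hs) hm.1) (L.inv_mem hm.1)⟩
  rcases (k.types hL).2 with ab | ⟨U, K, Z, b⟩
  · exact lemC hL k.syl ab.1 (n hs) (piG_zpowers.2 s2) (fixZ k2 s2 hn k.syl.pi le_rfl (ab_cent ab) le_rfl
      (ne_bot_of_mem hx fun e => c (e ▸ one_mem _)) fun _ a _ b => k.tr hL ab a b)
  · exact Bd.inn k2 s2 hn b (n hs)

theorem qs (hJ : IsQuasisimple J) (l : J ≤ H) (n : S ≤ N(J)) :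
    CI (H19.quo Z(J) S) (H19.quo Z(J) (J ⊔ S)) :=
  (h.mono le_sup_right (sup_le l h.syl.le)).quo ⟨inf_le_left.trans le_sup_left,
    (sup_le le_normalizer n).trans (norm_le_norm_center J)⟩

theorem inner' (hJ : IsQuasisimple J) (l : J ≤ H) (n : S ≤ N(J)) (hs : s ∈ S) : ∃ y ∈ S ⊓ J, y⁻¹ * s ∈ C(J) := by
  obtain ⟨y, hy, k⟩ := (h.qs hJ l n).inner (qs_sim hJ) (quo_mono _ le_sup_left) (quo_norms n)
    (mem_im_of (x := ⟨s, norm_le_norm_center J (n hs)⟩) hs)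
  rw [← quo_inf' inf_le_left] at hy
  obtain ⟨y, hy', rfl⟩ := mem_im.1 hy
  rw [← map_inv, ← map_mul] at k
  refine ⟨y, hy', (qs_quo_cent hJ (zpowers_le' (n (S.mul_mem (S.inv_mem hy'.1) hs)))).1 ?_ (mem_zpowers _)⟩
  rw [quo_zpowers (norm_le_norm_center J (n (S.mul_mem (S.inv_mem hy'.1) hs)))]
  exact zpowers_le' k

theorem cent (hJ : Comp J H) : S ⊓ C(J) ≤ C(S) := fun x hx => by_contra fun k => by
  obtain ⟨t, ht, k1⟩ := hJ.exists_noncentral h.syl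
  exact k1 (cents_symm (hJ.cents_of_sol h.syl.le (fun g hg => h.ci g (hJ.le hg) x hx.1
    ((conj_eq_of_cent hx.2 hg).symm ▸ hx.1) k) h.syl.pi.sol) ht.1)

theorem nab (hJ : Comp J H) (k : S ⊓ J ≤ C(S)) : Ab S := comm_iff_le_cent.2 fun s hs => by
  obtain ⟨t, ht, k1⟩ := hJ.exists_noncentral h.syl
  obtain ⟨y, hy, k2⟩ := h.inner' hJ.qs hJ.le (fun s hs => mem_norm_iff_cj.2 (by_contra fun e => k1
    ((hJ.conj (le_normalizer (h.syl.le hs))).cents hJ e (conj_eq_of_cent (k ht) hs ▸ H19.conj_mem_cj.2 ht.2)))) hs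
  simpa using mul_mem (k hy) (h.cent hJ ⟨S.mul_mem (S.inv_mem hy.1) hs, k2⟩)

end CI

/-- the structure of a CI-group with `[S, O(H)] = 1` -/
structure PA (S H L : Subgroup G) : Prop where
  ci : CI S H
  comp : Comp L H
  nl : H ≤ N(L)
  o2 : Oc {2} H ≤ C(S)
  dec : S ≤ (S ⊓ L) ⊔ Oc {2} H
  nab : ¬ Ab S

theorem CI.pa (h : CI S H) (h1 : S ≤ C(O(H))) (h2 : ¬ Ab S) (h3 : ¬ H ≤ N(S)) : ∃ L, PA S H L := by
  have o2 : Oc {2} H ≤ C(S) := fun x hx => by_contra fun k => h3 fun g hg =>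
    h.ci g hg x (Oc_le_hall h.syl hx) (Oc_le_hall h.syl ((Oc_normal _ _).conj_mem hg hx)) k
  have k : ∀ Y, Y ≤ S → (∀ J, Comp J H → Y ≤ C(J)) → Y ≤ Oc {2} H := fun Y k1 k2 =>
    (h.syl.pi.of_le k1).le_Oc_of_le_Fit (cent_gf_le (k1.trans h.syl.le) k2 (cents_symm (Fit_le_of_Oc fun p _ =>
      cents_symm (k1.trans (if e : p = 2 then e ▸ cents_symm o2 else
        h1.trans (cent_mono (Oc_mono (by simpa using Ne.symm e) H)))))))
  have u : ∀ J L, Comp J H → Comp L H → J = L := fun J L k1 k2 => by_contra fun e =>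
    h2 (h.nab k1 ((inf_le_inf_left S (k1.cents k2 e)).trans (h.cent k2)))
  obtain ⟨L, hL⟩ : ∃ L, Comp L H := by_contra fun e => h3 (le_antisymm (k S le_rfl fun J a => (e ⟨J, a⟩).elim)
    (Oc_le_hall h.syl) ▸ Oc_norm _ _)
  have nl : H ≤ N(L) := fun g hg => mem_norm_iff_cj.2 (u _ _ (hL.conj (le_normalizer hg)) hL)
  refine ⟨L, h, hL, nl, o2, fun s hs => ?_, h2⟩
  obtain ⟨y, hy, k1⟩ := h.inner' hL.qs hL.le (h.syl.le.trans nl) hs
  simpa using mul_mem (mem_sup_left hy) (mem_sup_right (k (S ⊓ C(L)) inf_le_left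
    (fun J a => u L J hL a ▸ inf_le_right) ⟨S.mul_mem (S.inv_mem hy.1) hs, k1⟩))

end H28.CI
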