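import Cfsg.Agent.H28.CI1
import Cfsg.Agent.H17.GF1
import Cfsg.Agent.H4.TwoCyclic
import Cfsg.Agent.H21.U3Inv
import Cfsg.Agent.S2086
import Cfsg.Agent.S2089
import Cfsg.Agent.S2111

/-! Groups with central Sylow 2-intersections: action on the core, identification of the component. -/

set_option autoImplicit false
set_option linter.unusedSectionVars false

namespace H28.CI
open Cfsg Subgroup H18 H17.GS
open H19 hiding eq_bot_mono
open scoped MatrixGroups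

local notation "P2" => H19.PG 2

universe u
variable {G : Type u} [Group G] [Finite G] {A B D H J K L M P S T U X Y Z : Subgroup G}
  {a b c g n s t u w x y z : G}

/-- `S` has an abelian subgroup of index at most two -/
def A2 (S : Subgroup G) : Prop := ∃ B, B ≤ S ∧ Ab B ∧ ∀ x ∈ S, ∀ y ∈ S, x ∉ B → y ∉ B → x * y ∈ B

theorem A2.mono (h : A2 S) (l : T ≤ S) : A2 T :=
  let ⟨B, _, h2, h3⟩ := h; ⟨B ⊓ T, inf_le_right, comm_mono h2 inf_le_left, fun x hx y hy a b =>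
    ⟨h3 x (l hx) y (l hy) (fun k => a ⟨k, hx⟩) fun k => b ⟨k, hy⟩, T.mul_mem hx hy⟩⟩

theorem A2.quo (h : A2 S) (K : Subgroup G) : A2 (quo K S) := by
  obtain ⟨B, h1, h2, h3⟩ := h
  refine ⟨_, quo_mono K h1, ab_quo h2 K, fun x hx y hy a b => ?_⟩
  obtain ⟨x, hx', rfl⟩ := mem_im.1 hx
  obtain ⟨y, hy', rfl⟩ := mem_im.1 hy
  exact map_mul (qmk K) x y ▸ mem_im_of (h3 x hx' y hy' (fun k => a (mem_im_of k)) fun k => b (mem_im_of k))

theorem Bd.a2 (h : Bd L T U K Z) : ¬ A2 T := by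
  rintro ⟨B, h1, h2, h3⟩
  obtain ⟨a, ha, k⟩ := SetLike.not_le_iff_exists.1 fun l : T ≤ B => h.nab (comm_mono h2 l)
  have hB : Hyp B T := ⟨h1, relIndex_eq_two_iff.2 ⟨a, ha, fun b hb => by
    by_cases e : b ∈ B
    · exact .inr ⟨e, fun l => k ((B.mul_mem_cancel_left e).1 l)⟩
    · exact .inl ⟨h3 b hb a ha e k, e⟩⟩⟩
  have c4 := four_le' h.sim (SCl.of_syl h.syl h.ZT fun a ha g _ k => (h.memZ _).2 ⟨k, conj_sq (h.zz ha) g⟩)
    ⟨comm_iff_le_cent.2 (h.cZ.trans (cent_mono h.ZT)), fun x hx => (pow_two x).trans (h.zz hx)⟩ h.Zne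
  have c1 := h.card
  obtain ⟨r, hr, r1⟩ := exists_ne_one (ne_bot_iff_one_lt_card.2 (by omega : 1 < #K))
  have nr := h.KT hr
  by_cases e : H19.cj r B ≤ B
  · have n := mem_norm_of_cj_le e
    refine k (((commg_eq_of_cent_eq_bot (zpowers_le' nr) (odd_cop h.odd (h.le hr) h.pg) (.inl (sol_zpowers r))
      (cent_zpowers r ▸ h.fpf r hr r1)).ge.trans ?_) ha)
    rw [commg_comm]
    refine (le_Cm.1 (le_Cm_zp n fun x hx => ?_)).2
    by_cases l : x ∈ B
    · exact mul_mem (conj_mem_of_norm n l) (inv_mem l)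
    · exact h3 _ (conj_mem_of_norm nr hx) _ (inv_mem hx)
        (fun l' => l (by simpa [mul_assoc] using conj_mem_of_norm' n l')) (by simpa using l)
  have l := cj_le_of_mem_norm nr h1
  have c2 := hB.card_inf l
  have c3 := card_le ((le_inf (inf_le_right.trans h1) (hB.sup_eq l e ▸ cents_sup (cents_of_comm h2 inf_le_right le_rfl)
    (cents_of_comm (comm_cj.2 h2) inf_le_left le_rfl))).trans h.center)
  have c5 := hB.card
  rw [H19.card_cj] at c2
  rcases h.ty with ⟨-, c6, n, o, c7⟩ | ⟨c6, -⟩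
  · obtain rfl : n = 2 := Nat.pow_right_injective le_rfl (c7.symm.trans (by nlinarith))
    exact absurd o (by decide)
  · nlinarith [Nat.mul_le_mul c4 c4]

theorem CI.core (h : CI S H) (hX : X ⊴ H) (ho : OG X) (hx : x ∈ S) (k : x ∉ C(S)) : X ⊓ C[x] ≤ C(S) :=
  fun c hc => mem_cent.2 fun s hs => by
    have n := h.ci c (hX.le hc.1) x hx (by rwa [mem_cent1.1 hc.2, mul_inv_cancel_right]) k
    rw [eq_comm, ← mul_inv_eq_iff_eq_mul, ← mul_inv_eq_one]
    exact ho.eq_one' h.syl.pi (by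
      simpa [mul_assoc] using X.mul_mem hc.1 (hX.conj_mem (h.syl.le hs) (X.inv_mem hc.1)))
      (mul_mem (conj_mem_of_norm n hs) (inv_mem hs))

theorem CI.a2 (h : CI S H) (hX : X ⊴ H) (ho : OG X) (k : ¬ S ≤ C(X)) : A2 S := by
  obtain ⟨K, ⟨k1, k2⟩, mx⟩ := (Set.toFinite {K : Subgroup G | K ≤ S ∧ ¬ X ⊓ C(K) ≤ C(S)}).exists_maximal
    ⟨⊥, bot_le, fun l => k (cents_symm (by simpa using l))⟩
  have c : K ≤ C(S) := fun x hx => by_contra fun l =>
    k2 ((inf_le_inf_left X (cent_le_cent1 hx)).trans (h.core hX ho (k1 hx) l))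
  have nS := norms_of_cents (cents_symm c)
  have nX : X ⊓ C(K) ≤ N(K) := norms_of_cents inf_le_right
  have cy : ∀ A, A ≤ H19.quo K S → Ab A → Cyc A := fun A l ab => by_contra fun nc => k2 (by
    refine le_of_quo_le nX c (le_of_cent1_le ab nc (l.trans (quo_norms (norms_inf (hX.norms h.syl.le) (norms_cent nS))))
      (OG.cop ((ho.infl _).quo K) ((h.syl.pi.quo K).of_le l)) fun d hd d1 y hy => ?_)
    obtain ⟨d, hd', rfl⟩ := mem_im.1 (l hd)
    obtain ⟨y, hy', rfl⟩ := mem_im.1 hy.1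
    refine mem_im_of ((by_contra fun l' => d1 (qmk_eq_one.2 (mx (y := K ⊔ zpowers (d : G))
      ⟨sup_le k1 (zpowers_le' hd'), l'⟩ le_sup_left (mem_sup_right (mem_zpowers _)))) : X ⊓ C(K ⊔ zpowers (d : G)) ≤ _)
      ⟨hy'.1, ?_⟩)
    rw [cent_sup, cent_zpowers]
    refine ⟨hy'.2, mem_cent1.2 ?_⟩
    rw [eq_comm, ← mul_inv_eq_iff_eq_mul, ← mul_inv_eq_one]
    exact ho.eq_one' (h.syl.pi.of_le k1) (X.mul_mem (hX.conj_mem (h.syl.le hd') hy'.1) (X.inv_mem hy'.1))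
      ((qmk_comm d.2 y.2).1 (mem_cent1_symm.1 hy.2)))
  have key : ∀ a : H19.quo K S, (zpowers a).index ∣ 2 → A2 S := fun a ha => by
    refine ⟨qpre K (zpowers a.1), qpre_le k1 (zpowers_le' a.2), ab_of_cyc_quo (qpre_le_norm _)
      (inf_le_left.trans (c.trans (cent_mono (qpre_le k1 (zpowers_le' a.2))))) (by rw [quo_qpre]; infer_instance),
      fun x hx y hy a1 a2 => ?_⟩
    have m : ∀ x (hx : x ∈ S), x ∈ qpre K (zpowers a.1) ↔
        (⟨qmk K ⟨x, nS hx⟩, mem_im_of hx⟩ : H19.quo K S) ∈ zpowers a := fun x hx =>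
      (coe_mem_pre (x := ⟨x, nS hx⟩)).trans (by rw [← H10.zpowers_subgroupOf a.2]; rfl)
    rcases (Nat.dvd_prime Nat.prime_two).1 ha with e | e
    · exact (a1 ((m x hx).2 ((index_eq_one.1 e).ge trivial))).elim
    · have := (mul_mem_iff_of_index_two e).2 (iff_of_false (mt (m x hx).2 a1) (mt (m y hy).2 a2))
      refine (m _ (mul_mem hx hy)).2 (by convert this using 2; exact map_mul (qmk K) ⟨x, _⟩ ⟨y, _⟩)
  by_cases e : IsCyclic (H19.quo K S)
  · obtain ⟨a, ha⟩ := isCyclic_iff_exists_zpowers_eq_top.1 e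
    exact key a (by rw [ha, index_top]; exact one_dvd _)
  · obtain ⟨a, ha, -⟩ := H4.exists_cyclic_index_two (h.syl.pi.quo K).isPGroup (fun A _ ab =>
      haveI := cy (A.map (H19.quo K S).subtype) (map_subtype_le A) inferInstance
      isCyclic_of_injective (A.equivMapOfInjective _ (H19.quo K S).subtype_injective).toMonoidHom (MulEquiv.injective _)) e
    exact key a ha.dvd

theorem cd {X Q : Type*} [Group X] [Group Q] (f : X →* Q) (hf : Function.Surjective f) :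
    Nat.card X = Nat.card Q * #f.ker := by
  rw [← Nat.card_congr (QuotientGroup.quotientKerEquivOfSurjective f hf).toEquiv,
    ← card_eq_card_quotient_mul_card_subgroup]

theorem cover_iso {Q Γ Δ : Type*} [Group Q] [Group Γ] [Group Δ] [Finite Γ] [Finite Δ] {m : ℕ}
    (hA : HasCyclicSchurMultiplier Q m) (hQ : Group.IsPerfect Q) {σ : Γ →* Q} {τ : Δ →* Q} (hσ : IsStemExtension σ)
    (hτ : IsStemExtension τ) (h1 : #σ.ker = m) (h2 : #τ.ker = m) : Nonempty (Γ ≃* Δ) := by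
  let P := (σ.comp (MonoidHom.fst Γ Δ)).eqLocus (τ.comp (MonoidHom.snd Γ Δ))
  let φ := (MonoidHom.fst Γ Δ).comp P.subtype
  let ψ := (MonoidHom.snd Γ Δ).comp P.subtype
  have e : σ.comp φ = τ.comp ψ := MonoidHom.ext fun x => x.2
  have st := H23.stem_commutator hQ (σ.comp φ) (fun q => by
    obtain ⟨x, rfl⟩ := hσ.1 q
    obtain ⟨y, hy⟩ := hτ.1 (σ x)
    exact ⟨⟨(x, y), hy.symm⟩, rfl⟩) fun x hx => mem_center_iff.2 fun g => Subtype.ext (Prod.ext
      (mem_center_iff.1 (hσ.2.1 hx) _) (mem_center_iff.1 (hτ.2.1 (e ▸ hx : x ∈ (τ.comp ψ).ker)) _))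
  have c := Nat.le_of_dvd (Nat.pos_of_ne_zero ?_) (H23.card_ker_dvd hA st)
  rw [Nat.card_congr Multiplicative.toAdd, Nat.card_zmod] at c
  have c1 := cd _ st.1
  have c2 := cd _ hσ.1
  have c3 := cd _ hτ.1
  have b1 := (H23.surjective_of_stem (φ.comp (commutator P).subtype) hσ st.1).bijective_of_nat_card_le
    (by rw [c1, c2, h1]; exact Nat.mul_le_mul_left _ c)
  have b2 := (H23.surjective_of_stem (ψ.comp (commutator P).subtype) hτ (by
    rw [← MonoidHom.comp_assoc, ← e]; exact st.1)).bijective_of_nat_card_le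
    (by rw [c1, c3, h2]; exact Nat.mul_le_mul_left _ c)
  · exact ⟨(MulEquiv.ofBijective _ b1).symm.trans (MulEquiv.ofBijective _ b2)⟩
  · have := H23.schur_finite hA
    exact Nat.card_pos.ne'

theorem stem (hL : IsQuasisimple L) {Q : Type*} [Group Q] (e : quo Z(L) L ≃* Q) :
    ∃ τ : L →* Q, IsStemExtension τ ∧ #τ.ker = #Z(L) := by
  have k : ∀ x, x ∈ (e.toMonoidHom.comp (imHom (qmk Z(L)) (center_normal L).norm)).ker ↔ x.1 ∈ Z(L) := fun x => by
    rw [MonoidHom.mem_ker, MonoidHom.comp_apply, MulEquiv.coe_toMonoidHom, EmbeddingLike.map_eq_one_iff, imHom_eq_one,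
      qmk_eq_one]
  refine ⟨_, H23.stem_of_perfect hL.1 (e.surjective.comp (imHom_surj _ (center_normal L).norm)) fun x hx =>
    mem_center_iff.2 fun g => Subtype.ext (mem_cent.1 ((k x).1 hx).2 g g.2), ?_⟩
  rw [← card_subgroupOf' (inf_le_left : Z(L) ≤ L)]
  exact congrArg (fun X : Subgroup L => #X) (Subgroup.ext k)

theorem cen_dvd (hL : IsQuasisimple L) {Q : Type*} [Group Q] (e : quo Z(L) L ≃* Q) {m : ℕ}
    (h : HasCyclicSchurMultiplier Q m) : #Z(L) ∣ m := by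
  obtain ⟨τ, k1, k2⟩ := stem hL e
  have := H23.card_ker_dvd h k1
  rwa [Nat.card_congr Multiplicative.toAdd, Nat.card_zmod, k2] at this

theorem cen_iso (hL : IsQuasisimple L) {Γ : Type*} [Group Γ] [Finite Γ] (e : quo Z(L) L ≃* Γ ⧸ center Γ) {m : ℕ}
    (h : HasCyclicSchurMultiplier (Γ ⧸ center Γ) m) (hΓ : commutator Γ = ⊤) (h1 : #Z(L) = m) (h2 : #(center Γ) = m) :
    Nonempty (L ≃* Γ) := by
  obtain ⟨τ, k1, k2⟩ := stem hL e
  have p : Group.IsPerfect Γ := ⟨hΓ⟩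
  exact cover_iso h (p.ofSurjective (QuotientGroup.mk'_surjective _)) k1
    (H23.stem_of_perfect p (QuotientGroup.mk'_surjective _) (QuotientGroup.ker_mk' _).le) (k2.trans h1)
    (by rwa [QuotientGroup.ker_mk'])

theorem cen_bot (h : #Z(L) ∣ 1) {Q : Type*} [Group Q] (e : quo Z(L) L ≃* Q) : Nonempty (L ≃* Q) :=
  let ⟨f⟩ := quo_equiv (center_normal L).norm (by rw [card_eq_one.1 (Nat.dvd_one.1 h), bot_inf_eq]); ⟨f.trans e⟩

theorem bender (hL : Sim L) (h : SE Y L) : H3.IsBender L :=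
  haveI := hL.simple
  H18.Be.bender_simple h.isSE (by by_contra! e; exact hL.nab ⟨⟨e⟩⟩)

namespace PA
variable (h : PA S H L)
include h

theorem ciL : CI (S ⊓ L) L := h.ci.inf h.comp.le (h.ci.syl.le.trans h.nl)
theorem ciq : CI (quo Z(L) (S ⊓ L)) (quo Z(L) L) := h.ciL.quo (center_normal L)
theorem nabT : ¬ Ab (S ⊓ L) := fun k => h.nab (comm_mono (comm_sup k (comm_iff_le_cent.2 (h.o2.trans
  (cent_mono (Oc_le_hall h.ci.syl)))) (inf_le_left.trans (cents_symm h.o2))) h.dec)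
theorem cL : Oc {2} H ≤ C(L) := cents_symm (h.comp.cents_Fit.trans (cent_mono (Oc_le_Fit 2 H)))

theorem bd (k : ¬ ⁅S, S⁆ ≤ Oc {2} H) : ∃ U K Z, Bd (quo Z(L) L) (quo Z(L) (S ⊓ L)) U K Z :=
  (h.ciq.types (qs_sim h.comp.qs)).2.resolve_left fun ab => k (by
    have l := (ab_quo_iff (inf_le_right.trans (center_normal L).norm)).1 ab.1
    refine (h.ci.syl.pi.of_le (der_le S)).le_Oc_of_le_Fit ((der_mono h.dec).trans ?_)
    rw [der_sup_cent (h.o2.trans (cent_mono inf_le_left))]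
    exact sup_le (l.trans h.comp.center_le) ((der_le _).trans (Oc_le_Fit 2 H)))

theorem a2 (k : ¬ ⁅S, S⁆ ≤ Oc {2} H) : ¬ A2 S := fun a =>
  let ⟨_, _, _, b⟩ := h.bd k; Bd.a2 b ((a.mono inf_le_left).quo _)

theorem sz (k : ¬ ⁅S, S⁆ ≤ Oc {2} H) : Lie.IsoSuzuki (quo Z(L) L) ∨ H3.IsU3 (quo Z(L) L) := by
  obtain ⟨U, K, Z, b⟩ := h.bd k
  obtain ⟨Y, hY⟩ := (h.ciq.types b.sim).1.abS.resolve_right fun a => b.nab (a _ b.pg b.TL)
  refine (bender b.sim hY).resolve_left fun a => b.nab ?_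
  have := H28.K.l2_abS a _ b.syl.subgroupOf_top.pi le_top
  rw [← map_subgroupOf_eq_of_le b.TL]
  infer_instance

theorem sl25 (h0 : O(H) = ⊥) (k : ⁅S, S⁆ ≤ Oc {2} H) : Nonempty (L ≃* SL(2, ZMod 5)) := by
  have s := qs_sim h.comp.qs
  have nZ := (center_normal L).norm
  have nT : S ⊓ L ≤ N(Z(L)) := inf_le_right.trans nZ
  have ZT : Z(L) ≤ S ⊓ L := le_inf (h.comp.center_le_syl h0 h.ci.syl) inf_le_left
  have ab' : Ab (quo Z(L) (S ⊓ L)) := (ab_quo_iff nT).2 (le_inf ((der_le _).trans inf_le_right)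
    ((der_mono inf_le_left).trans (k.trans h.cL)))
  have ab := (h.ciq.types s).2.resolve_right fun ⟨_, _, _, b⟩ => b.nab ab'
  have c : ∀ x : N(Z(L)), x.1 ∈ S ⊓ L → qmk _ x ≠ 1 → x.1 ∉ C(S ⊓ L) := fun x hx x1 l =>
    h.nabT (comm_iff_le_cent.2 fun y hy => by
      by_cases y1 : y ∈ Z(L)
      · exact cent_mono inf_le_right y1.2
      obtain ⟨k, hk, e⟩ := h.ciq.tr s ab (mem_im_of hx) (mem_im_of (x := ⟨y, nT hy⟩) hy) x1 (mt qmk_eq_one.1 y1)
      obtain ⟨k, hk', rfl⟩ := mem_im.1 hk.1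
      rw [← map_inv, ← map_mul, ← map_mul, qmk_eq] at e
      simpa [mul_assoc] using mul_mem (conj_mem_of_norm (norm_le_norm_cent _ (norms_of_quo' (zpowers_le' k.2) nT ZT
        (by rw [quo_zpowers k.2]; exact zpowers_le' hk.2) (mem_zpowers _))) l) (cent_mono inf_le_right e.2))
  have m : ∀ t ∈ quo Z(L) L ⊓ N(quo Z(L) (S ⊓ L)), orderOf t = 2 → t ∈ quo Z(L) (S ⊓ L) := fun t ht t2 =>
    h.ciq.syl.mem_of_norm ht.1 ((pg_zpowers (mul_self_of_ord2 t2)).elt (mem_zpowers t)) ht.2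
  have ne : quo Z(L) (S ⊓ L) ≠ ⊥ := fun e => s.nsol (OG.sol (h.ciq.syl.eq_bot_iff.1 e))
  have c2 : P2 Z(L) := h.ciL.syl.pi.of_le ZT
  have c1 : ¬ #Z(L) ∣ 1 := fun e => h.nabT (ab_of_quo_disjoint nT
    (by rw [card_eq_one.1 (Nat.dvd_one.1 e), bot_inf_eq]) ab')
  rcases bender s (Y := quo Z(L) L ⊓ N(quo Z(L) (S ⊓ L))) ⟨inf_le_left, fun e => s.nsol
    ((s.cases h.ciq.syl.le (e.ge.trans inf_le_right)).resolve_left ne ▸ h.ciq.syl.pi.sol),
    let ⟨t, ht, t2⟩ := exists_inv_pg h.ciq.syl.pi ne; ⟨t, ⟨h.ciq.syl.le ht, le_normalizer ht⟩, t2⟩,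
    fun t ht t2 g hg l => ⟨hg, by
      replace l := m _ l ((orderOf_conj' g t).trans t2)
      obtain ⟨t, ht', rfl⟩ := mem_im.1 (m t ht t2)
      obtain ⟨g, hg', rfl⟩ := mem_im.1 hg
      rw [← map_inv, ← map_mul, ← map_mul, qmk_mem_quo nT, sup_eq_right.2 ZT] at l
      exact quo_norms (zpowers_le' (h.ciL.ci g hg' t ht' l (c t ht' (ne_one_of_ord2 t2))))
        (mem_im_of (mem_zpowers _))⟩⟩ with ⟨F, _, _, ⟨n, n2, hF⟩, ⟨e⟩⟩ | k | ⟨F, _, _, n, n2, hF, ⟨e⟩⟩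
  · rcases n2.eq_or_lt with rfl | n3
    · obtain ⟨e1⟩ := H11.nonempty_psl2_four_equiv hF
      have : Fact (Nat.Prime 5) := ⟨by norm_num⟩
      obtain ⟨e2⟩ := H11.nonempty_psl2_five_equiv (F := ZMod 5) (ZMod.card 5)
      have k := Cfsg.Agent.S2086.result (ZMod.card 5) 2 le_rfl (by omega) (by simp)
      exact cen_iso h.comp.qs (e.trans (e1.trans e2.symm)) k (H11.sl2_perfect (by simp))
        (((Nat.dvd_prime Nat.prime_two).1 (cen_dvd h.comp.qs (e.trans (e1.trans e2.symm)) k)).resolve_left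
          fun e => c1 e.dvd) (by rw [H11.card_center_sl]; simp)
    · obtain ⟨m, rfl⟩ : ∃ m, n = m + 3 := ⟨n - 3, by omega⟩
      have := Nat.one_le_two_pow (n := m)
      rw [pow_add] at hF
      have k := cen_dvd h.comp.qs e (Cfsg.Agent.S2086.result hF 2 le_rfl (by omega) (by simp; omega))
      rw [Nat.coprime_two_left.2 (Nat.odd_iff.2 (by omega))] at k
      exact (c1 k).elim
  · obtain ⟨P, hP⟩ := h.ciq.syl.subgroupOf_top.exists_sylow_top
    have e := H21.U3I.sz_syl k P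
    have : IsMulCommutative (P : Subgroup (quo Z(L) L)) := hP ▸ inferInstance
    rw [center_eq_top, card_top, hP, card_subgroupOf' h.ciq.syl.le] at e
    have := ne_bot_iff_one_lt_card.1 ne
    nlinarith
  · have := Nat.pow_le_pow_right two_pos n2
    exact (c1 (c2.eq_one (og_iff.2 (Odd.of_dvd_nat (by decide) ((cen_dvd h.comp.qs e
      (Cfsg.Agent.S2089.result 3 _ hF le_rfl (by omega) (by simp))).trans (Nat.gcd_dvd_left _ _))))).dvd).elim

end PA

end H28.CI
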