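import Mathlib

/-! Algebras with a standard involution in characteristic two (quaternion algebras). -/

set_option autoImplicit false

namespace H28.PGV

open scoped commutatorElement

variable {F R : Type*} [Field F] [Ring R] [Algebra F R] {t : R →ₗ[F] F}

/-- `f ↦ f + t f` is an anti-automorphism; the trace form is nondegenerate -/
structure QA (t : R →ₗ[F] F) : Prop where
  two : (2 : F) = 0
  t1 : t 1 = 0
  anti : ∀ f g : R, g * f + f * g = (t (f * g) + t f * t g) • (1 : R) + t f • g + t g • f
  sq : ∀ f, t f = 0 → ∃ c : F, f * f = c • (1 : R)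
  nd : ∀ f, (∀ g, t (g * f) = 0) → f = 0
  nc : ∃ f g : R, f * g ≠ g * f

structure Frame (t : R →ₗ[F] F) (s u v : R) : Prop where
  ss : s * s = 0
  ts : t s = 0
  tu : t u = 1
  tus : t (u * s) = 0
  tv : t v = 0
  tvs : t (v * s) = 1
  tuv : t (u * v) = 0

namespace QA

variable (h : QA t)
include h

theorem add_self (f : R) : f + f = 0 := by
  have : (2 : F) • f = 0 := by rw [h.two, zero_smul]
  rwa [two_smul] at this

theorem add_selfF (c : F) : c + c = 0 := by linear_combination c * h.two

theorem eq_iff {f g : R} : f + g = 0 ↔ f = g := by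
  constructor
  · intro k; linear_combination (norm := abel) k - h.add_self g
  · rintro rfl; exact h.add_self f

theorem one_ne : (1 : R) ≠ 0 := by
  obtain ⟨f, g, k⟩ := h.nc
  intro e
  apply k
  rw [← mul_one (f * g), ← mul_one (g * f), e, mul_zero, mul_zero]

theorem smul_inj {a b : F} (k : a • (1 : R) = b • (1 : R)) : a = b := by
  have : (a - b) • (1 : R) = 0 := by rw [sub_smul, k, sub_self]
  rcases smul_eq_zero.1 this with e | e
  · exact sub_eq_zero.1 e
  · exact absurd e h.one_ne

theorem tr_comm (f g : R) : t (f * g) = t (g * f) := by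
  have a := h.anti f g
  have b := h.anti g f
  apply h.smul_inj
  linear_combination (norm := module) b - a

theorem exists_tr : ∃ u, t u = 1 := by
  by_contra k
  push Not at k
  refine h.one_ne (h.nd 1 fun g => ?_)
  by_contra e
  exact k ((t (g * 1))⁻¹ • (g * 1)) (by rw [map_smul, smul_eq_mul, inv_mul_cancel₀ e])

theorem exists_frame [Finite F] {s₀ : R} (h0 : t s₀ = 0) (hn : ∀ c : F, s₀ ≠ c • (1 : R)) :
    ∃ (ν : F) (u v : R), Frame t (s₀ + ν • (1 : R)) u v := by
  obtain ⟨c, hc⟩ := h.sq s₀ h0
  have hinj : Function.Injective fun x : F => x * x := fun x y e => by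
    have : (x - y) * (x - y) = 0 := by
      simp only at e
      linear_combination e + (y * y - x * y) * h.two
    exact sub_eq_zero.1 (mul_self_eq_zero.1 this)
  obtain ⟨ν, hν⟩ := Finite.surjective_of_injective hinj c
  simp only at hν
  set s := s₀ + ν • (1 : R) with hs
  have ss : s * s = 0 := by
    simp only [hs, mul_add, add_mul, smul_mul_assoc, mul_smul_comm, mul_one, one_mul, hc, ← hν]
    linear_combination (norm := module) ν • h.add_self s₀ + (ν * ν) • h.add_self 1
  have ts : t s = 0 := by simp [hs, h0, h.t1]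
  obtain ⟨u₀, hu⟩ := h.exists_tr
  have : ∃ g, t g = 0 ∧ t (g * s) ≠ 0 := by
    by_contra k
    push Not at k
    apply hn (ν + t (u₀ * s))
    have : s + t (u₀ * s) • (1 : R) = 0 := h.nd _ fun g => by
      have := k (g + t g • u₀) (by simp [hu, h.add_selfF])
      simp only [add_mul, smul_mul_assoc, map_add, map_smul, smul_eq_mul] at this
      simp only [mul_add, mul_smul_comm, mul_one, map_add, map_smul, smul_eq_mul]
      linear_combination this
    rw [hs] at this
    linear_combination (norm := module) this - (ν + t (u₀ * (s₀ + ν • (1 : R)))) • h.add_self 1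
  obtain ⟨g, g0, g1⟩ := this
  set v := (t (g * s))⁻¹ • g with hv
  have tv : t v = 0 := by simp [hv, g0]
  have tvs : t (v * s) = 1 := by simp [hv, inv_mul_cancel₀ g1]
  set u₁ := u₀ + t (u₀ * s) • v with hu1
  have t1 : t u₁ = 1 := by simp [hu1, hu, tv]
  have t2 : t (u₁ * s) = 0 := by simp [hu1, add_mul, tvs, h.add_selfF]
  clear_value u₁ v s
  refine ⟨ν, u₁ + t (u₁ * v) • s, v, ?_⟩
  rw [← hs]
  exact ⟨ss, ts, by simp [t1, ts], by simp [add_mul, t2, ss], tv, tvs,
    by simp [add_mul, h.tr_comm s v, tvs, h.add_selfF]⟩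

theorem exists_sym : ∃ s₀ : R, t s₀ = 0 ∧ ∀ c : F, s₀ ≠ c • (1 : R) := by
  by_contra k
  push Not at k
  obtain ⟨u, hu⟩ := h.exists_tr
  obtain ⟨f, g, e⟩ := h.nc
  have a : ∀ f : R, ∃ c : F, f = c • (1 : R) + t f • u := fun f => by
    obtain ⟨c, hc⟩ := k (f + t f • u) (by simp [hu, h.add_selfF])
    exact ⟨c, by linear_combination (norm := module) hc - t f • h.add_self u⟩
  obtain ⟨c, hc⟩ := a f
  obtain ⟨d, hd⟩ := a g
  apply e
  rw [hc, hd]
  simp only [mul_add, add_mul, smul_mul_assoc, mul_smul_comm, mul_one, one_mul]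
  module

variable {s u v : R} (fr : Frame t s u v)
include fr

theorem of_comm {g : R} (h0 : t g = 0) (hc : u * g = g * u) : g = t (u * g) • (1 : R) := by
  have := h.anti u g
  rw [hc, h.add_self, h0, fr.tu] at this
  rw [hc]
  linear_combination (norm := module) -this - t (g * u) • h.add_self 1

theorem sv : s * v = v * s + 1 := by
  have := h.anti v s
  rw [fr.tv, fr.ts, fr.tvs] at this
  linear_combination (norm := module) this - h.add_self (v * s)

theorem u_eq : ∃ c : F, u = s * v + c • (1 : R) := by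
  have a := h.anti u s
  have b := h.anti u v
  rw [fr.tu, fr.tus, fr.ts] at a
  rw [fr.tu, fr.tuv, fr.tv] at b
  have a' : u * s = s * u + s := by
    linear_combination (norm := module) a - h.add_self (s * u)
  have b' : u * v = v * u + v := by
    linear_combination (norm := module) b - h.add_self (v * u)
  have := h.of_comm fr (g := s * v + u) (by simp [h.tr_comm s v, fr.tvs, fr.tu, h.add_selfF]) (by
    rw [mul_add, add_mul, ← mul_assoc, a', add_mul, mul_assoc, b', mul_add, mul_assoc]
    linear_combination (norm := module) h.add_self (s * v))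
  exact ⟨_, by linear_combination (norm := module) this - h.add_self (s * v)⟩

theorem of_perp {g : R} (h0 : t g = 0) (h1 : t (g * s) = 0) :
    g = t (g * u) • (1 : R) + t (g * v) • s := by
  set k := g + t (g * u) • (1 : R) + t (g * v) • s with hk
  have k0 : t k = 0 := by simp [hk, h0, h.t1, fr.ts]
  have k1 : t (k * s) = 0 := by simp [hk, add_mul, h1, fr.ts, fr.ss]
  have k2 : t (k * v) = 0 := by simp [hk, add_mul, fr.tv, h.tr_comm s v, fr.tvs, h.add_selfF]
  have k3 : t (u * k) = 0 := by
    simp [hk, mul_add, fr.tu, fr.tus, h.tr_comm u g, h.add_selfF]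
  have a := h.anti k s
  have b := h.anti k v
  rw [k0, k1, fr.ts] at a
  rw [k0, k2, fr.tv] at b
  have a' : s * k = k * s := h.eq_iff.1 (by linear_combination (norm := module) a)
  have b' : v * k = k * v := h.eq_iff.1 (by linear_combination (norm := module) b)
  obtain ⟨c, hc⟩ := h.u_eq fr
  have := h.of_comm fr k0 (by
    clear_value k
    rw [hc, add_mul, mul_add, mul_assoc, b', ← mul_assoc, a', mul_assoc]; simp)
  rw [k3, zero_smul, hk] at this
  linear_combination (norm := module) this - t (g * u) • h.add_self 1 - t (g * v) • h.add_self s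

theorem span (f : R) : ∃ a b : F, f = a • (1 : R) + b • s + t f • u + t (f * s) • v := by
  have := h.of_perp fr (g := f + t f • u + t (f * s) • v) (by simp [fr.tu, fr.tv, h.add_selfF])
    (by simp [add_mul, fr.tus, fr.tvs, h.add_selfF])
  exact ⟨_, _, by
    linear_combination (norm := module) this - t f • h.add_self u - t (f * s) • h.add_self v⟩

/-- the left ideal generated by `s` -/
theorem mul_s (f : R) : ∃ a : F, f * s = a • s + t (f * s) • (v * s) := by
  obtain ⟨a, b, e⟩ := h.span fr f
  obtain ⟨c, hc⟩ := h.u_eq fr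
  have : u * s = (1 + c) • s := by
    rw [hc, h.sv fr]; simp only [add_mul, mul_assoc, fr.ss, smul_mul_assoc]; simp [add_smul]
  refine ⟨a + t f * (1 + c), ?_⟩
  conv_lhs => rw [e]
  simp only [add_mul, smul_mul_assoc, fr.ss, this, one_mul]
  module

/-- automorphisms fixing `s` -/
theorem aut (γ : R →ₐ[F] R) (ht : ∀ f, t (γ f) = t f) (hs : γ s = s) :
    ∃ a : F, γ v = v + a • (1 : R) + (a * a) • s ∧ γ u = u + a • s := by
  have := h.of_perp fr (g := γ v + v) (by simp [ht, h.add_selfF]) (by
    rw [add_mul, map_add]; nth_rw 1 [← hs]; rw [← map_mul, ht, h.add_selfF])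
  set a := t ((γ v + v) * u)
  set b := t ((γ v + v) * v)
  have e : γ v = v + a • (1 : R) + b • s := by
    linear_combination (norm := module) this - h.add_self v
  obtain ⟨n, hn⟩ := h.sq v fr.tv
  have e2 : γ v * γ v = n • (1 : R) := by rw [← map_mul, hn]; simp
  rw [e] at e2
  simp only [add_mul, mul_add, smul_mul_assoc, mul_smul_comm, mul_one, one_mul, hn, fr.ss,
    h.sv fr] at e2
  have : b = a * a := h.smul_inj (by
    linear_combination (norm := module) e2 - a • h.add_self v - b • h.add_self (v * s) -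
      (a * b) • h.add_self s - (a * a) • h.add_self 1)
  obtain ⟨c, hc⟩ := h.u_eq fr
  refine ⟨a, this ▸ e, ?_⟩
  rw [hc, map_add, map_mul, hs, e]
  simp [mul_add, fr.ss]
  module

theorem aut_ext {γ γ' : R →ₐ[F] R} (hs : γ s = γ' s) (hu : γ u = γ' u) (hv : γ v = γ' v) :
    γ = γ' := by
  ext f
  obtain ⟨a, b, e⟩ := h.span fr f
  rw [e]; simp [hs, hu, hv]

end QA

/-- the main count -/
theorem QA.count [Finite F] (h : QA t) {Γ : Type*} (γ : Γ → R →ₐ[F] R)
    (ht : ∀ c f, t (γ c f) = t f) (hq : ∀ c c' f, γ c (γ c' f + f) = γ c' f + f)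
    {c₀ : Γ} (h0 : γ c₀ ≠ AlgHom.id F R) :
    (∃ l : Γ → F, ∀ c c', l c = l c' → γ c = γ c') ∧
      ∃ φ : F × F × {g : R // ∀ c, γ c g = g} → R, Function.Injective φ := by
  have : ∃ f, ∀ c : F, γ c₀ f + f ≠ c • (1 : R) := by
    by_contra k
    push Not at k
    choose l hl using k
    have hl' : ∀ f, γ c₀ f = f + l f • (1 : R) := fun f => by
      linear_combination (norm := module) hl f - h.add_self f
    obtain ⟨f, hf⟩ : ∃ f, l f ≠ 0 := by
      by_contra k
      push Not at k
      exact h0 (AlgHom.ext fun f => by simp [hl', k])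
    have a : ∀ g, ∃ a b : F, g = a • (1 : R) + b • f := fun g => by
      have := map_mul (γ c₀) f g
      rw [hl', hl' f, hl' g] at this
      simp only [add_mul, mul_add, smul_mul_assoc, mul_smul_comm, mul_one, one_mul] at this
      refine ⟨(l f)⁻¹ * (l (f * g) - l f * l g), -(l f)⁻¹ * l g, ?_⟩
      have e : l f • g = (l (f * g) - l f * l g) • (1 : R) - l g • f := by
        linear_combination (norm := module) -this
      calc g = (l f)⁻¹ • l f • g := by rw [smul_smul, inv_mul_cancel₀ hf, one_smul]
        _ = _ := by rw [e]; module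
    obtain ⟨x, y, e⟩ := h.nc
    obtain ⟨a1, b1, e1⟩ := a x
    obtain ⟨a2, b2, e2⟩ := a y
    apply e
    rw [e1, e2]
    simp only [mul_add, add_mul, smul_mul_assoc, mul_smul_comm, mul_one, one_mul]
    module
  obtain ⟨f, hf⟩ := this
  obtain ⟨ν, u, v, fr⟩ := h.exists_frame (by simp [ht, h.add_selfF]) hf
  set s := γ c₀ f + f + ν • (1 : R) with hs
  have hγ : ∀ c, γ c s = s := fun c => by rw [hs, map_add, hq]; simp
  clear_value s
  choose l hl using fun c => h.aut fr (γ c) (ht c) (hγ c)
  refine ⟨⟨l, fun c c' e => h.aut_ext fr (by rw [hγ, hγ]) (by rw [(hl c).2, (hl c').2, e])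
    (by rw [(hl c).1, (hl c').1, e])⟩, fun x => x.1 • u + x.2.1 • v + x.2.2, ?_⟩
  have l0 : l c₀ ≠ 0 := fun e => h0 (h.aut_ext fr (by simp [hγ]) (by simp [(hl c₀).2, e])
    (by simp [(hl c₀).1, e]))
  have key : ∀ g : R, (∀ c, γ c g = g) → t g = 0 ∧ t (g * s) = 0 := fun g hg => by
    have a := ht c₀ (g * u)
    have b := ht c₀ (g * v)
    rw [map_mul, hg, (hl c₀).2] at a
    rw [map_mul, hg, (hl c₀).1] at b
    simp only [mul_add, mul_smul_comm, map_add, map_smul, smul_eq_mul, mul_one] at a b
    have a' : t (g * s) = 0 := (mul_eq_zero.1 (by linear_combination a)).resolve_left l0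
    exact ⟨(mul_eq_zero.1 (by linear_combination b - l c₀ * l c₀ * a')).resolve_left l0, a'⟩
  rintro ⟨a, b, g, hg⟩ ⟨a', b', g', hg'⟩ e
  simp only at e
  have e1 := congrArg t e
  have e2 := congrArg (fun x => t (x * s)) e
  simp [add_mul, fr.tu, fr.tv, fr.tus, fr.tvs, (key g hg).1, (key g hg).2, (key g' hg').1,
    (key g' hg').2] at e1 e2
  subst e1 e2
  simpa using e

theorem perm_triv {K X : Type*} [Group K] [Group.IsPerfect K] [Finite X] (hX : Nat.card X ≤ 3)
    (ψ : K →* Equiv.Perm X) (x : K) : ψ x = 1 := by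
  obtain ⟨e⟩ : Nonempty (X ↪ Fin 3) := by
    have := Fintype.ofFinite X
    exact Function.Embedding.nonempty_of_card_le (by simpa using hX)
  classical
  let χ : K →* Equiv.Perm (Fin 3) := (Equiv.Perm.viaEmbeddingHom e).comp ψ
  have hs : Group.IsSolvable (Equiv.Perm (Fin 3)) := by
    refine ⟨⟨2, ?_⟩⟩
    have : ∀ a b c d : Equiv.Perm (Fin 3), Commute ⁅a, b⁆ ⁅c, d⁆ := by
      unfold Commute SemiconjBy; decide +kernel
    rw [derivedSeries_succ, derivedSeries_one, Subgroup.commutator_eq_bot_iff_le_centralizer,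
      commutator_eq_closure, Subgroup.closure_le, Subgroup.centralizer_closure]
    rintro _ ⟨a, b, rfl⟩ _ ⟨c, d, rfl⟩
    exact (this c d a b).eq
  have : Subsingleton χ.range := by
    by_contra k
    rw [not_subsingleton_iff_nontrivial] at k
    have := Group.IsPerfect.range χ
    exact Group.IsPerfect.not_isSolvable χ.range inferInstance
  have : χ x = χ 1 := congrArg Subtype.val (Subsingleton.elim (⟨χ x, x, rfl⟩ : χ.range) ⟨χ 1, 1, rfl⟩)
  rw [← map_one ψ]
  exact Equiv.Perm.viaEmbeddingHom_injective e this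

/-- the field has more than two elements -/
theorem QA.two_lt [Finite F] (h : QA t) {K : Type*} [Group K] [Group.IsPerfect K] (κ : K →* R)
    (hκ : ∀ f : R, f ∈ AddSubgroup.closure (Set.range κ)) : 2 < Nat.card F := by
  by_contra k
  have hF : ∀ c : F, c = 0 ∨ c = 1 := by
    have : Nat.card F = 2 := le_antisymm (not_lt.1 k) Finite.one_lt_card
    obtain ⟨y, -, hy⟩ := (Nat.card_eq_two_iff' (0 : F)).1 this
    intro c
    by_cases e : c = 0
    · exact Or.inl e
    · exact Or.inr ((hy c e).trans (hy 1 one_ne_zero).symm)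
  obtain ⟨s₀, h0, hn⟩ := h.exists_sym
  obtain ⟨ν, u, v, fr⟩ := h.exists_frame h0 hn
  set s := s₀ + ν • (1 : R)
  clear_value s
  let X := {y : R // (∃ f, y = f * s) ∧ y ≠ 0}
  have hX : ∀ y : X, y.1 ∈ ({s, v * s, s + v * s} : Set R) := by
    rintro ⟨_, ⟨f, rfl⟩, hy⟩
    obtain ⟨a, e⟩ := h.mul_s fr f
    rcases hF a with a1 | a1 <;> rcases hF (t (f * s)) with b1 | b1 <;> rw [a1, b1] at e <;>
      simp at e
    · exact absurd e hy
    all_goals simp [e]
  let φ : X → ({s, v * s, s + v * s} : Set R) := fun y => ⟨y.1, hX y⟩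
  have hφ : Function.Injective φ := fun a b e => Subtype.ext (congrArg Subtype.val e :)
  have : Finite X := Finite.of_injective φ hφ
  have c3 : Nat.card X ≤ 3 := (Nat.card_le_card_of_injective φ hφ).trans (by
    rw [Nat.card_coe_set_eq]; exact Set.ncard_insert_le _ _ |>.trans (by
      have := Set.ncard_insert_le (v * s) {s + v * s}; simp at this; omega))
  let act : MulAction K X :=
    { smul := fun x y => ⟨κ x * y.1, by
        obtain ⟨_, ⟨f, rfl⟩, hy⟩ := y
        refine ⟨⟨κ x * f, (mul_assoc _ _ _).symm⟩, fun e => hy ?_⟩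
        have := congrArg (κ x⁻¹ * ·) e
        simpa [← mul_assoc, ← map_mul] using this⟩
      one_smul := fun y => Subtype.ext (show κ 1 * y.1 = y.1 by simp)
      mul_smul := fun a b y => Subtype.ext (show κ (a * b) * y.1 = κ a * (κ b * y.1) by
        simp [mul_assoc]) }
  have s0 : s ≠ 0 := fun e => by have := fr.tvs; simp [e] at this
  have fix : ∀ x, κ x * s = s := fun x => by
    have := perm_triv c3 (MulAction.toPermHom K X) x
    exact congrArg Subtype.val (DFunLike.congr_fun this (⟨s, ⟨1, by simp⟩, s0⟩ : X))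
  have : ∀ f ∈ AddSubgroup.closure (Set.range κ), t (f * s) = 0 := fun f hf => by
    induction hf using AddSubgroup.closure_induction with
    | mem _ hx => obtain ⟨x, rfl⟩ := hx; rw [fix, fr.ts]
    | zero => simp
    | add _ _ _ _ a b => simp [add_mul, a, b]
    | neg _ _ a => simp [a]
  have := this v (hκ v)
  rw [fr.tvs] at this
  exact one_ne_zero this

end H28.PGV
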