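import Cfsg.Agent.H28.PGV1

/-! A quasisimple group interchanged with a commuting copy by a quadratic involution. -/

set_option autoImplicit false

namespace H28.PGV

open Subgroup
open scoped commutatorElement

universe u

variable {K Γ S : Type*} [Group K] [Group Γ] [Ring S]

/-- quasisimple groups, elementary form -/
structure QS (K : Type*) [Group K] : Prop where
  perf : Group.IsPerfect K
  norm : ∀ N : Subgroup K, N.Normal → N = ⊤ ∨ N ≤ center K

theorem top_of_comm [Group.IsPerfect K] {N : Subgroup K} (h : ∀ x y : K, ⁅x, y⁆ ∈ N) (x : K) :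
    x ∈ N := by
  have : _root_.commutator K ≤ N := by
    rw [commutator_eq_closure, closure_le]; rintro _ ⟨x, y, rfl⟩; exact h x y
  exact this Group.IsPerfect.mem_commutator

/-- the stabilizer of a vector -/
def fixS {M : Type*} [AddCommGroup M] [Module S M] (f : K →* S) (m : M) : Subgroup K where
  carrier := {x | f x • m = m}
  one_mem' := by simp
  mul_mem' {a b} ha hb := by
    simp only [Set.mem_setOf_eq] at *; rw [map_mul, mul_smul, hb, ha]
  inv_mem' {a} ha := by
    simp only [Set.mem_setOf_eq] at *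
    nth_rw 1 [← ha]; rw [← mul_smul, ← map_mul]; simp

theorem fix_of_quad [Group.IsPerfect K] {M : Type*} [AddCommGroup M] [Module S M] (f : K →* S)
    {m : M} (h : ∀ x y, f x • (f y • m - m) = f y • m - m) (x : K) : f x • m = m := by
  let φ : K →* Multiplicative M := MonoidHom.mk' (fun x => Multiplicative.ofAdd (f x • m - m))
    fun x y => by
      rw [← ofAdd_add, map_mul, mul_smul]; congr 1
      have := h x y
      rw [smul_sub] at this
      linear_combination (norm := abel) this
  have : x ∈ φ.ker := top_of_comm (fun x y => by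
    rw [MonoidHom.mem_ker, map_commutatorElement, commutatorElement_eq_one_iff_mul_comm,
      mul_comm]) x
  exact sub_eq_zero.1 (Multiplicative.ofAdd.injective this)

theorem fix_of_swap [Group.IsPerfect K] (f : K →* S) {m : S} (hm : ∀ x, Commute (f x) m)
    (h : ∀ x y, f x * f y * m = f y * f x * m) (x : K) : f x * m = m :=
  top_of_comm (N := fixS f m) (fun x y => by
    show f _ * m = m
    have : ⁅x, y⁆ = x * y * (y * x)⁻¹ := by simp [commutatorElement_def, mul_assoc]
    rw [this, map_mul, mul_assoc, (hm _).eq, ← mul_assoc, map_mul, h, ← map_mul, (hm _).eq,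
      mul_assoc, ← map_mul]; simp) x

theorem triv_of_comm [Group.IsPerfect K] (f : K →* S) (h : ∀ x y, Commute (f x) (f y)) (x : K) :
    f x = 1 := by
  simpa using fix_of_swap f (m := 1) (by simp) (fun x y => by rw [(h x y).eq]) x

theorem QS.mem_center (hK : QS K) {x : K} (h : ∀ w, ⁅x, w⁆ ∈ center K) : x ∈ center K := by
  have := hK.perf
  have a : x ∈ Subgroup.upperCentralSeries K 2 := by
    rw [Subgroup.mem_upperCentralSeries_succ_iff]
    intro w; rw [Subgroup.upperCentralSeries_one]; exact h w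
  rwa [Group.IsPerfect.upperCentralSeries_eq_center K two_ne_zero] at a

theorem QS.fix (hK : QS K) (f : K →* S) {m : S} (hm : ∀ x, Commute (f x) m) {x : K}
    (hx : x ∉ center K) (h : f x * m = m) (w : K) : f w * m = m := by
  have : (fixS f m).Normal := ⟨fun a ha g => by
    show f _ * m = m
    have ha : f a * m = m := ha
    rw [map_mul, map_mul, mul_assoc, (hm _).eq, ← mul_assoc, mul_assoc (f g), ha, (hm _).eq,
      mul_assoc, ← map_mul]; simp⟩
  rcases hK.norm _ this with e | e
  · exact (e ▸ mem_top w : w ∈ fixS f m)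
  · exact absurd (e h) hx

theorem QS.fix2 (hK : QS K) (f : K →* S) {m g : S} (hm : ∀ x, Commute (f x) m)
    (hg : ∀ x, Commute (f x) g) {x : K} (hx : x ∉ center K) (h : f x * m = g * m) (w : K) :
    f w * m = m := by
  have : ∃ w, ⁅x⁻¹, w⁆ ∉ center K := by
    by_contra k
    push Not at k
    exact hx (inv_mem_iff.1 (hK.mem_center k))
  obtain ⟨v, hv⟩ := this
  refine hK.fix f hm hv ?_ w
  have : ⁅x⁻¹, v⁆ = x⁻¹ * (v * x * v⁻¹) := by simp [commutatorElement_def, mul_assoc]
  have e : f (v * x * v⁻¹) * m = f x * m := by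
    rw [map_mul, map_mul, mul_assoc, (hm _).eq, ← mul_assoc, mul_assoc (f v), h, ← mul_assoc,
      (hg _).eq, mul_assoc g, (hm _).eq, mul_assoc, mul_assoc, ← map_mul]; simp
  rw [this, map_mul, mul_assoc, e, ← mul_assoc, ← map_mul]; simp

theorem QS.exists_nc (hK : QS K) (f : K →* S) (hf : ∃ x, f x ≠ 1) : ∃ x : K, x ∉ center K := by
  by_contra k
  push Not at k
  obtain ⟨x, hx⟩ := hf
  have := hK.perf
  refine hx (triv_of_comm f (fun x y => ?_) x)
  show _ = _
  rw [← map_mul, ← map_mul, mem_center_iff.1 (k x)]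

/-- an element normalizing but not centralizing `f K` -/
theorem QS.exists_move (hK : QS K) (f : K →* S) {b b' : S} (hb : b * b' = 1) (hb' : b' * b = 1)
    (hn : ∀ x, ∃ y, b * f x = f y * b) (hc : ¬ ∀ x, Commute b (f x)) :
    ∃ x y, b * f x = f y * b ∧ y⁻¹ * x ∉ center K := by
  by_contra k
  push Not at k
  apply hc
  have := hK.perf
  have a : ∀ x w, Commute (b * f x * b' * f x⁻¹) (f w) := fun x w => by
    obtain ⟨y, hy⟩ := hn x
    have : y * x⁻¹ ∈ center K := by
      have := inv_mem (k x y hy)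
      have e := mem_center_iff.1 this x
      rw [show y * x⁻¹ = (y⁻¹ * x)⁻¹ by
        rw [← mul_left_inj x, ← e]; group]
      exact this
    rw [hy, mul_assoc (f y), hb, mul_one, ← map_mul]
    show _ = _
    rw [← map_mul, ← map_mul, mem_center_iff.1 this]
  let g : K →* S :=
    { toFun := fun x => b * f x * b' * f x⁻¹
      map_one' := by simp [hb]
      map_mul' := fun x y => by
        rw [mul_assoc (b * f x * b'), ← (a y x⁻¹).eq, mul_inv_rev, map_mul, map_mul]
        simp only [mul_assoc]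
        rw [← mul_assoc b' b, hb', one_mul] }
  have c : ∀ x y, Commute (g x) (g y) := fun x y => by
    obtain ⟨y', hy⟩ := hn y
    show Commute _ (b * f y * b' * f y⁻¹)
    rw [hy, mul_assoc (f y'), hb, mul_one, ← map_mul]
    exact a x _
  intro x
  have e : b * f x * b' * f x⁻¹ = 1 := triv_of_comm g c x
  have e2 : b * f x * b' = f x := by
    have := congrArg (· * f x) e
    simpa [mul_assoc, ← map_mul] using this
  show _ = _
  nth_rw 2 [← e2]
  rw [mul_assoc, mul_assoc, hb', mul_one]

/-- the configuration in characteristic two -/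
structure Dat (κ : K →* S) (α : S) (σ : Γ →* S) (Γ₁ : Subgroup Γ) : Prop where
  two : (2 : S) = 0
  aa : α * α = 1
  cm : ∀ x y, Commute (α * κ x * α) (κ y)
  dg : ∀ x, κ x * (α * κ x * α) * (α - 1) = α - 1
  nm : ∀ c x, ∃ y, σ c * κ x = κ y * σ c
  q1 : ∀ c, σ c * (α - 1) = α - 1
  q2 : ∀ c, α * (σ c - 1) = σ c - 1
  q3 : ∀ c c', σ c * (σ c' - 1) = σ c' - 1
  ff : ∀ c, c ∉ Γ₁ → ∃ x y, σ c * κ x = κ y * σ c ∧ y⁻¹ * x ∉ center K

theorem Dat.map {κ : K →* S} {α : S} {σ : Γ →* S} {Γ₁ : Subgroup Γ} (h : Dat κ α σ Γ₁)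
    {S' : Type*} [Ring S'] (φ : S →+* S') :
    Dat ((φ : S →* S').comp κ) (φ α) ((φ : S →* S').comp σ) Γ₁ where
  two := by simpa [map_ofNat] using congrArg φ h.two
  aa := by simpa using congrArg φ h.aa
  cm x y := by simpa using (h.cm x y).map φ
  dg x := by simpa using congrArg φ (h.dg x)
  nm c x := by obtain ⟨y, e⟩ := h.nm c x; exact ⟨y, by simpa using congrArg φ e⟩
  q1 c := by simpa using congrArg φ (h.q1 c)
  q2 c := by simpa using congrArg φ (h.q2 c)
  q3 c c' := by simpa using congrArg φ (h.q3 c c')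
  ff c hc := by obtain ⟨x, y, e, k⟩ := h.ff c hc; exact ⟨x, y, by simpa using congrArg φ e, k⟩

/-- common fixed points -/
def fixV (V : Type*) [AddCommGroup V] [Module S V] (X : Set S) : AddSubgroup V where
  carrier := {v | ∀ s ∈ X, s • v = v}
  zero_mem' := by simp
  add_mem' ha hb s hs := by rw [smul_add, ha s hs, hb s hs]
  neg_mem' ha s hs := by rw [smul_neg, ha s hs]

theorem closure_ind (κ : K →* S) {P : S → Prop} (h1 : ∀ x, P (κ x)) (h0 : P 0)
    (ha : ∀ f g, P f → P g → P (f + g)) (hn : ∀ f, P f → P (-f)) {f : S}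
    (hf : f ∈ Subring.closure (Set.range κ)) : P f := by
  rw [Subring.mem_closure_iff] at hf
  induction hf using AddSubgroup.closure_induction with
  | mem _ hx =>
    rw [← MonoidHom.coe_mrange, Submonoid.closure_eq] at hx
    obtain ⟨x, rfl⟩ := hx; exact h1 x
  | zero => exact h0
  | add _ _ _ _ a b => exact ha _ _ a b
  | neg _ _ a => exact hn _ a

theorem Dat.irr {V : Type*} [AddCommGroup V] [Finite V] (hK : QS K) {κ : K →* Module.End ℤ V}
    {α : Module.End ℤ V} {σ : Γ →* Module.End ℤ V} {Γ₁ : Subgroup Γ} (h : Dat κ α σ Γ₁)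
    (hκ : ∃ x, κ x ≠ 1)
    (inv : ∀ W : AddSubgroup V, (∀ x, ∀ v ∈ W, κ x v ∈ W) → (∀ v ∈ W, α v ∈ W) →
      (∀ c, ∀ v ∈ W, σ c v ∈ W) → W = ⊥ ∨ W = ⊤) :
    ∃ q, 2 < q ∧ q ≤ (fixV V {α}).index ∧ Γ₁.index ≤ q ∧
      (Γ₁ ≠ ⊤ → q ^ 2 ≤ (fixV V (Set.range σ)).index) := by
  have hp := hK.perf
  have nc : ∃ x y, ¬ Commute (κ x) (κ y) := by
    by_contra k
    push Not at k
    obtain ⟨x, hx⟩ := hκ
    exact hx (triv_of_comm κ k x)
  let Fx : V → Prop := fun w => (∀ x, (α * κ x * α) w = κ x⁻¹ w) ∧ α w = w ∧ ∀ c, σ c w = w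
  have two : ∀ f : Module.End ℤ V, f + f = 0 := fun f => by rw [← two_mul, h.two, zero_mul]
  have hFx : ∀ v, Fx ((α - 1) v) := fun v => by
    refine ⟨fun x => ?_, ?_, fun c => LinearMap.congr_fun (h.q1 c) v⟩
    · have := congrArg (κ x⁻¹ * ·) (h.dg x)
      simp only [← mul_assoc, ← map_mul, inv_mul_cancel, map_one, one_mul] at this
      exact LinearMap.congr_fun this v
    · have : α * (α - 1) = α - 1 := by
        rw [mul_sub, h.aa]; linear_combination (norm := noncomm_ring) two 1 - two α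
      exact LinearMap.congr_fun this v
  obtain ⟨z, z0, z1, z2, z3⟩ : ∃ z, z ≠ 0 ∧ Fx z := by
    by_contra k
    push Not at k
    have : α = 1 := by
      rw [← sub_eq_zero]; ext v
      by_contra e
      exact k _ e (hFx v)
    obtain ⟨x, y, e⟩ := nc
    exact e (by simpa [this] using h.cm x y)
  let R := Subring.closure (Set.range κ)
  let k : K →* R := κ.codRestrict R fun x => Subring.subset_closure ⟨x, rfl⟩
  have ind : ∀ {P : R → Prop}, (∀ x, P (k x)) → P 0 → (∀ f g, P f → P g → P (f + g)) →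
      (∀ f, P f → P (-f)) → ∀ f, P f := fun {P} h1 h0 ha hn f => by
    have := closure_ind κ (P := fun f => ∃ hf, P ⟨f, hf⟩) (fun x => ⟨_, h1 x⟩) ⟨_, h0⟩
      (fun f g ⟨_, a⟩ ⟨_, b⟩ => ⟨_, ha _ _ a b⟩) (fun f ⟨_, a⟩ => ⟨_, hn _ a⟩) f.2
    exact this.2
  have cm1 : ∀ x (g : R), Commute (α * κ x * α) g := fun x =>
    ind (h.cm x) (by simp) (fun f g a b => a.add_right b) fun f a => a.neg_right
  have cm2 : ∀ f g : R, Commute (α * f * α) g := fun f g =>
    ind (P := fun f => Commute (α * f * α) g) (fun x => cm1 x g) (by simp)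
      (fun f g a b => by simpa [mul_add, add_mul] using a.add_left b)
      (fun f a => by simpa using a.neg_left) f
  let ev : R →+ V := AddMonoidHom.mk' (fun f => f.1 z) fun _ _ => rfl
  have ev_def : ∀ f, ev f = f.1 z := fun _ => rfl
  have hγ : ∀ c (f : R), σ c * f * σ c⁻¹ ∈ R := fun c =>
    ind (fun x => by
      obtain ⟨y, e⟩ := h.nm c x
      show σ c * κ x * σ c⁻¹ ∈ R
      rw [e, mul_assoc, ← map_mul, mul_inv_cancel, map_one, mul_one]; exact (k y).2) (by simp)
      (fun f g a b => by simpa [mul_add, add_mul] using add_mem a b)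
      fun f a => by simpa using neg_mem a
  let γ : Γ → R →+* R := fun c =>
    { toFun := fun f => ⟨_, hγ c f⟩
      map_one' := Subtype.ext (by simp [← map_mul])
      map_mul' := fun f g => Subtype.ext (by
        simp only [Subring.coe_mul, mul_assoc]
        rw [← mul_assoc (σ c⁻¹), ← map_mul]; simp)
      map_zero' := Subtype.ext (by simp)
      map_add' := fun f g => Subtype.ext (by simp [mul_add, add_mul]) }
  have γ_def : ∀ c f, (γ c f).1 = σ c * f * σ c⁻¹ := fun _ _ => rfl
  have γ_ev : ∀ c f, ev (γ c f) = σ c (ev f) := fun c f => by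
    simp [ev_def, γ_def, z3]
  have γγ : ∀ c c' f, γ c (γ c' f) = γ (c * c') f := fun c c' f =>
    Subtype.ext (by simp [γ_def, mul_assoc])
  have γ1 : ∀ f, γ 1 f = f := fun f => Subtype.ext (by simp [γ_def])
  have αk : ∀ x, α (ev (k x)) = ev (k x⁻¹) := fun x => by
    have := z1 x
    rwa [Module.End.mul_apply, z2] at this
  have surj : Function.Surjective ev := by
    rw [← AddMonoidHom.range_eq_top]
    refine (inv _ ?_ ?_ ?_).resolve_left fun e => z0 ?_
    · rintro x _ ⟨f, rfl⟩; exact ⟨k x * f, rfl⟩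
    · rintro _ ⟨f, rfl⟩
      exact ind (P := fun f => α (ev f) ∈ ev.range) (fun x => ⟨_, (αk x).symm⟩) (by simp)
        (fun f g a b => by simpa using add_mem a b) (fun f a => by simpa using a) f
    · rintro c _ ⟨f, rfl⟩; exact ⟨_, γ_ev c f⟩
    · exact AddSubgroup.mem_bot.1 (e ▸ ⟨1, rfl⟩)
  have inj : Function.Injective ev := (injective_iff_map_eq_zero ev).2 fun f hf => by
    apply Subtype.ext; ext v
    obtain ⟨g, rfl⟩ := surj v
    refine ind (P := fun g => f.1 (ev g) = 0) (fun x => ?_) (by simp)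
      (fun f g a b => by simp [a, b]) (fun f a => by simp [a]) g
    have := z1 x⁻¹
    rw [inv_inv] at this
    show f.1 (κ x z) = 0
    rw [← this, ← Module.End.mul_apply, ← (cm1 _ f).eq, Module.End.mul_apply, ← ev_def, hf,
      map_zero]
  let e : R ≃+ V := AddEquiv.ofBijective ev ⟨inj, surj⟩
  let st : R → R := fun f => e.symm (α (ev f))
  have st_ev : ∀ f, ev (st f) = α (ev f) := fun f => e.apply_symm_apply _
  have st_mul : ∀ f g, st (f * g) = st g * st f := fun f g => inj (by
    rw [st_ev]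
    show α (f.1 (ev g)) = (st g).1 (ev (st f))
    have a : (α * f * α) (ev (st g)) = α (f.1 (ev g)) := by
      rw [st_ev, ← Module.End.mul_apply, mul_assoc _ α, h.aa, mul_one]; rfl
    rw [← a, ev_def, ← Module.End.mul_apply, (cm2 f _).eq, st_ev]
    simp [z2, ev_def])
  have st_add : ∀ f g, st (f + g) = st f + st g := fun f g => inj (by simp [st_ev])
  have st_st : ∀ f, st (st f) = f := fun f => inj (by
    rw [st_ev, st_ev, ← Module.End.mul_apply, h.aa]; rfl)
  have st_one : st 1 = 1 := inj (by rw [st_ev]; exact z2)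
  have st_k : ∀ x, st (k x) = k x⁻¹ := fun x => inj (by rw [st_ev, αk])
  have twoR : ∀ f : R, f + f = 0 := fun f => Subtype.ext (two f)
  have negR : ∀ f : R, -f = f := fun f => neg_eq_of_add_eq_zero_left (twoR f)
  let F : Subring R :=
    { carrier := {f | (∀ g, f * g = g * f) ∧ st f = f ∧ ∀ c, γ c f = f}
      mul_mem' := fun {a b} ha hb => ⟨fun g => by rw [mul_assoc, hb.1, ← mul_assoc, ha.1, mul_assoc],
        by rw [st_mul, ha.2.1, hb.2.1, ha.1], fun c => by rw [map_mul, ha.2.2, hb.2.2]⟩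
      one_mem' := ⟨by simp, st_one, by simp⟩
      add_mem' := fun {a b} ha hb => ⟨fun g => by rw [add_mul, mul_add, ha.1, hb.1],
        by rw [st_add, ha.2.1, hb.2.1], fun c => by rw [map_add, ha.2.2, hb.2.2]⟩
      zero_mem' := ⟨by simp, inj (by simp [st_ev]), by simp⟩
      neg_mem' := fun {a} ha => by rwa [negR] }
  have memF : ∀ f, Fx (ev f) → f ∈ F := fun f hf => by
    refine ⟨ind (fun x => inj ?_) (by simp) (fun a b ha hb => by rw [add_mul, mul_add, ha, hb])
      fun a ha => by simp [ha], inj (by rw [st_ev, hf.2.1]), fun c => inj (by rw [γ_ev, hf.2.2])⟩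
    have a := hf.1 x⁻¹
    have b := z1 x⁻¹
    rw [inv_inv] at a b
    show f.1 (κ x z) = κ x (ev f)
    rw [← a, ← b, ← Module.End.mul_apply, ← (cm1 _ f).eq]; rfl
  have one0 : (1 : R) ≠ 0 := fun e => z0 ((congrArg ev e).trans (map_zero ev))
  have hF : IsField F := by
    refine ⟨⟨1, 0, fun e => one0 (congrArg Subtype.val e)⟩, fun a b => Subtype.ext (a.2.1 b), ?_⟩
    rintro ⟨f, hf⟩ f0
    have := (inv (ev.comp (AddMonoidHom.mulLeft f)).range ?_ ?_ ?_).resolve_left fun e => ?_
    · obtain ⟨g, hg⟩ : z ∈ (ev.comp (AddMonoidHom.mulLeft f)).range := this ▸ AddSubgroup.mem_top z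
      have hg : f * g = 1 := inj hg
      have un : ∀ g', f * g' = 1 → g' = g := fun g' e => by
        rw [← mul_one g', ← hg, ← mul_assoc, ← hf.1, e, one_mul]
      refine ⟨⟨g, fun w => ?_, un _ ?_, fun c => un _ ?_⟩, Subtype.ext hg⟩
      · calc g * w = g * w * (f * g) := by rw [hg, mul_one]
          _ = f * g * w * g := by rw [← mul_assoc, ← hf.1 (g * w), mul_assoc f g w]
          _ = w * g := by rw [hg, one_mul]
      · rw [hf.1, ← hf.2.1, ← st_mul, hg, st_one]
      · rw [← hf.2.2 c, ← map_mul, hg, map_one]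
    · rintro x _ ⟨g, rfl⟩
      exact ⟨k x * g, show ev (f * (k x * g)) = ev (k x * (f * g)) by
        rw [← mul_assoc, hf.1, mul_assoc]⟩
    · rintro _ ⟨g, rfl⟩
      exact ⟨st g, show ev (f * st g) = α (ev (f * g)) by rw [← st_ev, st_mul, hf.2.1, hf.1]⟩
    · rintro c _ ⟨g, rfl⟩
      exact ⟨γ c g, show ev (f * γ c g) = σ c (ev (f * g)) by rw [← γ_ev, map_mul (γ c), hf.2.2]⟩
    · apply f0; apply Subtype.ext; apply inj
      have : ev (f * 1) ∈ (⊥ : AddSubgroup V) := e ▸ ⟨1, rfl⟩
      simpa using this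
  letI := hF.toField
  letI : Algebra F R := RingHom.toAlgebra' F.subtype fun c x => c.2.1 x
  have sm : ∀ (c : F) (f : R), c • f = c.1 * f := fun _ _ => rfl
  have tF : ∀ f, f + st f ∈ F := fun f => memF _ (by
    have : ev (f + st f) = (α - 1) (ev f) := by
      rw [map_add, st_ev, LinearMap.sub_apply, Module.End.one_apply, sub_eq_add_neg,
        ← map_neg ev, negR, add_comm]
    rw [this]; exact hFx _)
  let t : R →ₗ[F] F :=
    { toFun := fun f => ⟨_, tF f⟩
      map_add' := fun f g => Subtype.ext (by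
        show f + g + st (f + g) = f + st f + (g + st g)
        rw [st_add]; abel)
      map_smul' := fun c f => Subtype.ext (by
        show c.1 * f + st (c.1 * f) = c.1 * (f + st f)
        rw [st_mul, c.2.2.1, ← c.2.1, mul_add]) }
  have t_def : ∀ f, (t f).1 = f + st f := fun _ => rfl
  have t0 : ∀ f, t f = 0 ↔ st f = f := fun f => by
    rw [Subtype.ext_iff, t_def]
    exact ⟨fun e => (neg_eq_of_add_eq_zero_right e).symm.trans (negR f),
      fun e => by rw [e, twoR]; rfl⟩
  have tγ : ∀ c f, t (γ c f) = t f := fun c f => by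
    rw [← sub_eq_zero, ← map_sub, t0]
    apply inj
    rw [st_ev, map_sub, γ_ev]
    exact LinearMap.congr_fun (h.q2 c) (ev f)
  have ncR : ∃ f g : R, f * g ≠ g * f := by
    obtain ⟨x, y, e⟩ := nc
    exact ⟨k x, k y, fun a => e (congrArg Subtype.val a)⟩
  have qa : QA t := by
    refine ⟨?_, (t0 1).2 st_one, fun f g => ?_, fun f hf => ?_, fun f hf => ?_, ncR⟩
    · rw [← one_add_one_eq_two]
      exact Subtype.ext (twoR 1)
    · simp only [sm, Subring.coe_add, Subring.coe_mul, t_def, st_mul]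
      linear_combination (norm := noncomm_ring) - twoR ((f + st f) * g) - (tF f).1 (st g) -
        twoR (st g * (f + st f))
    · have : ∀ f, f * st f ∈ F := ind (fun x => by rw [st_k, ← map_mul]; simp [one_mem])
        (by simp [zero_mem]) (fun f g a b => by
          have := add_mem (add_mem a b) (tF (f * st g))
          rw [st_mul, st_st] at this
          convert this using 1
          rw [st_add]; noncomm_ring) fun f a => by rwa [negR]
      exact ⟨⟨_, this f⟩, by rw [sm, mul_one]; exact congrArg (f * ·) ((t0 f).1 hf).symm⟩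
    · let I : AddSubgroup R :=
        { carrier := {f | ∀ g, t (g * f) = 0}
          zero_mem' := by simp
          add_mem' := fun ha hb g => by rw [mul_add, map_add, ha, hb, add_zero]
          neg_mem' := fun ha => by rwa [negR] }
      refine (inv (I.map ev) ?_ ?_ ?_).elim (fun e => ?_) fun e => ?_
      rotate_left 3
      · apply inj
        have : ev f ∈ (⊥ : AddSubgroup V) := e ▸ ⟨f, hf, rfl⟩
        simpa using this
      · obtain ⟨f, hf, e⟩ : z ∈ I.map ev := e ▸ AddSubgroup.mem_top z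
        obtain rfl : f = 1 := inj e
        have : ∀ g, st g = g := fun g => (t0 g).1 (by simpa using hf g)
        obtain ⟨f, g, e⟩ := ncR
        exact absurd (by rw [← this (f * g), st_mul, this, this]) e
      · rintro x _ ⟨g, hg, rfl⟩
        exact ⟨k x * g, fun w => by rw [← mul_assoc]; exact hg _, rfl⟩
      · rintro _ ⟨g, hg, rfl⟩
        exact ⟨g, hg, by rw [← st_ev, (t0 g).1 (by simpa using hg 1)]⟩
      · rintro c _ ⟨g, hg, rfl⟩
        refine ⟨γ c g, fun w => ?_, γ_ev c g⟩
        rw [← γ1 w, ← mul_inv_cancel c, ← γγ, ← map_mul, tγ]; exact hg _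
  have : Finite R := Finite.of_injective ev inj
  have q2 : 2 < Nat.card F := qa.two_lt k (ind (fun x => AddSubgroup.subset_closure ⟨x, rfl⟩)
    (zero_mem _) (fun _ _ => add_mem) fun _ => neg_mem)
  let γ' : Γ → R →ₐ[F] R := fun c => { γ c with commutes' := fun a => a.2.2.2 c }
  have mem1 : ∀ c, γ' c = AlgHom.id F R → c ∈ Γ₁ := fun c hc => by
    by_contra hn
    obtain ⟨x, y, e1, e2⟩ := h.ff c hn
    have a : γ c (k x) = k x := DFunLike.congr_fun hc (k x)
    have a : σ c * κ x * σ c⁻¹ = κ x := congrArg Subtype.val a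
    rw [e1, mul_assoc, ← map_mul, mul_inv_cancel, map_one, mul_one] at a
    obtain ⟨w, hw⟩ := hκ
    exact hw (by simpa using hK.fix κ (m := 1) (by simp) e2 (by rw [map_mul, ← a, ← map_mul]; simp) w)
  have cnt := fun c₀ => qa.count γ' tγ (fun c c' f => inj (by
    show ev (γ c (γ c' f + f)) = ev (γ c' f + f)
    rw [show γ c' f + f = γ c' f - f by rw [sub_eq_add_neg, negR], γ_ev, map_sub, γ_ev]
    exact LinearMap.congr_fun (h.q3 c c') (ev f))) (c₀ := c₀)
  refine ⟨Nat.card F, q2, ?_, ?_, fun hn => ?_⟩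
  · obtain ⟨u, hu⟩ := qa.exists_tr
    refine Nat.card_le_card_of_injective
      (fun c : F => (QuotientAddGroup.mk (ev (c • u)) : V ⧸ fixV V {α})) fun c c' e => ?_
    have := QuotientAddGroup.eq.1 e α rfl
    rw [← map_neg, ← map_add, Module.End.smul_def, ← st_ev] at this
    have := (t0 _).2 (inj this)
    simp only [map_add, map_neg, map_smul, hu, smul_eq_mul, mul_one] at this
    linear_combination -this
  · by_cases hn : Γ₁ = ⊤
    · rw [hn, index_top]; omega
    obtain ⟨c₀, hc⟩ : ∃ c, c ∉ Γ₁ := by simpa [eq_top_iff'] using hn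
    obtain ⟨⟨l, hl⟩, -⟩ := cnt c₀ fun e => hc (mem1 _ e)
    refine Nat.card_le_card_of_injective (fun x : Γ ⧸ Γ₁ => l x.out) fun x y e => ?_
    rw [← x.out_eq', ← y.out_eq', QuotientGroup.eq]
    refine mem1 _ (AlgHom.ext fun f => ?_)
    have : γ x.out f = γ y.out f := DFunLike.congr_fun (hl _ _ e) f
    show γ _ f = f
    rw [← γγ, ← this, γγ, inv_mul_cancel, γ1]
  · obtain ⟨c₀, hc⟩ : ∃ c, c ∉ Γ₁ := by simpa [eq_top_iff'] using hn
    obtain ⟨-, φ, hφ⟩ := cnt c₀ fun e => hc (mem1 _ e)
    have a := Nat.card_le_card_of_injective _ hφ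
    have b : Nat.card (fixV V (Set.range σ)) = Nat.card {g : R // ∀ c, γ' c g = g} := by
      refine (Nat.card_congr (e.toEquiv.subtypeEquiv fun g => ?_)).symm
      constructor
      · rintro a _ ⟨c, rfl⟩
        exact (γ_ev c g).symm.trans (congrArg ev (a c))
      · exact fun a c => inj ((γ_ev c g).trans (a _ ⟨c, rfl⟩))
    rw [Nat.card_prod, Nat.card_prod, ← b, Nat.card_congr e.toEquiv,
      ← (fixV V (Set.range σ)).index_mul_card, ← mul_assoc, ← sq] at a
    exact Nat.le_of_mul_le_mul_right a Nat.card_pos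

theorem Dat.gen (hK : QS K) {κ : K →* S} {α : S} {σ : Γ →* S} {Γ₁ : Subgroup Γ}
    (h : Dat κ α σ Γ₁) (hS : ∀ T : Subring S, (∀ x, κ x ∈ T) → α ∈ T → (∀ c, σ c ∈ T) → T = ⊤)
    (n : ℕ) : ∀ (V : Type u) [AddCommGroup V] [Module S V] [Finite V], Nat.card V = n →
    (∃ x, ∃ v : V, κ x • v ≠ v) → ∃ q, 2 < q ∧ q ≤ (fixV V {α}).index ∧ Γ₁.index ≤ q ∧
      (Γ₁ ≠ ⊤ → q ^ 2 ≤ (fixV V (Set.range σ)).index) := by
  induction n using Nat.strong_induction_on with
  | _ n ih =>
  intro V _ _ _ hn ⟨x, v, hx⟩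
  have hp := hK.perf
  by_cases hs : ∀ W : Submodule S V, W = ⊥ ∨ W = ⊤
  · let φ := Module.toModuleEnd ℤ V (S := S)
    have := (h.map φ).irr hK ⟨x, fun e => hx (LinearMap.congr_fun e v)⟩ fun W h1 h2 h3 => by
      let T : Subring S :=
        { carrier := {s | ∀ w ∈ W, s • w ∈ W}
          mul_mem' := fun ha hb w hw => by rw [mul_smul]; exact ha _ (hb _ hw)
          one_mem' := by simp
          add_mem' := fun ha hb w hw => by rw [add_smul]; exact add_mem (ha _ hw) (hb _ hw)
          zero_mem' := by simp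
          neg_mem' := fun ha w hw => by rw [neg_smul]; exact neg_mem (ha _ hw) }
      have hT : ∀ s, s ∈ T := fun s => hS T h1 h2 h3 ▸ Subring.mem_top s
      let W' : Submodule S V := { W with smul_mem' := fun s w hw => hT s w hw }
      rcases hs W' with e | e
      · exact Or.inl (congrArg Submodule.toAddSubgroup e)
      · exact Or.inr (congrArg Submodule.toAddSubgroup e)
    have e1 : fixV V {φ α} = fixV V {α} := by ext v; simp [fixV, φ]
    have e2 : fixV V (Set.range ((φ : S →* Module.End ℤ V).comp σ)) = fixV V (Set.range σ) := by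
      ext v; simp [fixV, φ]
    rwa [e1, e2] at this
  push Not at hs
  obtain ⟨W, h0, h1⟩ := hs
  have c := W.card_eq_card_quotient_mul_card
  have c0 : 1 < Nat.card W := by
    rw [Finite.one_lt_card_iff_nontrivial]; exact Submodule.nontrivial_iff_ne_bot.2 h0
  have c1 : 1 < Nat.card (V ⧸ W) := by
    have : Finite (V ⧸ W) := Finite.of_surjective _ W.mkQ_surjective
    rw [Finite.one_lt_card_iff_nontrivial]; exact Submodule.Quotient.nontrivial_iff.2 h1
  by_cases hW : ∃ x, ∃ v : W, κ x • v ≠ v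
  · have m : ∀ X : Set S, (fixV W X).index ≤ (fixV V X).index := fun X => by
      have : fixV W X = (fixV V X).comap W.subtype.toAddMonoidHom := by
        ext w; simp [fixV, Subtype.ext_iff]
      rw [this, AddSubgroup.index_comap]
      exact Nat.le_of_dvd (Nat.pos_of_ne_zero AddSubgroup.FiniteIndex.index_ne_zero)
        (AddSubgroup.relIndex_dvd_index_of_normal _ _)
    obtain ⟨q, a, b, c, d⟩ := ih _ (by nlinarith) W rfl hW
    exact ⟨q, a, b.trans (m _), c, fun e => (d e).trans (m _)⟩
  have : Finite (V ⧸ W) := Finite.of_surjective _ W.mkQ_surjective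
  have m : ∀ X : Set S, (fixV (V ⧸ W) X).index ≤ (fixV V X).index := fun X => by
    rw [← AddSubgroup.index_comap_of_surjective _ (f := W.mkQ.toAddMonoidHom) W.mkQ_surjective]
    refine AddSubgroup.index_antitone fun w hw s hs => ?_
    exact (map_smul W.mkQ s w).symm.trans (congrArg W.mkQ (hw s hs))
  obtain ⟨q, a, b, c, d⟩ := ih _ (by nlinarith) (V ⧸ W) rfl (by
    by_contra k
    push Not at k hW
    refine hx (fix_of_quad κ (fun x y => ?_) x)
    exact congrArg Subtype.val (hW x ⟨_, (Submodule.Quotient.eq W).1 (k y (W.mkQ v))⟩))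
  exact ⟨q, a, b.trans (m _), c, fun e => (d e).trans (m _)⟩

/-- version for an arbitrary ring -/
theorem Dat.bound (hK : QS K) {κ : K →* S} {α : S} {σ : Γ →* S} {Γ₁ : Subgroup Γ}
    (h : Dat κ α σ Γ₁) (V : Type u) [AddCommGroup V] [Module S V] [Finite V]
    (hx : ∃ x, ∃ v : V, κ x • v ≠ v) : ∃ q, 2 < q ∧ q ≤ (fixV V {α}).index ∧ Γ₁.index ≤ q ∧
      (Γ₁ ≠ ⊤ → q ^ 2 ≤ (fixV V (Set.range σ)).index) := by
  let T := Subring.closure (Set.range κ ∪ {α} ∪ Set.range σ)
  let κ' : K →* T := κ.codRestrict T fun x => Subring.subset_closure (by simp)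
  let σ' : Γ →* T := σ.codRestrict T fun x => Subring.subset_closure (by simp)
  let α' : T := ⟨α, Subring.subset_closure (by simp)⟩
  have h' : Dat κ' α' σ' Γ₁ :=
    { two := by
        rw [← one_add_one_eq_two]; exact Subtype.ext (one_add_one_eq_two.trans h.two)
      aa := Subtype.ext h.aa
      cm := fun x y => Subtype.ext (h.cm x y)
      dg := fun x => Subtype.ext (h.dg x)
      nm := fun c x => (h.nm c x).imp fun y e => Subtype.ext e
      q1 := fun c => Subtype.ext (h.q1 c)
      q2 := fun c => Subtype.ext (h.q2 c)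
      q3 := fun c c' => Subtype.ext (h.q3 c c')
      ff := fun c hc => by
        obtain ⟨x, y, e, k⟩ := h.ff c hc; exact ⟨x, y, Subtype.ext e, k⟩ }
  have := h'.gen hK (fun U h1 h2 h3 => by
    have : T ≤ U.map T.subtype := Subring.closure_le.2 (by
      rintro _ ((⟨x, rfl⟩ | rfl) | ⟨x, rfl⟩)
      exacts [⟨_, h1 x, rfl⟩, ⟨_, h2, rfl⟩, ⟨_, h3 x, rfl⟩])
    rw [eq_top_iff]
    intro s _
    obtain ⟨s', a, b⟩ := this s.2
    exact (Subtype.ext b : s' = s) ▸ a) _ V rfl hx
  have e1 : fixV V {α'} = fixV V {α} := by ext v; simp [fixV, α', Subring.smul_def]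
  have e2 : fixV V (Set.range σ') = fixV V (Set.range σ) := by
    ext v; simp [fixV, σ', Subring.smul_def]
  rwa [e1, e2] at this

end H28.PGV
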