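import Cfsg.Agent.H28.PGV2

/-! Ring identities for the `P(G,V)`-theorem. -/

set_option autoImplicit false

namespace H28.PGV

open Subgroup
open scoped commutatorElement

variable {K A S : Type*} [Group K] [CommGroup A] [Ring S] {κ : K →* S} {ι : A →* S}

/-- conjugation by `ι c` -/
def cjS (ι : A →* S) (c : A) : S →* S where
  toFun f := ι c * f * ι c⁻¹
  map_one' := by simp [← map_mul]
  map_mul' f g := by
    simp only [mul_assoc]; rw [← mul_assoc (ι c⁻¹), ← map_mul]; simp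

def kc (κ : K →* S) (ι : A →* S) (c : A) : K →* S := (cjS ι c).comp κ

theorem kc_def (c : A) (x : K) : kc κ ι c x = ι c * κ x * ι c⁻¹ := rfl

theorem ii (a b : A) : Commute (ι a) (ι b) := (Commute.all a b).map ι

theorem i_inv (c : A) : ι c * ι c⁻¹ = 1 := by simp [← map_mul]

theorem inv_i (c : A) : ι c⁻¹ * ι c = 1 := by simp [← map_mul]

theorem i_kc (c d : A) (x : K) : ι c * kc κ ι d x = kc κ ι (c * d) x * ι c := by
  simp only [kc_def, mul_assoc, ← map_mul]
  rw [← mul_assoc, ← map_mul]; congr 3; simp [mul_comm c]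

theorem kc_one (x : K) : kc κ ι 1 x = κ x := by simp [kc_def]

theorem i_k (c : A) (x : K) : ι c * κ x = kc κ ι c x * ι c := by
  simpa [kc_one] using i_kc (κ := κ) (ι := ι) c 1 x

theorem cj_kc (c d : A) (x : K) : cjS ι c (kc κ ι d x) = kc κ ι (c * d) x := by
  show ι c * _ * _ = _
  rw [i_kc, mul_assoc, i_inv, mul_one]

def Cm (κ : K →* S) (ι : A →* S) (c : A) : Prop := ∀ x y, Commute (kc κ ι c x) (κ y)

theorem Cm.conj {c d : A} (h : Cm κ ι (c⁻¹ * d)) (x y : K) :
    Commute (kc κ ι d x) (kc κ ι c y) := by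
  have := (h x y).map (cjS ι c)
  rwa [cj_kc, mul_inv_cancel_left] at this

def NmM (κ : K →* S) (ι : A →* S) : Submonoid A where
  carrier := {c | ∀ x, ∃ y, ι c * κ x = κ y * ι c}
  one_mem' x := ⟨x, by simp⟩
  mul_mem' {a b} ha hb x := by
    obtain ⟨y, e⟩ := hb x
    obtain ⟨w, e'⟩ := ha y
    exact ⟨w, by rw [map_mul, mul_assoc, e, ← mul_assoc, e', mul_assoc]⟩

/-- elements normalizing `κ K` -/
def Nm (κ : K →* S) (ι : A →* S) [Finite A] : Subgroup A :=
  { NmM κ ι with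
    inv_mem' := fun {a} ha => by
      obtain ⟨n, e⟩ := mem_powers_iff_mem_zpowers.2 (inv_mem (mem_zpowers a))
      exact e ▸ pow_mem (show a ∈ NmM κ ι from ha) n }

theorem not_Nm [Finite A] [Group.IsPerfect K] (hκ : ∃ x, κ x ≠ 1) {a : A} (h : Cm κ ι a) :
    a ∉ Nm κ ι := fun hn => by
  obtain ⟨x, hx⟩ := hκ
  refine hx (triv_of_comm κ (fun x y => ?_) x)
  obtain ⟨w, e⟩ := inv_mem hn x
  have := h w y
  rwa [kc_def, mul_assoc, ← e, ← mul_assoc, i_inv, one_mul] at this

/-- quadratic elements of odd order normalize -/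
theorem odd_quad [Group.IsPerfect K] {b : A} (hb : ι b * (ι b - 1) = ι b - 1) (h1 : Cm κ ι b)
    (h2 : Cm κ ι (b * b)) (x : K) : κ x = 1 := by
  have h3 : Cm κ ι (b⁻¹ * (b * b)) := by simpa using h1
  obtain ⟨β, hβ⟩ : ∃ β, ι b = 1 + β := ⟨ι b - 1, by abel⟩
  have ββ : β * β = 0 := by rw [hβ] at hb; linear_combination (norm := noncomm_ring) hb
  have hi : ι b⁻¹ = 1 - β := by
    have : ι b⁻¹ * (ι b * (1 - β)) = ι b⁻¹ := by
      rw [hβ, show (1 + β) * (1 - β) = 1 by linear_combination (norm := noncomm_ring) -ββ, mul_one]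
    rw [← this, ← mul_assoc, inv_i, one_mul]
  have s : ∀ x, κ x - 2 * kc κ ι b x + kc κ ι (b * b) x = -2 * (β * κ x * β) := fun x => by
    simp only [kc_def, mul_inv_rev, map_mul, hi, hβ]
    linear_combination (norm := noncomm_ring) ββ * κ x * ((1 - β) * (1 - β)) +
      (1 + 2 * β) * κ x * ββ
  have c : ∀ x y w, Commute (κ w) (κ x * κ y - κ y * κ x) := fun x y w => by
    have e : (κ x - 2 * kc κ ι b x + kc κ ι (b * b) x) * (κ y - 2 * kc κ ι b y + kc κ ι (b * b) y) =
        (κ y - 2 * kc κ ι b y + kc κ ι (b * b) y) * (κ x - 2 * kc κ ι b x + kc κ ι (b * b) x) := by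
      rw [s, s]
      linear_combination (norm := noncomm_ring) 4 * β * κ x * ββ * κ y * β -
        4 * β * κ y * ββ * κ x * β
    have e' : κ x * κ y - κ y * κ x =
        -(4 * (kc κ ι b x * kc κ ι b y - kc κ ι b y * kc κ ι b x) +
        (kc κ ι (b * b) x * kc κ ι (b * b) y - kc κ ι (b * b) y * kc κ ι (b * b) x)) := by
      linear_combination (norm := noncomm_ring) e - 2 * (h1 y x).eq + 2 * (h1 x y).eq +
        (h2 y x).eq - (h2 x y).eq - 2 * (h3.conj y x).eq + 2 * (h3.conj x y).eq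
    rw [e']
    exact (((Commute.ofNat_right _ 4).mul_right (((h1 _ _).symm.mul_right (h1 _ _).symm).sub_right
      ((h1 _ _).symm.mul_right (h1 _ _).symm))).add_right (((h2 _ _).symm.mul_right
      (h2 _ _).symm).sub_right ((h2 _ _).symm.mul_right (h2 _ _).symm))).neg_right
  -- commutators are central
  have d : ∀ x y w, Commute (κ w) (κ ⁅x, y⁆) := fun x y w => by
    set m := κ x * κ y - κ y * κ x with hm
    have m1 : ∀ u, m * κ x * κ u = m * κ u * κ x := fun u => by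
      have := c x (y * x) u
      rw [map_mul, ← mul_assoc, ← sub_mul, ← hm] at this
      rw [← this.eq, ← mul_assoc, (c x y u).eq]
    have e : κ ⁅x, y⁆ = 1 + m * κ (y * x)⁻¹ := by
      rw [hm, ← map_mul, ← map_mul, sub_mul, ← map_mul, ← map_mul]
      simp [commutatorElement_def, mul_assoc]
    have m2 : ∀ u, m * κ y * κ u = m * κ u * κ y := fun u => by
      have := c (x * y) y u
      rw [map_mul, ← mul_assoc, ← sub_mul, ← hm] at this
      rw [← this.eq, ← mul_assoc, (c x y u).eq]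
    have m3 : m * κ w * κ (y * x)⁻¹ = m * κ (y * x)⁻¹ * κ w := by
      have a := m1 (x⁻¹ * y⁻¹ * w * x⁻¹ * y⁻¹)
      have b := m2 (y⁻¹ * w * x⁻¹ * y⁻¹)
      have c := m1 (x⁻¹ * y⁻¹ * w * x⁻¹)
      have d := m2 (w * x⁻¹ * y⁻¹)
      have f := m2 (y⁻¹ * w * x⁻¹ * y⁻¹)
      simp only [mul_assoc, ← map_mul, mul_inv_rev, mul_inv_cancel_left, inv_mul_cancel,
        mul_one] at c f ⊢
      rw [f, c]
    show _ = _
    rw [e, mul_add, add_mul, ← mul_assoc, (c x y w).eq, m3]; simp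
  refine triv_of_comm κ (fun x y => ?_) x
  have := top_of_comm (N := (centralizer {κ.toHomUnits x}).comap κ.toHomUnits) (fun a b => by
    rw [mem_comap, mem_centralizer_singleton_iff]; exact Units.ext (d a b x).eq.symm) y
  rw [mem_comap, mem_centralizer_singleton_iff] at this
  exact (congrArg Units.val this).symm

theorem star1 (hK : QS K) (f : K →* S) {a b : A} (hf : ∀ x, Commute (f x) (ι a))
    (hb : ι b * (ι a - 1) = ι a - 1) {x y : K} (e : ι b * f x = f y * ι b)
    (hx : y⁻¹ * x ∉ center K) (w : K) : f w * (ι a - 1) = ι a - 1 := by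
  have hm : ∀ x, Commute (f x) (ι a - 1) := fun x => (hf x).sub_right (Commute.one_right _)
  refine hK.fix f hm hx ?_ w
  have : f x * (ι a - 1) = f y * (ι a - 1) := by
    nth_rw 2 [← hb]
    rw [← mul_assoc (f y), ← e, mul_assoc, (hm x).eq, ← mul_assoc, hb]
  rw [map_mul, mul_assoc, this, ← mul_assoc, ← map_mul]; simp

theorem fix_of_same [Group.IsPerfect K] (f : K →* S) {m : S} (g : K → S)
    (hm : ∀ x, Commute (f x) m) (hg : ∀ x y, Commute (f x) (g y)) (h : ∀ x, f x * m = g x * m)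
    (x : K) : f x * m = m :=
  fix_of_swap f hm (fun x y => by
    rw [mul_assoc, h y, ← mul_assoc, (hg x y).eq, mul_assoc, (hm x).eq, ← mul_assoc, ← h y,
      mul_assoc, mul_assoc, (hm x).eq]) x

theorem final [Group.IsPerfect K] {a : A} (ha : Cm κ ι a) (D : K → S)
    (h1 : ∀ x, D x * (ι a - 1) = ι a - 1) (h2 : ∀ x u, D x * (κ u - 1) = κ x * (κ u - 1))
    (h3 : ∀ x u, D x * (kc κ ι a u - 1) = kc κ ι a x * (kc κ ι a u - 1))
    (h4 : ∀ x u, κ x * (kc κ ι a u - 1) = kc κ ι a u - 1) (x : K) : κ x = 1 := by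
  have a1 : ∀ u y x, κ y • (κ x • (κ u - 1) - (κ u - 1)) = κ x • (κ u - 1) - (κ u - 1) :=
    fun u y x => by
    have e : ι a * (κ u - 1) = (kc κ ι a u - 1) * ι a := by rw [mul_sub, sub_mul, i_k]; simp
    have b : κ x * (κ u - 1) - (κ u - 1) = (kc κ ι a x - 1) * (kc κ ι a u - 1) * ι a := by
      linear_combination (norm := noncomm_ring) -(h1 x * (κ u - 1)) + D x * e - e - h2 x u +
        h3 x u * ι a
    simp only [smul_eq_mul]
    rw [b, ← mul_assoc, ← mul_assoc, ← ((ha x y).sub_left (Commute.one_left _)).eq,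
      mul_assoc _ (κ y), h4]
  have := fix_of_quad κ (m := (1 : S)) (fun x y => by simpa using fix_of_quad κ (a1 y) x) x
  simpa using this

/-- the diagonal for an involution -/
def dg (κ : K →* S) (ι : A →* S) {a : A} (ha : Cm κ ι a) : K →* S :=
  κ.noncommCoprod (kc κ ι a) (fun x y => (ha y x).symm) |>.comp ((MonoidHom.id K).prod (.id K))

theorem dg_def {a : A} (ha : Cm κ ι a) (x : K) : dg κ ι ha x = κ x * kc κ ι a x := rfl

theorem dg_comm {a : A} (ha : Cm κ ι a) (h2 : a * a = 1) (x : K) : Commute (dg κ ι ha x) (ι a) := by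
  show _ = _
  rw [dg_def, ← mul_assoc, i_k, mul_assoc _ (ι a), i_kc, h2, kc_one, ← mul_assoc, (ha x x).eq]

theorem star2 [Group.IsPerfect K] {a b : A} (h2 : ∀ a : A, a * a = 1) (ha : Cm κ ι a)
    (hb : Cm κ ι b) (hab : Cm κ ι (a * b)) (h : ι b * (ι a - 1) = ι a - 1) (x : K) :
    dg κ ι ha x * (ι a - 1) = ι a - 1 := by
  have hm : ∀ x, Commute (dg κ ι ha x) (ι a - 1) := fun x =>
    (dg_comm ha (h2 a) x).sub_right (Commute.one_right _)
  have iv : ∀ a : A, a⁻¹ = a := fun a => inv_eq_of_mul_eq_one_right (h2 a)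
  refine fix_of_same _ (fun x => kc κ ι b x * kc κ ι (a * b) x) hm (fun x y => ?_) (fun x => ?_) x
  · rw [dg_def]
    have e1 : Cm κ ι (a⁻¹ * b) := by rwa [iv]
    have e2 : Cm κ ι (a⁻¹ * (a * b)) := by simpa using hb
    exact (((hb y x).mul_left (hab y x)).mul_right ((e1.conj y x).mul_left (e2.conj y x))).symm
  · nth_rw 2 [← h]
    rw [← mul_assoc _ (ι b), mul_assoc (kc κ ι b x), mul_comm a b, ← i_kc, ← mul_assoc, ← i_k,
      mul_assoc (ι b), ← dg_def ha, mul_assoc, (hm x).eq, ← mul_assoc, h]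

theorem three [Group.IsPerfect K] {a b : A} (h2 : ∀ a : A, a * a = 1) (ha : Cm κ ι a)
    (hb : Cm κ ι b) (hab : Cm κ ι (a * b)) (h : ∀ x, dg κ ι ha x * (ι a - 1) = ι a - 1)
    (h' : ∀ x, dg κ ι hb x * (ι b - 1) = ι b - 1) (x : K) : κ x = 1 := by
  have iv : ∀ a : A, a⁻¹ = a := fun a => inv_eq_of_mul_eq_one_right (h2 a)
  have e1 : Cm κ ι (b⁻¹ * a) := by rwa [iv, mul_comm]
  have e2 : Cm κ ι (a⁻¹ * (b * a)) := by simpa [mul_comm b] using hb
  have c : ∀ w x, Commute (kc κ ι a w) (dg κ ι hb x - 1) := fun w x =>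
    ((ha w x).mul_right (e1.conj w x)).sub_right (Commute.one_right _)
  have a1 : ∀ x w, kc κ ι a w * (dg κ ι hb x - 1) = dg κ ι hb x - 1 := fun x =>
    fix_of_same _ (kc κ ι (b * a)) (c · x) (fun x y => (e2.conj y x).symm) fun w => by
      have : ι b * (dg κ ι hb x - 1) = dg κ ι hb x - 1 := by
        linear_combination (norm := noncomm_ring) h' x - (dg_comm hb (h2 b) x).eq
      nth_rw 2 [← this]
      rw [← mul_assoc, ← i_kc, mul_assoc, (c w x).eq, ← mul_assoc, this]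
  have a2 : ∀ w x, κ x * (kc κ ι a w - 1) = kc κ ι a w - 1 := fun w =>
    fix_of_same _ (fun x => kc κ ι b x⁻¹) (fun x => (ha w x).symm.sub_right (Commute.one_right _))
      (fun x y => (hb _ x).symm) fun x => by
      have : dg κ ι hb x * (kc κ ι a w - 1) = kc κ ι a w - 1 := by
        linear_combination (norm := noncomm_ring) a1 x w - (c w x).eq
      nth_rw 2 [← this]
      rw [dg_def, ← (hb x x).eq, ← mul_assoc, ← mul_assoc, ← map_mul]; simp
  refine final ha (dg κ ι ha) h (fun x u => ?_) (fun x u => ?_) (fun x u => a2 u x) x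
  · rw [dg_def, mul_assoc]; congr 1
    linear_combination (norm := noncomm_ring) a2 x u + (ha x u).eq
  · rw [dg_def, ← (ha x x).eq, mul_assoc, a2]

theorem odd_main [Finite A] (hK : QS K) {a b : A} (ha : ∀ c ∈ zpowers a, c ≠ 1 → Cm κ ι c)
    (a1 : a ≠ 1) (ho : Odd (orderOf a)) (hb : ∀ c, ι b * (ι c - 1) = ι c - 1) {x y : K}
    (e : ι b * κ x = κ y * ι b) (hx : y⁻¹ * x ∉ center K) (w : K) : κ w = 1 := by
  classical
  have hp := hK.perf
  let I := zpowers a
  have := Fintype.ofFinite I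
  have hc : ∀ i j : I, i ≠ j → ∀ x y, Commute (kc κ ι i x) (kc κ ι j y) := fun i j h =>
    (ha _ (mul_mem (inv_mem j.2) i.2) fun k => h (Subtype.ext (inv_mul_eq_one.1 k).symm)).conj
  let D : K →* S := (MonoidHom.noncommPiCoprod (fun i : I => kc κ ι i) hc).comp
    (Pi.constMonoidHom I K)
  have pw : ∀ x, ((Finset.univ : Finset I) : Set I).Pairwise
      (Function.onFun Commute fun i : I => kc κ ι i x) := fun x _ _ _ _ h => hc _ _ h _ _
  have D_def : ∀ x, D x = Finset.univ.noncommProd (fun i : I => kc κ ι i x) (pw x) :=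
    fun _ => rfl
  have cD : ∀ (c : A) (σ : I ≃ I) x y, (∀ i : I, cjS ι c (kc κ ι i x) = kc κ ι (σ i) y) →
      ι c * D x = D y * ι c := fun c σ x y h => by
    have : cjS ι c (D x) = D y := by
      rw [D_def, D_def, Finset.map_noncommProd]
      simp only [h, Finset.noncommProd]
      congr 1
      conv_rhs => rw [← Finset.map_univ_equiv σ, Finset.map_val, Multiset.map_map]
      rfl
    rw [← this]
    show _ = ι c * _ * ι c⁻¹ * _
    rw [mul_assoc, inv_i, mul_one]
  have dec : ∀ (i : I) x, ∃ Q, D x = kc κ ι i x * Q ∧ (∀ w, Commute (kc κ ι i w) Q) ∧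
      ∀ m, (∀ j : I, j ≠ i → kc κ ι j x * m = m) → Q * m = m := fun i x =>
    ⟨_, (Finset.mul_noncommProd_erase _ (Finset.mem_univ i) (fun i : I => kc κ ι i x) (pw x)).symm,
      fun w => Finset.noncommProd_commute _ _ _ _ fun j hj =>
        hc _ _ (Finset.ne_of_mem_erase hj).symm _ _,
      fun m hm => Finset.noncommProd_induction _ _ _ (fun q => q * m = m)
        (fun a b ha hb => by rw [mul_assoc, hb, ha]) (one_mul m)
        fun j hj => hm j (Finset.ne_of_mem_erase hj)⟩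
  have cI : ∀ c : I, ∀ x, Commute (D x) (ι c) := fun c x =>
    (cD c (Equiv.mulLeft c) x x fun i => cj_kc _ _ _).symm
  have st : ∀ c : I, ∀ x, D x * (ι c - 1) = ι c - 1 := fun c =>
    star1 hK D (cI c) (hb c) (cD b (Equiv.refl _) x y fun i => by
      rw [cj_kc, mul_comm, ← cj_kc, kc_def b, e, mul_assoc, i_inv, mul_one]; rfl) hx
  set x₀ := y⁻¹ * x
  have step : ∀ j : I, j ≠ 1 → ∀ u w, κ u * (kc κ ι j w - 1) = kc κ ι j w - 1 := fun j hj u w => by
    obtain ⟨c, rfl⟩ : ∃ c : I, c * c = j := by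
      obtain ⟨n, hn⟩ := ho
      refine ⟨j ^ (n + 1), ?_⟩
      rw [← pow_add, show n + 1 + (n + 1) = (2 * n + 1) + 1 by ring, pow_succ, ← hn,
        ← Nat.card_zpowers, pow_card_eq_one', one_mul]
    have c1 : c ≠ 1 := fun e => hj (by simp [e])
    have c2 : c * c ≠ c := by simpa using c1
    obtain ⟨Q, q1, q2, -⟩ := dec 1 x₀
    obtain ⟨Q', r1, r2, -⟩ := dec c x₀
    obtain ⟨Q'', s1, s2, -⟩ := dec (c * c) x₀
    have k1 : ∀ u, kc κ ι (1 : I) u = κ u := fun u => kc_one u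
    have d1 : Commute (κ x₀) (D x₀) := by
      rw [q1, k1]; exact (Commute.refl _).mul_right (k1 _ ▸ q2 _)
    have d2 : Commute (kc κ ι c x₀) (D x₀) := by rw [r1]; exact (Commute.refl _).mul_right (r2 _)
    have b1 : ι c * (D x₀ - 1) = D x₀ - 1 := by
      linear_combination (norm := noncomm_ring) st c x₀ - (cI c x₀).eq
    have b2 : kc κ ι c x₀ * (D x₀ - 1) = κ x₀ * (D x₀ - 1) := by
      have := (d1.sub_right (Commute.one_right _)).eq
      nth_rw 1 [← b1]
      rw [← mul_assoc, ← i_k, mul_assoc, this, ← mul_assoc, b1]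
    have b3 : D x₀ * (kc κ ι c x₀ - κ x₀) = kc κ ι c x₀ - κ x₀ := by
      linear_combination (norm := noncomm_ring) b2 - d2.eq + d1.eq
    have g1 : ∀ w u, Commute (kc κ ι (c * c : I) w) (κ u) := fun w u => k1 u ▸ hc _ _ hj w u
    have g2 : ∀ w, Commute (kc κ ι (c * c : I) w) (kc κ ι c x₀ - κ x₀) := fun w =>
      (hc _ _ c2 _ _).sub_right (g1 _ _)
    have b4 := hK.fix2 (kc κ ι (c * c : I)) g2 s2 (x := x₀⁻¹) (by rwa [inv_mem_iff]) (by
      nth_rw 1 [← b3]
      rw [s1, ← mul_assoc, ← mul_assoc, ← map_mul]; simp) w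
    refine hK.fix2 κ (g := kc κ ι c x₀) (fun u => (g1 w u).symm.sub_right (Commute.one_right _))
      (fun u => k1 u ▸ hc _ _ c1.symm _ _) hx ?_ u
    linear_combination (norm := noncomm_ring) (g2 w).eq - b4
  have aI : (⟨a, mem_zpowers a⟩ : I) ≠ 1 := fun e => a1 (congrArg Subtype.val e)
  have step' : ∀ j : I, j ≠ 1 → ∀ u w, kc κ ι j w * (κ u - 1) = κ u - 1 := fun j hj u w => by
    have := hc _ _ hj w u
    rw [show kc κ ι (1 : I) u = κ u from kc_one u] at this
    linear_combination (norm := noncomm_ring) step j hj u w + this.eq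
  refine final (ha a (mem_zpowers a) a1) D (st ⟨a, mem_zpowers a⟩) (fun x u => ?_) (fun x u => ?_)
    (step _ aI) w
  · obtain ⟨Q, q1, -, q3⟩ := dec 1 x
    rw [q1, mul_assoc, q3 _ fun j hj => step' j hj u x]; congr 1; exact kc_one x
  · obtain ⟨Q, q1, -, q3⟩ := dec ⟨a, mem_zpowers a⟩ x
    rw [q1, mul_assoc, q3 _ fun j hj => ?_]
    have := congrArg (cjS ι a) (step' ((⟨a, mem_zpowers a⟩ : I)⁻¹ * j)
      (fun e => hj (inv_mul_eq_one.1 e).symm) u x)
    have e : ∀ f, cjS ι a (f - 1) = cjS ι a f - 1 := fun f => by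
      show ι a * _ * _ = ι a * _ * _ - 1
      rw [mul_sub, sub_mul, mul_one, i_inv]
    rw [map_mul, e, cj_kc] at this
    simpa using! this

end H28.PGV
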