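import Cfsg.Agent.H28.PGV3

/-! The `P(G,V)`-theorem: best offenders normalize components. -/

set_option autoImplicit false

namespace H28.PGV

open Subgroup
open scoped commutatorElement

variable {K A S V : Type*} [Group K] [CommGroup A] [Ring S] [AddCommGroup V]

@[to_additive addCard_sup_inf]
theorem card_sup_inf {G : Type*} [CommGroup G] (H L : Subgroup G) :
    Nat.card ↥(H ⊔ L) * Nat.card ↥(H ⊓ L) = Nat.card H * Nat.card L := by
  have a : ∀ {X Y : Subgroup G}, X ≤ Y → Nat.card X * X.relIndex Y = Nat.card Y := fun {X Y} h => by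
    rw [← Nat.card_congr (subgroupOfEquivOfLe h).toEquiv]; exact card_mul_index _
  rw [← a (le_sup_left : H ≤ H ⊔ L), ← a (inf_le_right : H ⊓ L ≤ L), relIndex_sup_left,
    inf_relIndex_right]; ring

section
variable [Module S V] (ι : A →* S)

/-- fixed points of a subgroup -/
abbrev fx (V : Type*) [AddCommGroup V] [Module S V] (B : Subgroup A) : AddSubgroup V :=
  fixV V (ι '' B)

theorem mem_fx {B : Subgroup A} {v : V} : v ∈ fx ι V B ↔ ∀ b ∈ B, ι b • v = v := by simp [fixV]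

def cent (Y : AddSubgroup V) : Subgroup A where
  carrier := {b | ∀ w ∈ Y, ι b • w = w}
  one_mem' := by simp
  mul_mem' ha hb w hw := by rw [map_mul, mul_smul, hb w hw, ha w hw]
  inv_mem' {a} ha w hw := by nth_rw 1 [← ha w hw]; rw [← mul_smul, inv_i, one_smul]

theorem le_cent {B : Subgroup A} {Y : AddSubgroup V} : B ≤ cent ι Y ↔ Y ≤ fx ι V B :=
  ⟨fun h w hw => (mem_fx ι).2 fun _ hb => h hb w hw, fun h b hb _ hw => (mem_fx ι).1 (h hw) b hb⟩

theorem timm [Finite A] [Finite V] {p : ℕ} (hn : ∀ a, (ι a - 1) ^ p = 0)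
    (best : ∀ B : Subgroup A, Nat.card B * Nat.card (fx ι V B) ≤ Nat.card A * Nat.card (fx ι V ⊤))
    (hA : ∃ a, ∃ v : V, ι a • v ≠ v) : ∃ B : Subgroup A,
      (∀ b ∈ B, ∀ a, ∀ v : V, ι b • (ι a • v - v) = ι a • v - v) ∧ cent ι (⊤ : AddSubgroup V) ≤ B ∧
      Nat.card A * Nat.card (fx ι V ⊤) ≤ Nat.card B * Nat.card (fx ι V B) ∧
      ∃ b ∈ B, ∃ v : V, ι b • v ≠ v := by
  have := Fintype.ofFinite V
  set C := fx ι V ⊤ with hC
  have mC : ∀ {w : V}, w ∈ C → ∀ a, ι a • w = w := fun h a => (mem_fx ι).1 h a trivial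
  have sub : ∀ Y, Y ⊔ C ≤ fx ι V (cent ι Y) := fun Y =>
    sup_le ((le_cent ι).1 le_rfl) fun w hw => (mem_fx ι).2 fun b _ => mC hw b
  let Yv : V → AddSubgroup V := fun v => AddSubgroup.closure (Set.range fun a => ι a • v - v)
  have good : Nat.card A * Nat.card C ≤
      Nat.card (cent ι (Finset.univ.sup Yv)) * Nat.card ↥(Finset.univ.sup Yv ⊔ C) := by
    refine Finset.sup_induction (p := fun Y => Nat.card A * Nat.card C ≤
      Nat.card (cent ι Y) * Nat.card ↥(Y ⊔ C)) ?_ (fun Y h Z h' => ?_) fun v _ => ?_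
    · have : cent ι (⊥ : AddSubgroup V) = ⊤ := eq_top_iff.2 ((le_cent ι).2 bot_le)
      rw [this, bot_sup_eq, card_top]
    · have e : cent ι (Y ⊔ Z) = cent ι Y ⊓ cent ι Z := eq_of_forall_le_iff fun B => by
        simp [le_cent]
      have a := card_sup_inf (cent ι Y) (cent ι Z)
      have b := addCard_sup_inf (Y ⊔ C) (Z ⊔ C)
      have c := best (cent ι Y ⊔ cent ι Z)
      have d : Nat.card ↥((Y ⊔ C) ⊓ (Z ⊔ C)) ≤ Nat.card (fx ι V (cent ι Y ⊔ cent ι Z)) :=
        AddSubgroup.card_le_of_le ((le_cent ι).1 (sup_le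
          ((le_cent ι).2 (inf_le_left.trans (sub Y))) ((le_cent ι).2 (inf_le_right.trans (sub Z)))))
      rw [← sup_sup_distrib_right] at b
      rw [e]
      refine Nat.le_of_mul_le_mul_right ?_ (Nat.mul_pos (Nat.card_pos (α := A))
        (Nat.card_pos (α := C)))
      calc _ ≤ _ := Nat.mul_le_mul h h'
        _ = Nat.card ↥(cent ι Y ⊓ cent ι Z) * Nat.card ↥(Y ⊔ Z ⊔ C) *
          (Nat.card ↥(cent ι Y ⊔ cent ι Z) * Nat.card ↥((Y ⊔ C) ⊓ (Z ⊔ C))) := by
            rw [mul_mul_mul_comm, ← a, ← b]; ring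
        _ ≤ _ := Nat.mul_le_mul_left _ ((Nat.mul_le_mul_left _ d).trans c)
    · have mem : ∀ a, ι a • v - v ∈ Yv v ⊔ C := fun a =>
        AddSubgroup.mem_sup_left (AddSubgroup.subset_closure ⟨a, rfl⟩)
      have : (cent ι (Yv v)).index ≤ C.relIndex (Yv v ⊔ C) := by
        refine Nat.card_le_card_of_injective (fun x : A ⧸ cent ι (Yv v) =>
          (QuotientAddGroup.mk ⟨_, mem x.out⟩ : _ ⧸ C.addSubgroupOf (Yv v ⊔ C))) fun x y e => ?_
        rw [← x.out_eq', ← y.out_eq', QuotientGroup.eq]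
        have e := QuotientAddGroup.eq.1 e
        replace e : -(ι x.out • v - v) + (ι y.out • v - v) ∈ C := e
        refine (le_cent ι).2 ((AddSubgroup.closure_le _).2 ?_) (mem_zpowers _)
        rintro _ ⟨a, rfl⟩
        refine (le_cent ι).1 (zpowers_le.2 ?_) (AddSubgroup.mem_zmultiples _)
        refine (le_cent ι).2 (AddSubgroup.zmultiples_le.2 ((mem_fx ι).2 fun b hb => ?_))
          (mem_zpowers _)
        refine (show zpowers (x.out⁻¹ * y.out) ≤ fixS ι (ι a • v - v) from zpowers_le.2 ?_) hb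
        show ι _ • _ = _
        have e1 := mC e x.out⁻¹
        have e2 := mC e (x.out⁻¹ * a)
        simp only [smul_add, smul_neg, smul_sub, ← mul_smul, ← map_mul] at e1 e2 ⊢
        rw [inv_mul_cancel, map_one, one_smul] at e1
        rw [mul_right_comm, inv_mul_cancel, one_mul, mul_right_comm] at e2
        linear_combination (norm := abel) e2 - e1
      rw [← (cent ι (Yv v)).card_mul_index, ← (C.addSubgroupOf (Yv v ⊔ C)).card_mul_index,
        Nat.card_congr (AddSubgroup.addSubgroupOfEquivOfLe (le_sup_right : C ≤ Yv v ⊔ C)).toEquiv,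
        mul_assoc, mul_comm (index _)]
      exact Nat.mul_le_mul_left _ (Nat.mul_le_mul_left _ this)
  set Y := Finset.univ.sup Yv
  have mY : ∀ a v, ι a • v - v ∈ Y := fun a v =>
    Finset.le_sup (f := Yv) (Finset.mem_univ v) (AddSubgroup.subset_closure ⟨a, rfl⟩)
  refine ⟨cent ι Y, fun b hb a v => hb _ (mY a v), fun b hb w _ => hb w trivial,
    good.trans (Nat.mul_le_mul_left _ (AddSubgroup.card_le_of_le (sub Y))), ?_⟩
  by_contra k
  push Not at k
  have e : Y ⊔ C = ⊤ := by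
    have a : fx ι V (cent ι Y) = ⊤ := eq_top_iff.2 fun w _ => (mem_fx ι).2 fun b hb => k b hb w
    have := (best (cent ι Y)).trans good
    rw [a] at this
    exact AddSubgroup.eq_of_le_of_card_ge le_top (Nat.le_of_mul_le_mul_left this Nat.card_pos)
  let kr : S → AddSubgroup V := fun f => (DistribSMul.toAddMonoidHom V f).ker
  obtain ⟨a₀, v₀, h₀⟩ := hA
  obtain ⟨f, ⟨f1, f2, f3⟩, hf⟩ := Set.Finite.exists_maximalFor' kr
    {f | (∀ a, Commute (ι a) f) ∧ C ≤ kr f ∧ kr f ≠ ⊤} (Set.toFinite _ : (kr '' _).Finite)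
    ⟨ι a₀ - 1, fun a => (ii a a₀).sub_right (Commute.one_right _),
      fun w hw => show (ι a₀ - 1) • w = 0 by rw [sub_smul, mC hw, one_smul, sub_self],
      fun e => h₀ (by
        have : (ι a₀ - 1) • v₀ = 0 := (e ▸ AddSubgroup.mem_top v₀ : v₀ ∈ kr (ι a₀ - 1))
        rwa [sub_smul, one_smul, sub_eq_zero] at this)⟩
  refine f3 (eq_top_iff.2 (e ▸ sup_le (Finset.sup_le fun v _ => (AddSubgroup.closure_le _).2 ?_) f2))
  rintro _ ⟨a, rfl⟩
  have le : kr f ≤ kr ((ι a - 1) * f) := fun w hw => by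
    show ((ι a - 1) * f) • w = 0
    rw [mul_smul, show f • w = 0 from hw, smul_zero]
  have cf : Commute (ι a - 1) f := (f1 a).sub_left (Commute.one_left _)
  by_cases t : kr ((ι a - 1) * f) = ⊤
  · have : ((ι a - 1) * f) • v = 0 := (t ▸ AddSubgroup.mem_top v : v ∈ kr _)
    show f • (ι a • v - v) = 0
    rwa [cf.eq, mul_smul, sub_smul, one_smul] at this
  have := hf ⟨fun b => ((ii b a).sub_right (Commute.one_right _)).mul_right (f1 b),
    f2.trans le, t⟩ le
  have key : ∀ n, ∀ w : V, f • (ι a - 1) ^ n • w = 0 → f • w = 0 := fun n => by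
    induction n with
    | zero => simp
    | succ n ih =>
      intro w hw
      have e : (ι a - 1) ^ n • w ∈ kr ((ι a - 1) * f) := by
        show ((ι a - 1) * f) • (ι a - 1) ^ n • w = 0
        rwa [cf.eq, mul_smul, ← mul_smul (ι a - 1), ← pow_succ']
      exact ih w (this e)
  exact absurd (eq_top_iff.2 fun w _ => key p w (by simp [hn])) f3

end

theorem min_case [Finite A] [Finite V] (hK : QS K) {p : ℕ} (hp : p.Prime)
    {κ : K →* Module.End ℤ V} {ι : A →* Module.End ℤ V} (hA : ∀ a : A, a ^ p = 1)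
    (hV : (p : Module.End ℤ V) = 0) (hd : ∀ a, a ∈ Nm κ ι ∨ Cm κ ι a) {a₀ : A} (h₀ : Cm κ ι a₀)
    (best : ∀ B : Subgroup A, Nat.card B * Nat.card (fx ι V B) ≤ Nat.card A * Nat.card (fx ι V ⊤))
    (mn : ∀ W : AddSubgroup V, (∀ x, ∀ v ∈ W, κ x v ∈ W) → (∀ a, ∀ v ∈ W, ι a v ∈ W) →
      W = ⊤ ∨ ∀ x, ∀ v ∈ W, κ x v = v) (x : K) : κ x = 1 := by
  by_contra hx
  have hκ : ∃ x, κ x ≠ 1 := ⟨x, hx⟩
  have pf := hK.perf
  have : Nontrivial (Module.End ℤ V) := ⟨_, _, hx⟩
  have := Fact.mk hp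
  have : CharP (Module.End ℤ V) p := (CharP.charP_iff_prime_eq_zero hp).2 hV
  have hn : ∀ a, (ι a - 1) ^ p = 0 := fun a => by
    rw [sub_pow_char_of_commute p (Commute.one_right _), ← map_pow, hA]; simp
  have M1 : ∀ c, (∀ x, Commute (ι c) (κ x)) → ι c = 1 := fun c hc => by
    have c1 : ∀ x, Commute (κ x) (ι c - 1) := fun x => (hc x).symm.sub_right (Commute.one_right _)
    have c2 : ∀ a, Commute (ι a) (ι c - 1) := fun a => (ii a c).sub_right (Commute.one_right _)
    rcases mn (LinearMap.range (ι c - 1)).toAddSubgroup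
      (by rintro x _ ⟨v, rfl⟩; exact ⟨κ x v, (LinearMap.congr_fun (c1 x).eq v).symm⟩)
      (by rintro x _ ⟨v, rfl⟩; exact ⟨ι x v, (LinearMap.congr_fun (c2 x).eq v).symm⟩) with e | e
    · have : Function.Surjective (ι c - 1 :) := fun v => (e ▸ AddSubgroup.mem_top v : v ∈ _)
      have := Module.End.iterate_surjective this p
      rw [hn] at this
      refine absurd (LinearMap.ext fun v => ?_) hx
      obtain ⟨w, rfl⟩ := this v
      simp
    rcases mn (LinearMap.ker (ι c - 1)).toAddSubgroup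
      (fun x v hv => LinearMap.mem_ker.2 <| (LinearMap.congr_fun (c1 x).eq v).symm.trans (by
        rw [Module.End.mul_apply, show (ι c - 1) v = 0 from hv, map_zero]))
      (fun x v hv => LinearMap.mem_ker.2 <| (LinearMap.congr_fun (c2 x).eq v).symm.trans (by
        rw [Module.End.mul_apply, show (ι c - 1) v = 0 from hv, map_zero])) with e' | e'
    · exact sub_eq_zero.1 (LinearMap.ext fun v => (e' ▸ AddSubgroup.mem_top v : v ∈ _))
    refine absurd (LinearMap.ext fun v => fix_of_quad κ (fun x y => e' x _ ?_) x) hx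
    show (ι c - 1) (κ y v - v) = 0
    rw [map_sub, ← Module.End.mul_apply, ← (c1 y).eq, Module.End.mul_apply, e y _ ⟨v, rfl⟩,
      sub_self]
  have mv : ∀ c ∈ Nm κ ι, ι c ≠ 1 → ∃ x y, ι c * κ x = κ y * ι c ∧ y⁻¹ * x ∉ center K :=
    fun c hc h => hK.exists_move κ (i_inv c) (inv_i c) hc fun k => h (M1 c k)
  have n₀ := not_Nm hκ h₀
  have cm : ∀ {a}, a ∉ Nm κ ι → Cm κ ι a := fun h => (hd _).resolve_left h
  have kN : ι.ker ≤ Nm κ ι := fun c hc x => ⟨x, by rw [show ι c = 1 from hc]; simp⟩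
  obtain ⟨B, hB, b1, b2, b, hb, v, hv⟩ := timm ι hn best (by
    by_contra k
    push Not at k
    exact n₀ (kN (LinearMap.ext (k a₀))))
  have hB : ∀ b ∈ B, ∀ a, ι b * (ι a - 1) = ι a - 1 := fun b hb a => LinearMap.ext (hB b hb a)
  have b0 : ι b ≠ 1 := fun e => hv (by rw [e]; rfl)
  have pw : ∀ {a c : A}, c ∈ zpowers a → c ≠ 1 → c ∈ Nm κ ι → a ∈ Nm κ ι := fun {a c} h h1 h2 => by
    have a1 : a ≠ 1 := by rintro rfl; exact h1 (by simpa using h)
    have : zpowers c = zpowers a := eq_of_le_of_card_ge (zpowers_le.2 h) (by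
      rw [Nat.card_zpowers, Nat.card_zpowers, orderOf_eq_prime (hA a) a1,
        orderOf_eq_prime (hA c) h1])
    exact zpowers_le.2 h2 (this ▸ mem_zpowers a)
  rcases hp.eq_two_or_odd' with rfl | ho
  swap
  · have bN : b ∈ Nm κ ι := by
      by_contra k
      refine hx (odd_quad (hB b hb b) (cm k) (cm fun k' => k (pw (mul_mem (mem_zpowers b)
        (mem_zpowers b)) (fun e => ?_) k')) x)
      obtain ⟨n, rfl⟩ := ho
      have := hA b
      rw [pow_succ, pow_mul, sq, e, one_pow, one_mul] at this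
      exact k (this ▸ one_mem _)
    obtain ⟨y, w, e, hw⟩ := mv b bN b0
    have a1 : a₀ ≠ 1 := fun e => n₀ (e ▸ one_mem _)
    exact hx (odd_main hK (fun c hc c1 => cm fun k => n₀ (pw hc c1 k)) a1
      (by rwa [orderOf_eq_prime (hA a₀) a1]) (hB b hb) e hw x)
  have h2 : ∀ a : A, a * a = 1 := fun a => by rw [← sq, hA]
  have iv : ∀ a : A, a⁻¹ = a := fun a => inv_eq_of_mul_eq_one_right (h2 a)
  have kB : ι.ker ≤ B := fun c hc => b1 fun w _ => by rw [show ι c = 1 from hc]; rfl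
  have ineq : (fx ι V B).index ≤ ι.ker.relIndex B := by
    have a := (best ι.ker).trans b2
    have e : fx ι V ι.ker = ⊤ := eq_top_iff.2 fun w _ => (mem_fx ι).2 fun c hc => by
      rw [show ι c = 1 from hc]; rfl
    rw [e, AddSubgroup.card_top, ← (fx ι V B).index_mul_card, ← (ι.ker.subgroupOf B).card_mul_index,
      Nat.card_congr (subgroupOfEquivOfLe kB).toEquiv, mul_assoc] at a
    exact Nat.le_of_mul_le_mul_right (Nat.le_of_mul_le_mul_left a Nat.card_pos) Nat.card_pos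
  have bd : ∀ {a} (ha : Cm κ ι a), (∀ x, dg κ ι ha x * (ι a - 1) = ι a - 1) →
      ∃ q, 2 < q ∧ q ≤ (fixV V {ι a}).index ∧ ι.ker.relIndex (B ⊓ Nm κ ι) ≤ q ∧
      (¬ B ⊓ Nm κ ι ≤ ι.ker → q ^ 2 ≤ (fx ι V B).index) := fun {a} ha h => by
    have d : Dat κ (ι a) (ι.comp (B ⊓ Nm κ ι).subtype) (ι.ker.subgroupOf (B ⊓ Nm κ ι)) :=
      { two := by simpa using hV
        aa := by rw [← map_mul, h2, map_one]
        cm := fun x y => by have := ha x y; rwa [kc_def, iv] at this
        dg := fun x => by have := h x; rwa [dg_def, kc_def, iv] at this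
        nm := fun c => c.2.2
        q1 := fun c => hB c c.2.1 a
        q2 := fun c => by
          show ι a * (ι c - 1) = ι c - 1
          linear_combination (norm := noncomm_ring) hB c c.2.1 a + (ii (ι := ι) a c).eq
        q3 := fun c c' => hB c c.2.1 c'
        ff := fun c hc => mv c c.2.2 hc }
    obtain ⟨q, q1, q2, q3, q4⟩ := d.bound hK V (by
      by_contra k
      push Not at k
      exact hx (LinearMap.ext (k x)))
    refine ⟨q, q1, q2, q3, fun k => (q4 (by rwa [Ne, subgroupOf_eq_top])).trans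
      (AddSubgroup.index_antitone ?_)⟩
    rintro w hw _ ⟨c, rfl⟩
    exact (mem_fx ι).1 hw c c.2.1
  by_cases hBN : B ≤ Nm κ ι
  · obtain ⟨y, w, e, hw⟩ := mv b (hBN hb) b0
    obtain ⟨q, q1, -, q3, q4⟩ := bd h₀ (star1 hK _ (dg_comm h₀ (h2 _)) (hB b hb _) (x := y) (y := w)
      (by rw [dg_def, dg_def, ← mul_assoc, e, mul_assoc, i_kc, mul_comm b, ← cj_kc, kc_def b, e,
        mul_assoc (κ w), i_inv, mul_one, ← mul_assoc]; rfl) hw)
    rw [inf_eq_left.2 hBN] at q3 q4
    have := (q4 fun k => b0 (k hb)).trans (ineq.trans q3)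
    nlinarith
  obtain ⟨a, aB, aN⟩ := SetLike.not_le_iff_exists.1 hBN
  have fB : ∀ a ∈ B, (fixV V {ι a}).index ≤ (fx ι V B).index := fun a ha =>
    AddSubgroup.index_antitone fun w hw s hs => hs ▸ (mem_fx ι).1 hw a ha
  have st : ∀ a ∈ B, ∀ ha : Cm κ ι a, ∀ x, dg κ ι ha x * (ι a - 1) = ι a - 1 := fun a aB ha => by
    by_cases k1 : ∃ c ∈ B, c ∉ Nm κ ι ∧ a * c ∉ Nm κ ι
    · obtain ⟨c, c1, c2, c3⟩ := k1
      exact star2 h2 ha (cm c2) (cm c3) (hB c c1 a)
    by_cases k2 : ∃ c ∈ B, c ∈ Nm κ ι ∧ ι c ≠ 1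
    · obtain ⟨c, c1, c2, c3⟩ := k2
      obtain ⟨y, w, e, hw⟩ := mv c c2 c3
      exact star1 hK _ (dg_comm ha (h2 _)) (hB c c1 _) (x := y) (y := w)
        (by rw [dg_def, dg_def, ← mul_assoc, e, mul_assoc, i_kc, mul_comm c, ← cj_kc, kc_def c, e,
          mul_assoc (κ w), i_inv, mul_one, ← mul_assoc]; rfl) hw
    push Not at k1 k2
    have r2 : ι.ker.relIndex B = 2 := relIndex_eq_two_iff_exists_notMem_and'.2
      ⟨a, aB, fun k => not_Nm hκ ha (kN k), fun c hc => by
        by_cases k : c ∈ Nm κ ι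
        · exact Or.inr (k2 c hc k)
        · exact Or.inl (k2 _ (mul_mem aB hc) (k1 c hc k))⟩
    have r3 : Nat.card (ι a - 1).toAddMonoidHom.range ≤ 2 := by
      rw [← AddSubgroup.index_ker, ← r2]
      refine le_trans (le_of_eq ?_) ((fB a aB).trans ineq)
      congr 1; ext w; simp [fixV, sub_eq_zero]
    intro x
    ext v
    have cm := (dg_comm ha (h2 a) x).sub_right (Commute.one_right _)
    by_cases z : (ι a - 1) v = 0
    · rw [Module.End.mul_apply, z, map_zero]
    by_contra k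
    have z' : (dg κ ι ha x * (ι a - 1)) v ≠ 0 := fun e => z (by
      have := congrArg (dg κ ι ha x⁻¹) e
      rwa [← Module.End.mul_apply, ← mul_assoc, ← map_mul, inv_mul_cancel, map_one, one_mul,
        map_zero] at this)
    have : Fintype (ι a - 1).toAddMonoidHom.range := Fintype.ofFinite _
    have : 2 < Nat.card (ι a - 1).toAddMonoidHom.range := by
      rw [Nat.card_eq_fintype_card, Fintype.two_lt_card_iff]
      exact ⟨0, ⟨_, v, rfl⟩, ⟨_, dg κ ι ha x v, (LinearMap.congr_fun cm.eq v).symm⟩,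
        fun e => z (congrArg Subtype.val e).symm, fun e => z' (congrArg Subtype.val e).symm,
        fun e => k (congrArg Subtype.val e).symm⟩
    omega
  by_cases k1 : ∃ c ∈ B, c ∉ Nm κ ι ∧ a * c ∉ Nm κ ι
  · obtain ⟨c, c1, c2, c3⟩ := k1
    exact hx (three h2 (cm aN) (cm c2) (cm c3) (st a aB _) (st c c1 _) x)
  push Not at k1
  have r2 : (B ⊓ Nm κ ι).relIndex B = 2 := relIndex_eq_two_iff_exists_notMem_and'.2
    ⟨a, aB, fun k => aN k.2, fun c hc => by
      by_cases k : c ∈ Nm κ ι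
      · exact Or.inr ⟨hc, k⟩
      · exact Or.inl ⟨mul_mem aB hc, k1 c hc k⟩⟩
  obtain ⟨q, q1, q2, q3, q4⟩ := bd (cm aN) (st a aB _)
  rw [← relIndex_mul_relIndex _ (B ⊓ Nm κ ι) B (le_inf kB kN) inf_le_left, r2] at ineq
  by_cases k : B ⊓ Nm κ ι ≤ ι.ker
  · rw [relIndex_eq_one.2 k] at ineq
    have := q2.trans ((fB a aB).trans ineq)
    omega
  · have := (q4 k).trans ineq
    nlinarith

/-- the abstract `P(G,V)`-theorem -/
theorem pgv [Module S V] [Finite A] [Finite V] (hK : QS K) {p : ℕ} (hp : p.Prime)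
    {κ : K →* S} {ι : A →* S} (hA : ∀ a : A, a ^ p = 1) (hV : (p : S) = 0)
    (hd : ∀ a, a ∈ Nm κ ι ∨ Cm κ ι a) {a₀ : A} (h₀ : Cm κ ι a₀)
    (best : ∀ B : Subgroup A, Nat.card B * Nat.card (fx ι V B) ≤ Nat.card A * Nat.card (fx ι V ⊤))
    (x : K) (v : V) : κ x • v = v := by
  by_contra hx
  let T := Subring.closure (Set.range κ ∪ Set.range ι)
  let κ' : K →* T := κ.codRestrict T fun x => Subring.subset_closure (by simp)
  let ι' : A →* T := ι.codRestrict T fun x => Subring.subset_closure (by simp)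
  obtain ⟨W, ⟨y, w, hw, hy⟩, hW⟩ := Set.Finite.exists_minimal
    (s := {W : Submodule T V | ∃ x, ∃ v ∈ W, κ x • v ≠ v}) (Set.toFinite _) ⟨⊤, x, v, trivial, hx⟩
  let φ := Module.toModuleEnd ℤ W (S := T)
  let ψ : T →* Module.End ℤ W := φ
  have kk : ∀ a x, kc (ψ.comp κ') (ψ.comp ι') a x = ψ (kc κ' ι' a x) := fun a x => by
    simp [kc_def]
  have cm : ∀ {a}, Cm κ ι a → Cm (ψ.comp κ') (ψ.comp ι') a := fun h x y => by
    rw [kk]; exact Commute.map (show Commute (kc κ' ι' _ x) (κ' y) from Subtype.ext (h x y)) ψ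
  have := min_case hK hp (κ := ψ.comp κ') (ι := ψ.comp ι') hA
    (by rw [← map_natCast φ, show (p : T) = 0 from Subtype.ext (by simpa using hV), map_zero])
    (fun a => (hd a).imp (fun h x => (h x).imp fun y e => by
      simpa using congrArg ψ (Subtype.ext e : ι' a * κ' x = κ' y * ι' a)) cm) (cm h₀)
    (fun B => ?_) (fun U h1 h2 => ?_) y
  · exact hy (congrArg Subtype.val (LinearMap.congr_fun this ⟨w, hw⟩))
  · have e : ∀ B, Nat.card (fx (ψ.comp ι') W B) = Nat.card ↥(fx ι V B ⊓ W.toAddSubgroup) := fun B =>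
      Nat.card_congr
        { toFun := fun v => ⟨v.1.1, (mem_fx _).2 fun b hb =>
            congrArg Subtype.val ((mem_fx _).1 v.2 b hb), v.1.2⟩
          invFun := fun v => ⟨⟨v.1, v.2.2⟩, (mem_fx _).2 fun b hb =>
            Subtype.ext ((mem_fx _).1 v.2.1 b hb)⟩
          left_inv := fun _ => rfl
          right_inv := fun _ => rfl }
    have le : fx ι V ⊤ ≤ fx ι V B := fun w hw => (mem_fx _).2 fun b _ => (mem_fx _).1 hw b trivial
    have a := addCard_sup_inf (fx ι V B ⊓ W.toAddSubgroup) (fx ι V ⊤)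
    have b := AddSubgroup.card_le_of_le (sup_le inf_le_left le :
      fx ι V B ⊓ W.toAddSubgroup ⊔ fx ι V ⊤ ≤ _)
    rw [inf_right_comm, inf_eq_right.2 le] at a
    rw [e, e]
    refine Nat.le_of_mul_le_mul_right ?_ (Nat.card_pos (α := fx ι V ⊤))
    rw [mul_assoc, ← a, ← mul_assoc, mul_right_comm (Nat.card A)]
    exact Nat.mul_le_mul_right _ ((Nat.mul_le_mul_left _ b).trans (best B))
  · let T' : Subring S :=
      { carrier := {s | ∀ w ∈ U.map W.subtype.toAddMonoidHom,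
          s • w ∈ U.map W.subtype.toAddMonoidHom}
        mul_mem' := fun ha hb w hw => by rw [mul_smul]; exact ha _ (hb _ hw)
        one_mem' := fun w hw => by rwa [one_smul]
        add_mem' := fun ha hb w hw => by rw [add_smul]; exact add_mem (ha _ hw) (hb _ hw)
        zero_mem' := fun w _ => by rw [zero_smul]; exact zero_mem _
        neg_mem' := fun ha w hw => by rw [neg_smul]; exact neg_mem (ha _ hw) }
    have hT : T ≤ T' := Subring.closure_le.2 (by
      rintro _ (⟨x, rfl⟩ | ⟨x, rfl⟩) _ ⟨v, hv, rfl⟩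
      exacts [⟨_, h1 x v hv, rfl⟩, ⟨_, h2 x v hv, rfl⟩])
    let U' : Submodule T V :=
      { U.map W.subtype.toAddMonoidHom with smul_mem' := fun s w hw => hT s.2 w hw }
    have le : U' ≤ W := by rintro _ ⟨v, -, rfl⟩; exact v.2
    by_cases k : ∃ x, ∃ v ∈ U', κ x • v ≠ v
    · refine Or.inl (eq_top_iff.2 fun v _ => ?_)
      obtain ⟨v', a, b⟩ := hW k le v.2
      exact (Subtype.ext b : v' = v) ▸ a
    · push Not at k
      exact Or.inr fun x v hv => Subtype.ext (k x v ⟨v, hv, rfl⟩)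

end H28.PGV
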