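import Cfsg.Agent.H9.RL0
import Cfsg.Agent.H28.NG1b
import Cfsg.Agent.H28.ExtTr

/-! S3860, chunk A1: the configuration for `a = 1`. -/

set_option autoImplicit false
set_option linter.unusedSectionVars false

namespace H28.RL
open Cfsg Subgroup H18 H28.S H2.GW H9.RL
open H17.GS hiding St Cm le_Cm Cm_le_norm
open H19 hiding eq_bot_mono
open H28.NG hiding Hyp Uniq

universe u
variable {G : Type u} [Group G] [Finite G] {a b : ℕ} {g g' r u x z : G} {J L : Subgroup G}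

theorem pz (h : St G a b) : H19.PG 2 (center G) := pg_of_odd (T := ⊥) (fun x p o => h.oo ▸ le_Oc
  ⟨le_top, fun g _ => cent_le_norm _ (cent_zpowers x ▸ mem_cent1.2 (mem_center_iff.1 p g))⟩ (og_zp o)
    (mem_zpowers x)) PiN.bot

theorem nz (g : G) : g ∈ N(center G) := normalIn_top.norm (mem_top g)

theorem cz (hz : z ∈ center G) : C[z * r] = C[r] := by
  ext y
  rw [mem_cent1, mem_cent1, ← mul_assoc, mem_center_iff.1 hz y, mul_assoc, mul_assoc, mul_right_inj]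

theorem pie (h : St G a b) (k : r * r ∈ center G) : PiE {2} r := by
  obtain ⟨n, e⟩ := ((pz h).elt k).exists_pow (orderOf_pos _).ne'
  refine (PiN.prime_pow Nat.prime_two (n + 1)).dvd (orderOf_dvd_of_pow_eq_one ?_)
  rw [pow_succ', pow_mul, sq, ← e, pow_orderOf_eq_one]

theorem two (h : St G 1 b) (k : Rr r) (h1 : g * r * g⁻¹ * r⁻¹ ∈ center G) (h2 : g' * r * g'⁻¹ * r⁻¹ ∈ center G)
    (k1 : g ∉ C[r]) (k2 : g' ∉ C[r]) : g * g' ∈ C[r] := by
  have m {g} : g ∈ Cm (center G) (zpowers r) ↔ g * r * g⁻¹ * r⁻¹ ∈ center G :=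
    (mem_Cm1 (nz r)).trans (and_iff_right (nz g))
  have l : C[r] ≤ Cm (center G) (zpowers r) := fun g p => m.2 (by
    rw [mem_cent1_conj.1 p, mul_inv_cancel]; exact one_mem _)
  obtain ⟨T, t⟩ := exists_syl 2 (Cm (center G) (zpowers r))
  have n : Cm (center G) (zpowers r) ≤ N(C[r]) := fun g p => mem_norm_iff_cj.2 (by
    rw [cj_cent1, ← inv_mul_cancel_right (g * r * g⁻¹) r, cz (m.1 p)])
  have c1 := h.hy r k.re k.nc _ (t.inf_normal' ⟨l, n⟩)
  obtain ⟨S, s⟩ := exists_syl 2 (⊤ : Subgroup G)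
  have c2 := Nat.le_of_dvd (card_pos S) (s.card_dvd le_top t.pi)
  have c3 := card_le ((O2r_sup_syl t).ge.trans (sup_le_sup_right (O2r_le_iff.2 fun g p o => mem_of_sq o
    (mem_cent1_conj.2 (by
      have q := m.1 p
      have e : g * r * g⁻¹ = r * (g * r * g⁻¹ * r⁻¹) := by rw [mem_center_iff.1 q r]; group
      have e2 : g * r * g⁻¹ * (g * r * g⁻¹) = r * r := by
        rw [show g * r * g⁻¹ * (g * r * g⁻¹) = g * (r * r) * g⁻¹ by group, mem_center_iff.1 k.sq g]; group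
      rw [← conj_conj', e, show g * (r * (g * r * g⁻¹ * r⁻¹)) * g⁻¹ = g * r * (g * r * g⁻¹ * r⁻¹) * g⁻¹ by group,
        mul_assoc _ _ g⁻¹, ← mem_center_iff.1 q g⁻¹, ← mul_assoc, ← mul_assoc, ← mul_assoc, ← mul_assoc]
      rw [show g * r * g⁻¹ * g * r * g⁻¹ * r⁻¹ = g * r * g⁻¹ * (g * r * g⁻¹) * r⁻¹ by group, e2]; group)) : _ ≤ C[r]) T))
  have c4 := card_sup_mul_inf (t.le.trans n)
  obtain ⟨i, c5⟩ := card_dvd l
  have c6 := card_lt (lt_of_le_not_ge l fun j => k1 (j (m.2 h1)))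
  rw [h.sy S s, pow_add] at c2
  rw [c1] at c4
  have := card_pos C[r]
  have : 0 < 2 ^ b := by positivity
  have c7 : #(Cm (center G) (zpowers r)) ≤ #C[r] * 2 := Nat.le_of_mul_le_mul_right (by nlinarith) this
  exact hyp_mul (hyp_of_card l (by obtain _ | _ | _ | i := i <;> nlinarith)) (m.2 h1) (m.2 h2) k1 k2

theorem au (h : St G 1 b) (k : Rr r) (r1 : r * r ≠ 1) (h1 : g * r * g⁻¹ * r⁻¹ ∈ center G) :
    g * r * g⁻¹ = r ∨ g * r * g⁻¹ = r⁻¹ := by
  refine (em _).imp mem_cent1_conj.1 fun k1 => ?_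
  obtain ⟨t, e⟩ := k.re
  have e' : t⁻¹ * r * t⁻¹⁻¹ = r⁻¹ := by
    rw [← inv_inj, inv_inv r, show (t⁻¹ * r * t⁻¹⁻¹)⁻¹ = t⁻¹ * r⁻¹ * t by group, ← e]; group
  have := mem_cent1_conj.1 (two h k (g := t⁻¹) (by rw [e', ← mul_inv_rev]; exact inv_mem k.sq) h1 (fun j => r1 (by
    rw [mem_cent1_conj.1 j] at e'; nth_rewrite 1 [e']; exact inv_mul_cancel r)) k1)
  rw [← e]; nth_rewrite 2 [← this]; group

theorem perf (h : ⁅J, J⁆ = J) : J ≤ pResidual 2 G := by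
  obtain ⟨S, s⟩ := exists_syl 2 (⊤ : Subgroup G)
  have n : ⊤ ≤ N(O2r (⊤ : Subgroup G)) := norms_O2r le_normalizer
  rw [← H28.pResidualOf_top]
  refine (quo_eq_bot_iff (le_top.trans n)).1 (sol_eq_bot_of_le_der (PiN.sol (p := 2) ((s.pi.quo _).of_le ?_)) ?_)
  · rw [← quo_sup_left (H := S) (le_top.trans n), O2r_sup_syl s]; exact quo_mono _ le_top
  · rw [← quo_comm (le_top.trans n) (le_top.trans n), h]

theorem core (lb : LB.{u}) (r2 : R2.{u}) (f1 : F1.{u}) (h : Cf 1 b L) (uL : u ∈ L) (k : Rr u) (uC : u ∉ C(L)) :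
    ∃ Q x v, x ∈ L ∧ v ∈ L ∧ Ox x u ∧ Syl 2 Q C[x] ∧ u ∈ N(Q) ∧ u * u ∈ Q ∧ Syl 2 (Q ⊔ zpowers u) ⊤ ∧ v ∈ Q ∧
      Q ≤ C[v] ∧ v * v = u * u ∧ Rr v ∧ u * v * u⁻¹ * v⁻¹ ∈ center G ∧ u ∉ C[v] := by
  have zc (X : Subgroup G) : center G ≤ C(X) := fun z p => mem_cent.2 fun y _ => mem_center_iff.1 p y
  obtain ⟨x, xL, o⟩ := lb h.qs h.pz uL uC (zc L k.sq)
  have xx (e : x⁻¹ = x) : False := o.ne (eq_one_of_odd_of_sq o.odd (by nth_rewrite 1 [← e]; exact inv_mul_cancel x))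
  have ux : u ∉ C[x] := fun j => xx (o.inv.symm.trans (mem_cent1_conj.1 j))
  have xz : x ∉ center G := fun j => ux (mem_cent1.2 (mem_center_iff.1 j u))
  have un : u ∈ N(C[x]) := cent_zpowers x ▸ norm_le_norm_cent _ (mem_norm_iff_cj.2 (by
    rw [H19.cj_zpowers, o.inv, zpowers_inv]))
  have up := piG_zpowers.2 (pie h.toSt k.sq)
  obtain ⟨S, s, uS⟩ := up.exists_syl (le_sup_right : _ ≤ C[x] ⊔ zpowers u)
  have q := s.inf_normal (left_normal_sup (zpowers_le' un))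
  have zx : center G ≤ C[x] := cent_zpowers x ▸ zc _
  have zQ := q.le_of_norm' zx (pz h.toSt) fun g _ => nz g
  have uQ : u ∈ N(S ⊓ C[x]) := norms_inf (norms_of_le uS) (zpowers_le' un) (mem_zpowers u)
  generalize S ⊓ C[x] = Q at q zQ uQ
  have cQ := h.hy x ⟨u, o.inv⟩ xz Q q
  have u0 : u ∉ Q := fun j => ux (q.le j)
  have pS := q.pi.sup up (zpowers_le' uQ)
  have uS' : u ∈ Q ⊔ zpowers u := mem_sup_right (mem_zpowers u)
  have c1 := pg_lt_card pS (lt_of_le_not_ge le_sup_left fun j => u0 (j uS'))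
  obtain ⟨P, p, uP⟩ := up.exists_syl (zpowers_le' (mem_cent1_self u))
  obtain ⟨T, t, PT⟩ := p.pi.exists_syl (le_top (a := P))
  have cT := h.sy T t
  have ss := t.of_card_le le_top pS (by rw [cT, pow_add]; omega)
  have cS := h.sy _ ss
  have hQ := hyp_of_card (le_sup_left : Q ≤ Q ⊔ zpowers u) (by rw [cS, cQ, pow_add]; omega)
  have p' : Syl 2 (T ⊓ C[u]) C[u] := p.max (le_inf PT p.le) inf_le_right (t.pi.infl _) ▸ p
  have R := r2 h.toSt k t p'
  let π := QuotientGroup.mk' (center G)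
  have kπ : π.ker = center G := QuotientGroup.ker_mk' _
  have mπ {X : Subgroup G} (l : center G ≤ X) {y} (e : π y ∈ X.map π) : y ∈ X := by
    have : y ∈ (X.map π).comap π := e
    rwa [comap_map_eq_self (kπ.trans_le l)] at this
  obtain ⟨γ, g1, g2⟩ := H28.extremal_thompson_two (S := (Q ⊔ zpowers u).map π) (T := Q.map π) (y := π u)
    (C := T.map π) (by
      have := ss.map π
      rw [map_top_of_surjective _ (QuotientGroup.mk'_surjective _)] at this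
      rwa [H28.isSylowIn_iff, ← pG_iff, ← syl_iff Nat.prime_two])
    (by rw [relIndex_map_map, kπ, sup_eq_left.2 zQ, sup_eq_left.2 (zQ.trans le_sup_left)]; exact hQ.idx)
    (by rw [← map_pow, sq]; exact (QuotientGroup.eq_one_iff _).2 k.sq)
    (perf (by rw [← map_commutator, qs_perfect h.qs]) (mem_map_of_mem π uL)) (t.map π).pi.isPGroup
    (by
      rintro _ ⟨y, y1, rfl⟩
      refine mem_cent1_conj.2 ?_
      rw [← map_inv, ← map_mul, ← map_mul, ← mul_inv_eq_one, ← map_inv, ← map_mul]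
      exact (QuotientGroup.eq_one_iff _).2 (R y y1))
    (mem_map_of_mem π (PT (uP (mem_zpowers u))))
  obtain ⟨g, rfl⟩ := QuotientGroup.mk'_surjective (center G) γ
  have vQ : g * u * g⁻¹ ∈ Q := mπ zQ (by rwa [map_mul, map_mul, map_inv])
  have e : H19.cj g T = Q ⊔ zpowers u := (t.Jtop g).eq_of_le ss fun y p => mπ (zQ.trans le_sup_left) (g1 (by
    obtain ⟨y, y1, rfl⟩ := mem_cj'.1 p
    rw [map_mul, map_mul, map_inv]
    exact (H19.conj_mem_cj (g := π g)).2 (mem_map_of_mem π y1)))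
  have cz {y} (p : y ∈ center G) : g * y * g⁻¹ = y := by rw [mem_center_iff.1 p g]; group
  have vv : g * u * g⁻¹ * (g * u * g⁻¹) = u * u := by rw [← cz k.sq]; group
  have kv : Rr (g * u * g⁻¹) := ⟨k.re.elim fun t e => ⟨g * t * g⁻¹, by
    rw [show (g * u * g⁻¹)⁻¹ = g * u⁻¹ * g⁻¹ by group, ← e]; group⟩,
    fun j => k.nc (by simpa [mul_assoc] using (inferInstance : (center G).Normal).conj_mem _ j g⁻¹), vv ▸ k.sq⟩
  have Rv {y} (p : y ∈ Q ⊔ zpowers u) : y * (g * u * g⁻¹) * y⁻¹ * (g * u * g⁻¹)⁻¹ ∈ center G := by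
    obtain ⟨y, y1, rfl⟩ := mem_cj'.1 (e.ge p)
    convert (inferInstance : (center G).Normal).conj_mem _ (R y y1) g using 1
    group
  have cD := h.hy _ kv.re kv.nc ((Q ⊔ zpowers u) ⊓ C[g * u * g⁻¹]) (by
    simpa only [H19.cj_inf, cj_cent1, e] using p'.J g)
  have vL := h.nm.conj_mem u uL g
  generalize g * u * g⁻¹ = v at *
  have hD := hyp_of_card (inf_le_left : (Q ⊔ zpowers u) ⊓ C[v] ≤ _) (by rw [cS, cD, pow_add]; omega)
  have iv {y} (p : y ∈ Q ⊔ zpowers u) (y0 : y ∉ Q) : Ox x y := ⟨o.ne, o.odd, by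
    have := mem_cent1_conj.1 (q.le (hyp_mul hQ (inv_mem uS') p (mt inv_mem_iff.1 u0) y0))
    rw [← o.inv]; nth_rewrite 2 [← this]; group⟩
  have Qv : Q ≤ C[v] := by_contra fun j => by
    obtain ⟨y, y1, y0⟩ := SetLike.not_le_iff_exists.1 j
    obtain ⟨d, d1, d0⟩ := SetLike.not_le_iff_exists.1 (show ¬ (Q ⊔ zpowers u) ⊓ C[v] ≤ Q from fun l =>
      j ((eq_of_le_of_card_eq l (cD.trans cQ.symm)).ge.trans inf_le_right))
    have F {t} (p : Ox x t) (i : t * v * t⁻¹ = v⁻¹) : False :=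
      kv.nc (f1 h.toSt p (iv d1.1 d0) (pie h.toSt kv.sq) (q.le vQ) i (mem_cent1_conj.1 d1.2))
    by_cases v1 : v * v = 1
    · exact F (iv d1.1 d0) ((mem_cent1_conj.1 d1.2).trans (eq_inv_of_mul_eq_one_left v1))
    have w := mul_mem (mem_sup_left y1) d1.1
    exact F (iv w (mt (mul_mem_cancel_left y1).1 d0)) ((au h.toSt kv v1 (Rv w)).resolve_left fun i =>
      y0 ((C[v].mul_mem_cancel_right d1.2).1 (mem_cent1_conj.2 i)))
  exact ⟨Q, x, v, xL, vL, o, q, uQ, zQ k.sq, ss, vQ, Qv, vv, kv, Rv uS', fun j =>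
    hD.ne (inf_eq_left.2 (sup_le Qv (zpowers_le' j)))⟩

theorem a1 (lb : LB.{u}) (r2 : R2.{u}) (f1 : F1.{u}) : A1.{u} := fun {G _ _ b L u} h uL k uC => by
  have fin {u : G} (uL : u ∈ L) (k : Rr u) (uC : u ∉ C(L)) (u1 : u * u ≠ 1) : ∃ Q x u v, On b L Q x u v := by
    obtain ⟨Q, x, v, xL, vL, o, q, uQ, uq, ss, vQ, Qv, vv, kv, R, uv⟩ := core lb r2 f1 h uL k uC
    exact ⟨Q, x, u, v, h, xL, uL, vL, o, q, uQ, uq, ss, vQ, fun y p => mem_cent1.1 (Qv p), vv, u1, k.sq,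
      (au h.toSt kv (vv ▸ u1) R).resolve_left (mt mem_cent1_conj.2 uv), fun g => au h.toSt k u1⟩
  by_cases u1 : u * u = 1
  swap
  · exact fin uL k uC u1
  obtain ⟨Q, x, v, xL, vL, o, q, uQ, uq, ss, vQ, Qv, vv, kv, R, uv⟩ := core lb r2 f1 h uL k uC
  have iu := inv_eq_of_mul_eq_one_left u1
  have iv := inv_eq_of_mul_eq_one_left (vv.trans u1)
  have c : u * v ∉ C(L) := fun j => o.ne (eq_one_of_odd_of_sq o.odd (by
    have e := mem_cent1_conj.1 ((mul_mem_cancel_right (q.le vQ)).1 (cent_le_cent1 xL j))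
    nth_rewrite 1 [← e, o.inv]; exact inv_mul_cancel x))
  rw [iu, iv, mul_assoc] at R
  refine fin (mul_mem uL vL) ⟨⟨u, by rw [mul_inv_rev, iu, iv, ← mul_assoc, u1, one_mul]⟩, fun j => c
    (mem_cent.2 fun y _ => mem_center_iff.1 j y), R⟩ c fun j => uv (mem_cent1.2 ?_)
  rw [eq_inv_of_mul_eq_one_left j, mul_inv_rev, iu, iv]

end H28.RL
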