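import Cfsg.Agent.H28.Comm
import Cfsg.Prelude.Def_SylowChains

/-! Families controlling Sylow intersections. -/

set_option autoImplicit false

namespace H28

open Cfsg Subgroup Relation
open scoped Pointwise commutatorElement

theorem rtg_iff_fin {α : Type*} {r : α → α → Prop} {a b : α} : ReflTransGen r a b ↔
    ∃ (n : ℕ) (c : Fin (n + 1) → α), c 0 = a ∧ c (Fin.last n) = b ∧
      ∀ i : Fin n, r (c i.castSucc) (c i.succ) := by
  constructor
  · intro h
    induction h using ReflTransGen.head_induction_on with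
    | refl => exact ⟨0, fun _ => b, rfl, rfl, fun i => i.elim0⟩
    | @head x y h _ ih =>
      obtain ⟨n, c, h1, h2, h3⟩ := ih
      refine ⟨n + 1, Fin.cons x c, rfl, h2, fun i => ?_⟩
      induction i using Fin.cases with
      | zero => simpa [h1] using h
      | succ i => exact h3 i
  · rintro ⟨n, c, rfl, rfl, h⟩
    have : ∀ i, ReflTransGen r (c 0) (c i) := fun i => by
      induction i using Fin.induction with
      | zero => exact .refl
      | succ i ih => exact ih.tail (h i)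
    exact this _

variable {G : Type*} [Group G] {p : ℕ} {𝓕 : Set (Subgroup G)}

theorem subgroupConjRight_eq (g : G) (X : Subgroup G) : subgroupConjRight g X = cj g⁻¹ X := rfl

theorem mem_sylowMembers {S X : Subgroup G} :
    X ∈ sylowMembers p 𝓕 S ↔ X ∈ 𝓕 ∧ IsSylowIn p (S ⊓ X) X :=
  and_congr_right fun _ => ⟨fun ⟨P, h⟩ => h ▸ isSylowIn_map_subtype P, fun h => h.exists_sylow⟩

theorem cj_mem_of_isNormalSet (h : IsNormalSet 𝓕) {X : Subgroup G} (hX : X ∈ 𝓕) (g : G) :
    cj g X ∈ 𝓕 := by simpa [subgroupConjRight_eq] using h X hX g⁻¹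

theorem cj_mem_sylowMembers (h : IsNormalSet 𝓕) {S X : Subgroup G}
    (hX : X ∈ sylowMembers p 𝓕 S) (g : G) : cj g X ∈ sylowMembers p 𝓕 (cj g S) := by
  rw [mem_sylowMembers] at hX ⊢
  exact ⟨cj_mem_of_isNormalSet h hX.1 g, cj_inf g S X ▸ hX.2.conj g⟩

/-- One step of a chain of Sylow subgroups. -/
def CStep (p : ℕ) (𝓕 : Set (Subgroup G)) (D : Subgroup G) (S T : Sylow p G) : Prop :=
  ∃ X, X ∈ sylowMembers p 𝓕 (S : Subgroup G) ∧ X ∈ sylowMembers p 𝓕 (T : Subgroup G) ∧
    (∃ x ∈ X, cj x (S : Subgroup G) = T) ∧ D ≤ (T : Subgroup G) ⊓ X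

theorem CStep.mono {D E : Subgroup G} {S T : Sylow p G} (h : CStep p 𝓕 D S T) (hE : E ≤ D) :
    CStep p 𝓕 E S T := by
  obtain ⟨X, a, b, c, d⟩ := h
  exact ⟨X, a, b, c, hE.trans d⟩

theorem controls_iff : ControlsSylowIntersections p 𝓕 ↔ ∀ S T : Sylow p G,
    (S : Subgroup G) ⊓ T ≠ ⊥ → ReflTransGen (CStep p 𝓕 ((S : Subgroup G) ⊓ T)) S T := by
  refine ⟨fun h S T a => ?_, fun h S T _ a => ?_⟩
  · by_cases e : S = T
    · exact e ▸ .refl
    obtain ⟨n, c, X, x, h1, h2, h3⟩ := h S T e a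
    exact rtg_iff_fin.2 ⟨n, c, h1, h2, fun i => ⟨X i, (h3 i).1, (h3 i).2.1, ⟨x i, (h3 i).2.2.1, by
      rw [← (h3 i).2.2.2.1, subgroupConjRight_eq, cj_cj_inv]⟩, (h3 i).2.2.2.2⟩⟩
  · obtain ⟨n, c, h1, h2, h3⟩ := rtg_iff_fin.1 (h S T a)
    choose X a b c d using h3
    choose x c e using c
    exact ⟨n, _, X, x, h1, h2, fun i => ⟨a i, b i, c i, by
      rw [subgroupConjRight_eq, ← e, cj_inv_cj], d i⟩⟩

variable {f : Subgroup G → Set (Subgroup G)}

/-- One step of a chain for the family induced by a functor. -/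
def FStep (p : ℕ) (f : Subgroup G → Set (Subgroup G)) (M D A B : Subgroup G) : Prop :=
  IsSylowIn p A M ∧ IsSylowIn p B M ∧ D ≤ B ∧
    ∃ P, IsSylowIn p P M ∧ ∃ F ∈ f P, A ≤ 𝐍 F ∧ B ≤ 𝐍 F

theorem FStep.conj (hf : IsNormalizerFunctor p f) {M D A B : Subgroup G} (h : FStep p f M D A B)
    (g : G) : FStep p f (cj g M) (cj g D) (cj g A) (cj g B) := by
  obtain ⟨a, b, c, P, d, F, e, k, l⟩ := h
  exact ⟨a.conj g, b.conj g, cj_mono g c, _, d.conj g, cj g F,
    ((hf P d.isPGroup).2 g).ge ⟨F, e, rfl⟩, cj_normalizer g F ▸ cj_mono g k,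
    cj_normalizer g F ▸ cj_mono g l⟩

variable [Fact p.Prime] [Finite G]

theorem regular_iff (hf : IsNormalizerFunctor p f) {M : Subgroup G} : IsFunctorRegular p f M ↔
    ∀ A B, IsSylowIn p A M → IsSylowIn p B M → A ⊓ B ≠ ⊥ →
      ReflTransGen (FStep p f M (A ⊓ B)) A B := by
  rw [IsFunctorRegular, controls_iff]
  have inj : Function.Injective (map M.subtype) := map_injective M.subtype_injective
  refine ⟨fun h A B hA hB a => ?_, fun h S T a => ?_⟩
  · obtain ⟨S, rfl⟩ := hA.exists_sylow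
    obtain ⟨T, rfl⟩ := hB.exists_sylow
    rw [← map_inf _ _ _ M.subtype_injective] at a ⊢
    refine (h S T fun e => a (by rw [e, Subgroup.map_bot])).lift
      (fun S : Sylow p M => (S : Subgroup M).map M.subtype) ?_
    rintro U V ⟨_, h1, h2, -, h3⟩
    obtain ⟨⟨_, ⟨P, F, hF, rfl⟩, rfl⟩, h1⟩ := mem_sylowMembers.1 h1
    have hP := isSylowIn_map_subtype P
    have k : ∀ U : Sylow p M, IsSylowIn p ((U : Subgroup M) ⊓ (M ⊓ 𝐍 F).subgroupOf M)
        ((M ⊓ 𝐍 F).subgroupOf M) → (U : Subgroup M).map M.subtype ≤ 𝐍 F := fun U hU => by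
      have := eq_of_le_of_card_le (inf_le_left (a := (U : Subgroup M))) (((isSylowIn_top U).card_eq
        (isSylowIn_top P)).le.trans (hU.card_le P.isPGroup' (map_subtype_le_iff.1 (le_inf hP.le
          (le_normalizer.trans ((hf _ hP.isPGroup).1 F hF).2)))))
      exact (map_subtype_le_iff.2 (inf_eq_left.1 this)).trans inf_le_right
    exact ⟨isSylowIn_map_subtype U, isSylowIn_map_subtype V, map_mono (h3.trans inf_le_left), _, hP,
      F, hF, k U h1, k V (mem_sylowMembers.1 h2).2⟩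
  · have key : ∀ B, ReflTransGen (FStep p f M (((S : Subgroup M) ⊓ T).map M.subtype))
        ((S : Subgroup M).map M.subtype) B → ∀ V : Sylow p M, (V : Subgroup M).map M.subtype = B →
        ReflTransGen (CStep p ((fun X : Subgroup G => X.subgroupOf M) '' functorFamily p f M)
          ((S : Subgroup M) ⊓ T)) S V := fun B hB => by
      induction hB with
      | refl => exact fun V e => (Sylow.ext (inj e) : V = S) ▸ .refl
      | tail _ b ih =>
        rintro V rfl
        obtain ⟨a, b, c, P, d, F, e, k, l⟩ := b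
        obtain ⟨U, rfl⟩ := a.exists_sylow
        obtain ⟨P, rfl⟩ := d.exists_sylow
        have m : ∀ U : Sylow p M, (U : Subgroup M).map M.subtype ≤ 𝐍 F →
            (U : Subgroup M) ≤ (M ⊓ 𝐍 F).subgroupOf M := fun U h =>
          map_subtype_le_iff.1 (le_inf (map_subtype_le _) h)
        have n : ∀ U : Sylow p M, (U : Subgroup M).map M.subtype ≤ 𝐍 F →
            (M ⊓ 𝐍 F).subgroupOf M ∈ sylowMembers p ((fun X : Subgroup G => X.subgroupOf M) ''
              functorFamily p f M) (U : Subgroup M) := fun U h =>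
          mem_sylowMembers.2 ⟨⟨_, ⟨P, F, e, rfl⟩, rfl⟩, by
            rw [inf_of_le_left (m U h)]; exact isSylowIn_of_sylow_le U (m U h)⟩
        have o := (map_le_map_iff_of_injective M.subtype_injective).1 c
        exact (ih U rfl).tail ⟨_, n U k, n V l, (isSylowIn_of_sylow_le U (m U k)).exists_conj
          (isSylowIn_of_sylow_le V (m V l)), le_inf o (o.trans (m V l))⟩
    rw [map_inf _ _ _ M.subtype_injective] at key
    refine key _ (h _ _ (isSylowIn_map_subtype S) (isSylowIn_map_subtype T) ?_) T rfl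
    rw [← map_inf _ _ _ M.subtype_injective]
    exact fun e => a (inj (e.trans (Subgroup.map_bot _).symm))

theorem exists_sylow_between {S G₁ G₂ : Subgroup G} (hS : IsSylowIn p S ⊤) (h1 : S ≤ G₁)
    (h2 : S ≤ G₂) (h : ∀ g : G, ∃ a ∈ G₁, ∃ b ∈ G₂, g = a * b) (x y : G) :
    ∃ U, IsSylowIn p U ⊤ ∧ cj x S ⊓ cj y S ≤ U ∧ U ≤ cj x G₁ ⊓ cj y G₂ := by
  obtain ⟨a, ha, b, hb, e⟩ := h (x⁻¹ * y)
  obtain ⟨U, h3, h4⟩ := exists_isSylowIn_ge ((isPGroup_cj x hS.isPGroup).to_le inf_le_left)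
    (inf_le_inf (cj_mono x h1) (cj_mono y h2))
  refine ⟨U, (hS.conj_of_mem (mem_top (x * a))).of_sylow_le (le_inf ?_ ?_) le_top h3, h4, h3.le⟩
  · rw [← cj_cj]; exact cj_mono x (cj_le_of_mem h1 ha)
  · rw [show x * a = y * b⁻¹ by rw [eq_mul_inv_iff_mul_eq, mul_assoc, ← e, mul_inv_cancel_left],
      ← cj_cj]
    exact cj_mono y (cj_le_of_mem h2 (inv_mem hb))

end H28
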