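/-
Simple groups with few Sylow subgroups (notes/SN.md): counting with induced linear characters.
-/
import Cfsg.Agent.H1.SN0

set_option autoImplicit false
set_option linter.unusedSectionVars false

open Cfsg
open H5 H7 H8 H21

namespace H28.SN

open Subgroup Finset H1.SN

universe u

local notation "𝐌" x:max => normalizer (SetLike.coe (zpowers x))

variable {G : Type u} [Group G] [Finite G] [DecidableEq (IrrCharacter G)] (D : Dat G)

theorem nums : D.u + 1 ≤ D.m ∧ 2 * D.m + 1 ≤ D.p ∧ D.t * D.e + 1 = D.p ∧ 0 < D.n := by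
  have h1 := D.np
  have h2 := D.nm
  have h3 := D.mv
  have h4 := D.upos
  refine ⟨by omega, by nlinarith, D.pd.card, by nlinarith⟩

theorem exY : ∃ η, η ∈ D.Y := card_pos.1 D.pd.card_Y_pos

theorem sum_deg {l : IrrCharacter G → (𝐌 D.x →* ℂˣ) → ℕ} (L : IK D l) :
    ∑ χ, (∑ μ, l χ μ) * charDegree χ.1 = D.e * (D.n * D.p + 1) := by
  simp only [sum_mul]
  rw [sum_comm, sum_congr rfl fun μ _ => L.deg μ, sum_const, card_univ, L.card, smul_eq_mul]

theorem ib (ikx : IKX.{u}) : IB.{u} := by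
  intro G _ _ _ D k1 ht
  obtain ⟨l, L⟩ := ikx G D k1
  obtain ⟨h1, h2, h3, h4⟩ := nums D
  refine card_eq_zero.2 (filter_eq_empty_iff.2 fun χ _ ⟨ha, hd⟩ => ?_)
  have hp : 0 < D.n * D.p := Nat.mul_pos h4 (by omega)
  have c1 : χ ≠ irrOne G := by rintro rfl; rw [charDegree_irrOne] at hd; omega
  have k : ∀ μ, l χ μ + (if μ = 1 then 1 else 0) ≤ 1 := fun μ => by
    have := add_le_sum (f := fun χ => l χ μ * charDegree χ.1) (s := univ)
      (fun _ _ => Nat.zero_le _) (mem_univ χ) (mem_univ _) c1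
    simp only [L.deg, L.one, hd, charDegree_irrOne] at this
    split_ifs at this ⊢ <;> nlinarith
  have := sum_le_sum (s := univ) fun μ _ => k μ
  rw [sum_add_distrib, L.sumA χ _ ha hd, sum_ite_eq', if_pos (mem_univ _), sum_const, card_univ,
    L.card, smul_eq_mul] at this
  have := D.nm
  nlinarith

theorem it (ikx : IKX.{u}) : IT.{u} := by
  intro G _ _ _ D k1 ht hC hj
  obtain ⟨l, L⟩ := ikx G D k1
  obtain ⟨h1, h2, h3, h4⟩ := nums D
  obtain ⟨η, hη⟩ := exY D
  have k : ∀ χ, -(D.m : ℤ) * (D.a χ * charDegree χ.1) +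
      (if D.a χ = 1 ∧ charDegree χ.1 = D.n * D.p + 1 then
        ((D.n + 1 + D.m) * (D.n * D.p + 1) : ℤ) else 0) +
      (if χ = η then (D.j * charDegree η.1 : ℤ) else 0) ≤
      ((∑ μ, l χ μ) * charDegree χ.1 : ℕ) := fun χ => by
    by_cases e : χ = η
    · subst e; simp [D.pd.zero χ hη, L.sumY χ hη]
    rw [if_neg e]
    rcases D.pd.pm χ with a | a | a
    · simp only [a]; simp; positivity
    · split_ifs with b
      · rw [L.sumA χ _ a b.2, a, b.2]; push_cast; linarith
      · rw [a]; have : (0 : ℤ) ≤ D.m * charDegree χ.1 := by positivity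
        have : (0 : ℤ) ≤ ((∑ μ, l χ μ) * charDegree χ.1 : ℕ) := by positivity
        linarith
    · rcases D.neg χ a with b | b
      · exact absurd ⟨a, b⟩ (filter_eq_empty_iff.1 (card_eq_zero.1 hC) (mem_univ χ))
      · rw [L.sumD χ _ a b, a, if_neg (by simp)]; push_cast; linarith
  have := sum_le_sum (s := univ) fun χ _ => k χ
  rw [← Nat.cast_sum, sum_deg D L, sum_add_distrib, sum_add_distrib, ← mul_sum,
    ← D.pd.degree_rel hη, ← sum_filter, sum_const, sum_ite_eq', if_pos (mem_univ _),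
    nsmul_eq_mul] at this
  change _ + (D.nN : ℤ) * _ + _ ≤ _ at this
  have hz := (D.exc η hη).1
  have h5 := D.nm
  have hN : (0 : ℤ) < D.n * D.p + 1 := by positivity
  have he : (D.e : ℤ) = D.p - 1 := by rw [ht] at h3; omega
  have hs : 0 ≤ -(D.m : ℤ) * (D.δ * charDegree η.1) + D.j * charDegree η.1 := by
    rcases D.cas with ⟨a, b | b⟩ | ⟨a, -⟩
    · exact absurd ⟨a, b⟩ hj
    · rw [show #D.Y = 1 from ht, one_mul] at b
      rw [a, b]; linarith
    · rw [a]; have : (0 : ℤ) ≤ D.m * charDegree η.1 := by positivity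
      have : (0 : ℤ) ≤ D.j * charDegree η.1 := by positivity
      linarith
  have hb : (D.p : ℤ) - 1 < D.n + 1 + D.m := by omega
  push_cast at this
  rw [he] at this
  refine ⟨?_, fun ⟨a, b⟩ => ?_⟩
  · by_contra h0
    have h6 : (1 : ℤ) ≤ D.nN := by omega
    have h7 := mul_le_mul_of_nonneg_right h6
      (show (0 : ℤ) ≤ (D.n + 1 + D.m) * (D.n * D.p + 1) by positivity)
    nlinarith [mul_pos hN (sub_pos.2 hb)]
  · rw [ht, one_mul] at b
    have hz' : (charDegree η.1 : ℤ) = D.n * D.p + 1 := by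
      rw [hz, a, b, show (aq D.x : ℤ) = _ from he]; push_cast; ring
    rw [hz', a, b] at this
    have : (0 : ℤ) ≤ D.nN * ((D.n + 1 + D.m) * (D.n * D.p + 1)) := by positivity
    push_cast at *
    nlinarith [mul_pos hN (sub_pos.2 hb)]

theorem ir (ikx : IKX.{u}) : IR.{u} := by
  intro G _ _ _ D k1 hN hc
  obtain ⟨l, L⟩ := ikx G D k1
  obtain ⟨h1, h2, h3, h4⟩ := nums D
  obtain ⟨η, hη⟩ := exY D
  have h5 := D.nm
  have hδ : (D.δ : ℤ) * D.δ = 1 := by rcases D.pd.sign with a | a <;> simp [a]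
  have ly : ∀ μ, ∀ χ ∈ D.Y, l χ μ = l η μ := fun μ χ hχ => by
    have e1 := L.rel μ χ hχ
    have e2 := L.rel μ η hη
    have : (l χ μ : ℤ) = l η μ := by linear_combination D.δ * (e2 - e1) - (l χ μ - l η μ) * hδ
    exact_mod_cast this
  let β : (𝐌 D.x →* ℂˣ) → ℕ := fun μ =>
    (∑ χ ∈ {χ | D.a χ = -1 ∧ charDegree χ.1 + 1 = (D.m + 1) * D.p}, l χ μ) +
      if D.δ = 1 then l η μ else 0
  have hβ : ∑ μ, β μ = D.nD * D.m + if D.δ = 1 then D.j else 0 := by
    rw [sum_add_distrib, sum_comm, sum_congr rfl fun χ hχ =>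
      L.sumD χ _ (mem_filter.1 hχ).2.1 (mem_filter.1 hχ).2.2, sum_const, smul_eq_mul]
    congr 1
    split_ifs
    · exact L.sumY η hη
    · simp
  have k : ∀ μ χ, (D.u * D.p + 1 : ℤ) * (D.a χ * l χ μ) +
      (if D.a χ = -1 ∧ charDegree χ.1 + 1 = (D.m + 1) * D.p then
        (D.p * (D.m + (D.u + 1)) * l χ μ : ℤ) else 0) +
      (if χ ∈ D.Y then (l η μ * charDegree η.1 : ℤ) else 0) +
      (if χ = irrOne G then -(D.u * D.p * l χ μ : ℤ) else 0) ≤ (l χ μ * charDegree χ.1 : ℕ) := by
    intro μ χ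
    by_cases e : χ ∈ D.Y
    · simp [D.pd.zero χ e, e, D.pd.ne_irrOne e, ly μ χ e, D.pd.degree_eq e hη]
    rw [if_neg e]
    by_cases e1 : χ = irrOne G
    · rw [if_pos e1, e1, D.pd.one, charDegree_irrOne, if_neg (by simp)]; push_cast; linarith
    rw [if_neg e1]
    rcases D.pd.pm χ with a | a | a
    · simp only [a]; simp; positivity
    · rcases D.pos χ a with b | b | b
      · exact absurd b e1
      · rw [a, b, if_neg (by simp)]; push_cast; linarith
      · exact absurd ⟨a, b⟩ (filter_eq_empty_iff.1 (card_eq_zero.1 hN) (mem_univ χ))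
    · rcases D.neg χ a with b | b
      · have : l χ μ = 0 :=
          sum_eq_zero_iff.1 (L.sumD χ 0 a (by simpa using b)) μ (mem_univ _)
        simp [this]
      · rw [if_pos ⟨a, b⟩, a]
        have : (charDegree χ.1 : ℤ) = (D.m + 1) * D.p - 1 := by
          rw [eq_sub_iff_add_eq]; exact_mod_cast b
        push_cast; rw [this]; linarith
  have hp : (0 : ℤ) < D.p := by omega
  have k2 : ∀ μ, β μ * (D.m + (D.u + 1)) ≤ if μ = 1 then D.n else D.p - D.m := fun μ => by
    have := sum_le_sum (s := univ) fun χ _ => k μ χ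
    rw [← Nat.cast_sum, L.deg, sum_add_distrib, sum_add_distrib, sum_add_distrib, ← mul_sum,
      ← sum_filter, ← mul_sum, sum_ite_mem, univ_inter, sum_const, sum_ite_eq',
      if_pos (mem_univ _), nsmul_eq_mul, eq_add_of_sub_eq (L.rel μ η hη), L.one] at this
    have hz := (D.exc η hη).1
    have h3' : (#D.Y : ℤ) * aq D.x + 1 = D.p := by exact_mod_cast h3
    have key : (D.p : ℤ) * ((β μ : ℕ) * (D.m + (D.u + 1))) ≤
        D.p * (if μ = 1 then (D.n : ℤ) else (D.n : ℤ) - D.u) := by
      rcases hc with ⟨a, b⟩ | ⟨a, b⟩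
      · have b' : (#D.Y : ℤ) * D.j = D.m := by exact_mod_cast b
        have e : (#D.Y : ℤ) * (l η μ * charDegree η.1) = l η μ * (D.p * D.m + D.p - 1) := by
          rw [hz, a]; linear_combination l η μ * D.p * b' + l η μ * h3'
        rw [e] at this
        simp only [β, a, if_true] at this ⊢
        split_ifs at this ⊢ <;> push_cast at this ⊢ <;> linarith
      · have b' : (#D.Y : ℤ) * D.j = D.u + 1 := by exact_mod_cast b
        have e : (#D.Y : ℤ) * (l η μ * charDegree η.1) = l η μ * (D.u * D.p + 1) := by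
          rw [hz, a]; linear_combination l η μ * D.p * b' - l η μ * h3'
        rw [e] at this
        simp only [β, a, show ¬ (-1 : ℤ) = 1 by decide, if_false] at this ⊢
        split_ifs at this ⊢ <;> push_cast at this ⊢ <;> linarith
    have := le_of_mul_le_mul_left key hp
    split_ifs at this ⊢
    · exact_mod_cast this
    · zify [show D.m ≤ D.p by omega]; omega
  have k3 : ∀ μ, β μ * (D.m + (D.u + 1)) +
      (if μ = 1 then 0 else (D.p - D.m) % (D.m + (D.u + 1))) ≤
      if μ = 1 then D.n else D.p - D.m := fun μ => by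
    have := k2 μ
    split_ifs at this ⊢
    · exact this
    · have h6 := (Nat.le_div_iff_mul_le (by omega)).2 this
      have h7 := Nat.div_add_mod' (D.p - D.m) (D.m + (D.u + 1))
      have := Nat.mul_le_mul_right (D.m + (D.u + 1)) h6
      omega
  have := sum_le_sum (s := univ) fun μ _ => k3 μ
  classical
  have hc : #(univ.filter fun μ : 𝐌 D.x →* ℂˣ => ¬ μ = 1) = D.e - 1 := by
    rw [filter_ne', card_erase_of_mem (mem_univ _), card_univ, L.card]
  rw [sum_add_distrib, ← sum_mul, hβ, sum_ite, sum_ite, sum_const_zero, zero_add, sum_const,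
    sum_const, sum_const, filter_eq', if_pos (mem_univ _), card_singleton, hc] at this
  simpa [add_comm] using this

end H28.SN
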