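/-
Simple groups with few Sylow subgroups (notes/SN.md): Sylow numbers and the case `SL(2, p + 1)`.
-/
import Cfsg.Agent.H28.SY1

set_option autoImplicit false
set_option linter.unusedSectionVars false

open Cfsg
open H5 H7 H8 H21

namespace H28.SN

open Subgroup Finset H1.SN
open scoped ComplexConjugate MatrixGroups

universe u

local notation "𝐌" x:max => normalizer (SetLike.coe (zpowers x))
local notation "𝐙" x:max => centralizer ({x} : Set _)

theorem syl {S : Type u} [Group S] [Finite S] [IsSimpleGroup S] (hS : ¬ IsMulCommutative S) {p c : ℕ}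
    (hp : p.Prime) (h1 : p ∣ Nat.card S) (h2 : Nat.card S ∣ p * c) :
    ∃ k w, 0 < k ∧ Nat.card (Sylow p S) = k * p + 1 ∧ (k * p + 1) * w = c := by
  have := Fact.mk hp
  obtain ⟨P⟩ : Nonempty (Sylow p S) := inferInstance
  have h3 : Nat.card (Sylow p S) % p = 1 :=
    Eq.trans (card_sylow_modEq_one p S) (Nat.mod_eq_of_lt hp.one_lt)
  have h4 : Nat.card (Sylow p S) ∣ c := ((Nat.Coprime.symm ((Nat.Prime.coprime_iff_not_dvd hp).2
    (not_dvd_card_sylow p S))).dvd_mul_left).1 (((P.card_dvd_index).trans (index_dvd_card _)).trans h2)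
  obtain ⟨w, hw⟩ := h4
  have h5 := Nat.div_add_mod' (Nat.card (Sylow p S)) p
  rw [h3] at h5
  refine ⟨_, w, Nat.pos_of_ne_zero fun e => ?_, h5.symm, by rw [h5, hw]⟩
  rw [e, zero_mul, zero_add] at h5
  have : Subsingleton (Sylow p S) := (Nat.card_eq_one_iff_unique.1 h5.symm).1
  rcases (P.normal_of_subsingleton).eq_bot_or_eq_top with e | e
  · exact P.ne_bot_of_dvd_card h1 e
  · have hP : IsPGroup p S := (e ▸ P.2 : IsPGroup p (⊤ : Subgroup S)).of_equiv topEquiv
    rcases (inferInstance : (center S).Normal).eq_bot_or_eq_top with e | e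
    · exact (nontrivial_iff_ne_bot _).1 hP.center_nontrivial e
    · exact hS ⟨⟨fun a b => mem_center_iff.1 (e ▸ mem_top b) a⟩⟩

theorem card_L2 {S : Type u} [Group S] {q : ℕ} (h : L2 S q) :
    Nat.gcd 2 (q - 1) * Nat.card S = q * (q ^ 2 - 1) := by
  obtain ⟨F, _, _, rfl, ⟨e⟩⟩ := h
  rw [Nat.card_congr e.toEquiv, H11.card_psl_two]

theorem cof {p k w a b : ℕ} (h : (k * p + 1) * w = a * p + b) (hb : b < p) :
    ∃ i, w = i * p + b := by
  refine ⟨w / p, ?_⟩
  have h1 := congrArg (· % p) h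
  simp only [add_mul, one_mul, mul_right_comm k p w, Nat.mul_add_mod_self_right,
    Nat.mod_eq_of_lt hb] at h1
  rw [← h1, Nat.div_add_mod']

theorem nv : NV.{u} := by
  intro S _ _ _ p hS hp
  have p2 := hp.two_le
  refine ⟨fun h => ?_, fun ⟨F, _, _, hF, ⟨e⟩⟩ => ?_, fun h3 h => ?_, fun h3 h => ?_⟩
  · have h1 := card_L2 h
    have hc : p.Coprime (Nat.gcd 2 (p - 1)) := Nat.Coprime.coprime_dvd_right
      (Nat.gcd_dvd_right _ _) (by simpa using Nat.coprime_self_sub_right hp.one_le)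
    obtain ⟨k, w, k0, e, hw⟩ := syl hS hp (hc.dvd_mul_left.1 (h1 ▸ dvd_mul_right _ _))
      (h1 ▸ dvd_mul_left _ _)
    obtain ⟨r, rfl⟩ : ∃ r, p = r + 1 := ⟨p - 1, by omega⟩
    rw [show (r + 1) ^ 2 - 1 = r * (r + 1) + r from Nat.sub_eq_of_eq_add (by ring)] at hw
    obtain ⟨i, rfl⟩ := cof hw (by omega)
    obtain rfl : k = 1 := by
      by_contra k1
      have : 2 * (r + 1) ≤ k * (r + 1) := Nat.mul_le_mul_right _ (by omega)
      nlinarith [Nat.zero_le (i * (r + 1))]
    rw [e, one_mul]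
  · have e1 := H11.card_psl (ι := Fin 3) (F := F)
    have e2 := H11.card_units_mul_card_sl (ι := Fin 3) (F := F)
    rw [Matrix.card_GL_field, Fin.prod_univ_three, ← e1, ← Nat.card_congr e.toEquiv] at e2
    simp only [Fintype.card_fin, hF, Fin.val_zero, Fin.val_one, Fin.val_two] at e2
    norm_num at e2
    obtain ⟨k, w, -, e, hw⟩ := syl (p := 13) (c := 432) hS (by norm_num) (by omega) (by
      rw [show Nat.card S = 5616 by omega])
    rw [e]
    obtain ⟨i, rfl⟩ := cof (a := 33) (b := 3) hw (by norm_num)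
    nlinarith [Nat.zero_le (i * (k * 13 + 1))]
  · have h1 := card_L2 h
    obtain ⟨r, rfl⟩ : ∃ r, p = r + 3 := ⟨p - 3, by omega⟩
    have ho : Odd (r + 1) := by
      have := hp.odd_of_ne_two (by omega); simpa [parity_simps] using this
    rw [show r + 3 - 1 = r + 2 from rfl, show r + 2 - 1 = r + 1 from rfl,
      Nat.coprime_two_left.2 ho, one_mul,
      show (r + 2) ^ 2 - 1 = (r + 1) * (r + 3) from Nat.sub_eq_of_eq_add (by ring)] at h1
    obtain ⟨k, w, k0, e, hw⟩ := syl (c := r * (r + 3) + 2) hS hp (h1 ▸ ⟨(r + 2) * (r + 1), by ring⟩)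
      (dvd_of_eq (by rw [h1]; ring))
    obtain ⟨i, rfl⟩ := cof hw (by omega)
    obtain rfl : i = 0 := by
      by_contra i0
      have : 1 * (r + 3) ≤ k * (r + 3) := Nat.mul_le_mul_right _ k0
      have : 1 * (r + 3) ≤ i * (r + 3) := Nat.mul_le_mul_right _ (by omega)
      nlinarith
    rw [e, Nat.add_sub_cancel]; linarith
  · have h1 := card_L2 h
    rw [Nat.add_sub_cancel, Nat.coprime_two_left.2 (hp.odd_of_ne_two (by omega)), one_mul,
      show (p + 1) ^ 2 - 1 = p * (p + 2) from Nat.sub_eq_of_eq_add (by ring)] at h1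
    obtain ⟨k, w, k0, e, hw⟩ := syl (c := (p + 3) * p + 2) hS hp (h1 ▸ ⟨(p + 1) * (p + 2), by ring⟩)
      (dvd_of_eq (by rw [h1]; ring))
    obtain ⟨i, rfl⟩ := cof hw (by omega)
    have : 1 * p ≤ k * p := Nat.mul_le_mul_right _ k0
    rcases i with _ | _ | i
    · left; rw [e]; linarith
    · right; rw [e]
      exact Nat.eq_of_mul_eq_mul_right (show 0 < p + 2 by omega) (by linarith)
    · nlinarith [Nat.zero_le (i * p)]

theorem dz {G : Type u} [Group G] [Finite G] {χ : IrrCharacter G} {r c : ℕ} (hr : r.Prime)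
    (h : Nat.card G = charDegree χ.1 * c) (hc : ¬ r ∣ c) {g : G} (hg : r ∣ orderOf g) :
    χ.1 g = 0 := by
  obtain ⟨M, hM⟩ := exists_isPModular hr
  refine apply_eq_zero_of_defect_zero hM ?_ hg
  rw [h, Nat.cast_mul, map_mul, (val_natCast_eq_one_iff hM _).2 hc, mul_one, irr_apply_one]

theorem l2_of_ac {G : Type u} [Group G] [Finite G] {p : ℕ} {x : G} (h : SCent p x)
    (hG : commutator G = ⊤) (hp2 : p ≠ 2) (hq : aq x = 2) (hA : H19.AC G)
    (hc : Nat.card G = p * (p + 1) * (p + 2)) : (∃ k : ℕ, p + 1 = 2 ^ k) ∧ L2 G (p + 1) := by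
  have : Fact (Nat.Prime 2) := ⟨Nat.prime_two⟩
  have h2 : 2 ∣ Nat.card (𝐌 x) := by rw [h.card_normalizer', hq]; exact dvd_mul_left _ _
  have h3 : 2 ∣ Nat.card G := h2.trans (card_subgroup_dvd_card _)
  obtain ⟨T⟩ : Nonempty (Sylow 2 G) := inferInstance
  rcases hA.main with e | e | ⟨F, _, _, Z, k1, k2, -, k3, ⟨e⟩⟩
  · have := e T
    exact absurd (IsCyclic.normalizer_le_centralizer (Nat.minFac_eq_two_iff _ |>.2 h3) this)
      (not_le_centralizer_of_perfect hG T h3)
  · have := e T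
    obtain ⟨j, hj⟩ := exists_prime_orderOf_dvd_card' (G := 𝐌 x) 2 h2
    rw [← orderOf_coe] at hj
    obtain ⟨k, hk⟩ := T.2.exists_card_eq
    exact absurd ((eq_bot_iff_forall _).1 (h.inf_normalizer (S := T) fun e => hp2
      ((Nat.prime_dvd_prime_iff_eq h.prime Nat.prime_two).1 (h.prime.dvd_of_dvd_pow (hk ▸ e)))) j
      ⟨(T.3 ((H21.isPGroup_zpowers_of_orderOf hj).to_sup_of_normal_right T.2) le_sup_right).le
        (mem_sup_left (mem_zpowers _)), j.2⟩)
      (ne_one_of_orderOf_prime Nat.prime_two hj)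
  · obtain rfl : Z = ⊥ := le_bot_iff.1 (h.center_eq_bot hq.ge ▸ k3)
    let e' := e.trans MulEquiv.prodUnique
    obtain ⟨m, -, hm⟩ := FiniteField.card F 2
    obtain ⟨e''⟩ := H19.psl2_sl2 F
    suffices Fintype.card F = p + 1 from ⟨⟨m, this ▸ hm⟩, F, _, _, this, ⟨e'.trans e''.symm⟩⟩
    rw [Nat.card_congr e'.toEquiv, H11.card_sl_two] at hc
    generalize Fintype.card F = Q at *
    obtain ⟨Q, rfl⟩ : ∃ r, Q = r + 1 := ⟨Q - 1, by omega⟩
    rw [show (Q + 1) ^ 2 - 1 = Q * (Q + 2) from Nat.sub_eq_of_eq_add (by ring)] at hc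
    rcases lt_trichotomy p Q with e | e | e
    · have : (p + 2) * (p + 1) * p < (Q + 2) * (Q + 1) * Q := by gcongr
      nlinarith
    · rw [e]
    · have : (Q + 2) * (Q + 1) * Q < (p + 2) * (p + 1) * p := by gcongr
      nlinarith

theorem ll (cc : CC.{u}) : LL.{u} := by
  intro G _ _ _ D k1 hδ hj ht hu hA _ _ _
  classical
  have := Fintype.ofFinite G
  obtain ⟨h1, h2, h3, h4⟩ := nums D
  obtain ⟨η, hη⟩ := exY D
  have hm := D.mv
  have hn := D.nm
  rw [hu] at h1 hm hn
  have he : D.e = 2 := Nat.eq_of_mul_eq_mul_left (show 0 < D.m by omega) (by rw [ht] at h3; omega)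
  have hG : Nat.card G = D.p * (D.p + 1) * (D.p + 2) := by
    rw [← (𝐌 D.x).card_mul_index, k1.card_normalizer', D.hN, show aq D.x = 2 from he,
      show D.n = D.m + 2 by omega, ← hm]; ring
  obtain ⟨χ, hχ⟩ := card_pos.1 (show 0 < D.nA by omega)
  obtain ⟨-, ha, hd⟩ := mem_filter.1 hχ
  rw [hu, one_mul] at hd
  have c1 : χ ≠ irrOne G := by rintro rfl; rw [charDegree_irrOne] at hd; omega
  have hX : (univ.filter fun ψ => D.a ψ ≠ 0) = {irrOne G, χ} :=
    (eq_of_subset_of_card_le (insert_subset (by simp [D.pd.one]) (by simp [ha]))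
      (by rw [D.pd.cardX, card_pair c1.symm]; exact he.le)).symm
  have hs : ∀ f : IrrCharacter G → ℂ, (∀ ψ, D.a ψ = 0 → f ψ = 0) →
      ∑ ψ, f ψ = f (irrOne G) + f χ := fun f hf => by
    rw [← sum_pair c1.symm, ← hX]
    exact (sum_filter_of_ne (p := fun ψ => D.a ψ ≠ 0) fun ψ _ e a => e (hf ψ a)).symm
  have hz : charDegree η.1 = D.p + 2 := by
    have := (D.exc η hη).1
    rw [hj, hδ, show aq D.x = 2 from he] at this; omega
  have hr : ∀ g, ¬ D.p ∣ orderOf g → η.1 g = 1 + χ.1 g := fun g hg => by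
    have := D.pd.reg η hη g hg
    rw [hs _ fun ψ a => by simp [a], hδ, D.pd.one, ha] at this
    simpa [irrOne] using this
  have z1 : ∀ g r, r.Prime → r ∣ orderOf g → r ∣ D.p + 1 → χ.1 g = 0 := fun g r pr a b =>
    dz (c := D.p * (D.p + 2)) pr (by rw [hG, hd]; ring) (fun e => pr.not_dvd_one (by
      have := Nat.dvd_sub (b.mul_left (D.p + 1)) e
      rwa [show (D.p + 1) * (D.p + 1) - D.p * (D.p + 2) = 1 from
        Nat.sub_eq_of_eq_add (by ring)] at this)) a
  have hv : ∀ g, g ≠ 1 → χ.1 g = 0 ∨ χ.1 g * conj (χ.1 g) = 1 := fun g g1 => by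
    by_cases hg : D.p ∣ orderOf g
    · obtain ⟨c, hc⟩ := k1.exists_conj_mem (k1.orderOf_eq_of_dvd hg)
      have := D.pd.nonexc χ (by omega) ⟨_, hc⟩ fun e => g1 (by
        simpa [mul_assoc] using congrArg (fun y => c * y.1 * c⁻¹) e)
      have e : χ.1 g = χ.1 (c⁻¹ * g * c) :=
        χ.2.isClassFunction.eq_of_isConj (isConj_iff.2 ⟨c⁻¹, by simp⟩)
      right; rw [e, this, ha]; simp
    · obtain ⟨r, pr, a⟩ := Nat.exists_prime_and_dvd (mt orderOf_eq_one_iff.1 g1)
      by_cases b : r ∣ D.p + 1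
      · exact Or.inl (z1 g r pr a b)
      have : η.1 g = 0 := dz (c := D.p * (D.p + 1)) pr (by rw [hG, hz]; ring) (fun e =>
        ((Nat.Prime.dvd_mul pr).1 e).elim (fun e => hg
          ((Nat.prime_dvd_prime_iff_eq pr k1.prime).1 e ▸ a)) b) a
      right; rw [show χ.1 g = -1 by linear_combination this - hr g hg]; simp
  have hZ : #{g | χ.1 g = 0} = D.p * (D.p + 2) := by
    have e1 : ∑ g, χ.1 g * conj (χ.1 g) = Nat.card G := by
      have := χ.2.classInner_self
      rw [classInner, inv_mul_eq_one₀ (card_ne_zero_complex G)] at this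
      exact this.symm
    have e2 : ∀ g, χ.1 g * conj (χ.1 g) + (if χ.1 g = 0 then 1 else 0) =
        1 + if g = 1 then (D.p * (D.p + 2) : ℂ) else 0 := fun g => by
      by_cases g1 : g = 1
      · rw [g1, irr_apply_one, hd, if_neg (Nat.cast_ne_zero.2 (Nat.succ_ne_zero _)), if_pos rfl,
          map_natCast]; push_cast; ring
      · rcases hv g g1 with a | a
        · simp [a, g1]
        · rw [a, if_neg (by rintro b; simp [b] at a), if_neg g1]
    have e3 := sum_congr (rfl : (univ : Finset G) = _) fun g _ => e2 g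
    rw [sum_add_distrib, sum_add_distrib, e1, sum_ite_eq', if_pos (mem_univ _), sum_boole,
      sum_const, card_univ, nsmul_eq_mul, mul_one, ← Nat.card_eq_fintype_card, add_right_inj] at e3
    exact_mod_cast e3
  have p2 : D.p ≠ 2 := by omega
  have ev : ∀ s g : G, orderOf s = 2 → 2 ∣ orderOf g → IsConj s g := fun s g s2 g2 => by
    have s1 : s ≠ 1 := by rintro rfl; simp at s2
    have sp : ¬ D.p ∣ orderOf s := k1.not_dvd_of_even p2 (by rw [s2]; decide)
    have s0 : χ.1 s = 0 := z1 s 2 Nat.prime_two s2.symm.dvd (by omega)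
    obtain ⟨c, hc⟩ := cc G D k1 η hη s s s1 s1 sp sp
    rw [hs _ fun ψ a => by simp [a], hr s sp, s0, irr_apply_one η, hz, hG, hδ, D.pd.one] at hc
    have hp0 : (D.p : ℂ) ≠ 0 := Nat.cast_ne_zero.2 k1.prime.ne_zero
    have hp2 : (D.p : ℂ) + 2 ≠ 0 := by exact_mod_cast Nat.succ_ne_zero (D.p + 1)
    have hc' : c * Nat.card (𝐙 s) ^ 2 = (D.p + 1) ^ 2 := by
      have : (c * Nat.card (𝐙 s) ^ 2 : ℂ) = (D.p + 1) ^ 2 := by
        simp only [irrOne] at hc
        push_cast at hc
        field_simp at hc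
        linear_combination hc
      exact_mod_cast this
    have hle : Nat.card (𝐙 s) ≤ D.p + 1 := by
      have : c ≠ 0 := by rintro rfl; exact absurd hc' (by rw [zero_mul]; positivity)
      exact Nat.le_of_not_lt fun e => by nlinarith [Nat.pos_of_ne_zero this]
    have hcl := card_conj_mul_card_centralizer s
    rw [Nat.card_eq_fintype_card, Fintype.card_subtype, hG] at hcl
    have : (univ.filter fun g => IsConj s g) = univ.filter fun g => χ.1 g = 0 := by
      refine eq_of_subset_of_card_le (fun g hg => mem_filter.2 ⟨mem_univ _, ?_⟩) ?_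
      · rw [← χ.2.isClassFunction.eq_of_isConj (mem_filter.1 hg).2, s0]
      · rw [hZ]
        refine Nat.le_of_mul_le_mul_right ?_ (Nat.succ_pos D.p)
        nlinarith [Nat.mul_le_mul_left #{g | IsConj s g} hle]
    exact (mem_filter.1 (this ▸ mem_filter.2
      ⟨mem_univ _, z1 g 2 Nat.prime_two g2 (by omega)⟩ : g ∈ univ.filter fun g => IsConj s g)).2
  refine l2_of_ac k1 D.perf p2 he (fun s s2 => ?_) hG
  have sq : ∀ c ∈ 𝐙 s, c * c = 1 := fun c hc => by
    have k : ∀ g : G, 2 ∣ orderOf g → g * g = 1 := fun g hg => by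
      obtain ⟨d, rfl⟩ := isConj_iff.1 (ev s g s2 hg)
      rw [← sq, conj_pow, ← s2, pow_orderOf_eq_one]; simp
    by_cases h : 2 ∣ orderOf c
    · exact k c h
    have cm : Commute c s := mem_centralizer_singleton_iff.1 hc
    have := k (c * s) (by
      rw [cm.orderOf_mul_eq_mul_orderOf_of_coprime
        (s2 ▸ ((Nat.Prime.coprime_iff_not_dvd Nat.prime_two).2 h).symm), s2]
      exact dvd_mul_left _ _)
    rwa [← sq, cm.mul_pow, ← s2, pow_orderOf_eq_one, mul_one, s2, sq] at this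
  refine ⟨⟨fun a b => Subtype.ext ?_⟩⟩
  have := sq _ (mul_mem a.2 b.2)
  change (a : G) * b = b * a
  rw [eq_inv_of_mul_eq_one_left this, mul_inv_rev, inv_eq_of_mul_eq_one_left (sq _ a.2),
    inv_eq_of_mul_eq_one_left (sq _ b.2)]

end H28.SN
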