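import Cfsg.Agent.H28.Sm3
import Cfsg.Agent.H28.MinOver

/-!
Isolated `p`-minimal subgroups.
-/

set_option autoImplicit false
set_option linter.unusedSectionVars false

open Cfsg Subgroup H18 H17.GS H28.S
open H19 hiding eq_bot_mono

universe u

variable {G : Type u} [Group G] [Finite G] {p t : ℕ} {A K L P Q R S : Subgroup G}

structure _root_.H28.S.IP (p : ℕ) (S P Q L A : Subgroup G) : Prop where
  pr : p.Prime
  syl : Syl p S ⊤
  sl : S ≤ L
  key : ∀ H X, S ≤ H → H ⊓ L ≤ X → (P ≤ H → P ≤ X) → H ≤ X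
  na : A ⊴ L
  pa : PG p A
  np : ¬ P ≤ N(A)
  nq : S ≤ N(Q)
  qs : Q ⊔ S = P
  res : ∀ K, S ≤ N(K) → P ≤ K ⊔ S → Q ≤ K

theorem _root_.H28.S.IP.as (h : IP p S P Q L A) : A ≤ S :=
  h.syl.le_of_norm' le_top h.pa (h.na.norms h.sl)

theorem _root_.H28.S.IP.d2 (h : IP p S P Q L A) (hK : S ≤ N(K)) : Q ≤ K ∨ K ≤ L :=
  or_iff_not_imp_left.2 fun e => le_sup_left.trans
    (h.key (K ⊔ S) L le_sup_right inf_le_right fun k => (e (h.res K hK k)).elim)

theorem _root_.H28.S.IP.nn (h : IP p S P Q L A) : ¬ Q ≤ N(A) := fun e =>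
  h.np (h.qs ▸ sup_le e (h.na.norms h.sl))

theorem _root_.H28.S.IP.nl (h : IP p S P Q L A) : ¬ Q ≤ L := fun e => h.nn (h.na.norms e)

theorem _root_.H28.S.IP.cen (h : IP p S P Q L A) (hK : S ≤ N(K)) (h1 : PiG {p}ᶜ K) :
    K ⊓ L ≤ C(A) := cents_of_norms_disjoint (norms_inf (h.as.trans hK) (norms_of_le h.na.le))
  (h.na.norms inf_le_right) ((h1.infl _).inf_eq_bot' h.pa)

theorem _root_.H28.S.IP.tg (h : IP p S P Q L A) (hR : Nil R) (h1 : PiG {p}ᶜ R) (hn : S ≤ N(R))
    (hQ : Q ≤ R) : ⁅R, A⁆ = Q ∧ ⁅Q, Q⁆ ≤ C(Q) := by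
  have nA := h.na.norms h.sl
  have nQ := h.as.trans h.nq
  have e1 : Q ≤ ⁅Q, A⁆ := (h.d2 (norms_comm h.nq nA)).resolve_right fun e => h.nl (by
    rw [← commg_sup_cent nQ ((h1.of_le hQ).coprime' h.pa) (Or.inl h.pa.sol)]
    exact sup_le e ((h.d2 (norms_inf h.nq (norms_cent nA))).resolve_left fun k =>
      h.nn (norms_of_cents (k.trans inf_le_right))))
  have g : ∀ N, Q ≤ N → N ≤ R → S ≤ N(N) → N ≤ Q ⊔ N ⊓ L := fun N a b c => by
    have n := norms_sup h.nq (norms_inf c (norms_of_le h.sl))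
    have := h.key (N ⊔ S) ((Q ⊔ N ⊓ L) ⊔ S) le_sup_right (by
      rw [sup_inf_modr c h.sl]; exact sup_le_sup_right le_sup_right _)
      fun _ => h.qs ▸ sup_le_sup_right le_sup_left _
    have := le_inf (le_sup_left.trans this) (le_refl N)
    rwa [sup_inf_modl n (sup_le a inf_le_left), h.syl.pi.inf_eq_bot (h1.of_le b), sup_bot_eq] at this
  have c : ∀ N, Q ≤ N → N ≤ R → S ≤ N(N) → N ≤ N(Q) → ⁅N, A⁆ ≤ Q := fun N a b c d =>
    (commutator_mono (g N a b c) le_rfl).trans (commg_sup_left_le (commg_le_left nQ)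
      (commg_eq_bot.2 (h.cen c (h1.of_le b)) ▸ bot_le) le_normalizer (inf_le_left.trans d))
  have n0 := norms_inf hn (norms_norm h.nq)
  have l0 : Q ≤ R ⊓ N(Q) := le_inf hQ le_normalizer
  have e2 : R ⊓ N(Q) = R := nil_eq_of_norm_le hR inf_le_left (le_inf inf_le_left
    ((g _ (le_inf hQ (l0.trans le_normalizer)) inf_le_left (norms_inf hn (norms_norm n0))).trans
    (sup_le le_normalizer fun x hx => mem_norm_of_cj_le ((cj_mono x e1).trans (by
      rw [cj_comm, cj_of_mem_cent (h.cen hn h1 ⟨hx.1.1, hx.2⟩)]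
      exact (commutator_mono (cj_le_of_mem_norm hx.1.2 l0) le_rfl).trans
        (c _ l0 inf_le_left n0 inf_le_right))))))
  refine ⟨le_antisymm (c R hQ le_rfl hn (inf_eq_left.1 e2)) (e1.trans (commutator_mono hQ le_rfl)),
    cents_symm (e1.trans ?_)⟩
  have d := (h.d2 (norms_der h.nq)).resolve_left fun e => h.nn
    (sol_eq_bot_of_le_der (sol_of_nil (nil_mono hR hQ)) e ▸ bot_le)
  exact (commutator_mono le_rfl (cents_symm ((le_inf (der_le Q) d).trans
    (h.cen h.nq (h1.of_le hQ))))).trans (commg_le_right (norms_cent (norms_der le_normalizer)))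

theorem _root_.H28.S.IP.main (h : IP p S P Q L A) (h0 : Oc {p} (⊤ : Subgroup G) = ⊥) :
    Q ≤ generalizedFittingSubgroup G ∧
    ((Q.Normal ∧ ∃ t, t.Prime ∧ t ≠ p ∧ PG t Q ∧ ⁅Q, Q⁆ ≤ C(Q)) ∨
      (p ∣ #(normalClosure (Q : Set G)) ∧ normalClosure Q ≤ Lay (normalClosure (Q : Set G)) ∧
        ∀ K K', Comp K (normalClosure Q) → Comp K' (normalClosure Q) → ∃ s ∈ S, K' = cj s K)) := by
  have nF : Lay ⊤ ⊔ Fit ⊤ ⊴ (⊤ : Subgroup G) := Lay_normal.sup (Fit_normal _)
  have gen : ∀ X, Q ≤ X → L ≤ X → ⊤ ≤ X := fun X a b => h.key ⊤ X le_top (inf_le_right.trans b)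
    fun _ => h.qs ▸ sup_le a (h.sl.trans b)
  have hF : Q ≤ Lay ⊤ ⊔ Fit ⊤ := (h.d2 (nF.norms le_top)).resolve_right fun e => h.np (by
    have := cents_of_norms_disjoint (nF.norms le_top) (h.na.norms e) (eq_bot_mono ((le_Oc
      (inf_normal_of_norm' (h.na.norms e)) (h.pa.infr _)).trans (Oc_le_Oc nF)) h0)
    rw [eq_bot_mono (h.pa.le_Oc_of_le_Fit (cent_gf_le le_top (fun J hJ => cents_symm
      ((le_sup_of_le_left hJ.le_Lay).trans this)) (cents_symm (le_sup_right.trans this)))) h0, norm_bot]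
    exact le_top)
  refine ⟨gf_top (G := G) ▸ hF, ?_⟩
  by_cases hQ : Q ≤ Fit ⊤
  · obtain ⟨t, ht, e⟩ : ∃ t, t.Prime ∧ Q ≤ Oc {t} ⊤ := by
      by_contra! k
      exact h.nl (hQ.trans (Fit_le_of_Oc fun t ht =>
        (h.d2 ((Oc_normal _ _).norms le_top)).resolve_left (k t ht)))
    have tp : t ≠ p := fun k => h.nl (eq_bot_mono (k ▸ e) h0 ▸ bot_le)
    obtain ⟨a, b⟩ := h.tg (Oc_pi _ _).nil ((Oc_pi _ _).sing_ne tp) ((Oc_normal _ _).norms le_top) e
    exact Or.inl ⟨NormalIn.normal ⟨le_top, gen _ le_normalizer (a ▸ norms_comm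
      ((Oc_normal _ _).norms le_top) h.na.norm)⟩, t, ht, tp, (Oc_pi _ _).of_le e, b⟩
  right
  have cK : ∀ {K}, Comp K ⊤ → ∀ g : G, Comp (cj g K) ⊤ := fun hK g =>
    hK.conj (le_normalizer (mem_top g))
  let M : Subgroup G → Subgroup G := fun K => ⨆ a : S, cj a K
  have lM : ∀ {K a}, a ∈ S → cj a K ≤ M K := fun {K a} h => le_iSup_of_le (⟨a, h⟩ : S) le_rfl
  have l1 : ∀ K, K ≤ M K := fun K => (cj_one K).ge.trans (lM (one_mem S))
  have nL : ∀ {K}, Comp K ⊤ → M K ⊴ Lay ⊤ := fun hK => ⟨iSup_le fun a => (cK hK a).le_Lay,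
    norms_iSup fun a => (cK hK a).normal_Lay.norm⟩
  have cM : ∀ (g : G) K, cj g (M K) = ⨆ a : S, cj (g * a) K := fun g A => by
    simp only [M, cj_def, Subgroup.map_iSup]; simp only [← cj_def, cj_cj]
  have nS : ∀ K, S ≤ N(M K) := fun K g hg => mem_norm_of_cj_le (cM g K ▸ iSup_le fun a =>
    lM (mul_mem hg a.2))
  have qM : ∀ K, ¬ K ≤ L → Q ≤ M K := fun K e =>
    (h.d2 (nS K)).resolve_right fun k => e ((l1 K).trans k)
  obtain ⟨K, hK, kL⟩ : ∃ K, Comp K ⊤ ∧ ¬ K ≤ L := by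
    by_contra! k
    exact h.nl (hF.trans (sup_le (Lay_le_iff.2 k)
      ((h.d2 ((Fit_normal _).norms le_top)).resolve_left hQ)))
  have zM : ¬ Q ≤ C(M K) := fun e => hQ ((le_inf (qM K kL) e).trans ((center_le_Fit _).trans
    ((Fit_le_Fit (nL hK)).trans (Fit_le_Fit Lay_normal))))
  have or1 : ∀ J, Comp J ⊤ → ¬ J ≤ C(M K) → ∃ s ∈ S, J = cj s K := fun J hJ e => by
    by_contra! k
    exact e (cents_symm (iSup_le fun s => (cK hK s).cents hJ (k s s.2).symm))
  have orb : ∀ J, Comp J ⊤ → ¬ J ≤ L → ∃ s ∈ S, J = cj s K := fun J hJ e => or1 J hJ fun k =>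
    zM ((qM J e).trans (iSup_le fun s => cj_le_of_mem_norm (norms_cent (nS K) s.2) k))
  have nM : M K ⊴ ⊤ := ⟨le_top, gen _ (norms_of_le (qM K kL)) fun l hl => mem_norm_of_cj_le
    (cM l K ▸ iSup_le fun s => by
      obtain ⟨s', a, b⟩ := orb _ (cK hK (l * s)) fun e => kL (by
        rwa [cj_le_iff, cj_of_mem (inv_mem (mul_mem hl (h.sl s.2)))] at e)
      exact b ▸ lM a)⟩
  have eY : normalClosure Q = M K := by
    haveI := nM.normal
    refine le_antisymm (normalClosure_le_normal (qM K kL)) (iSup_le fun s =>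
      cj_le_of_mem_norm (le_normalizer_of_normal (mem_top _)) ?_)
    exact (hK.le_or_cents le_top le_normalizer_of_normal).resolve_right fun e => zM (cents_symm
      ((iSup_le fun s => cj_le_of_mem_norm (norms_cent le_normalizer_of_normal (mem_top _)) e).trans
      (cent_mono le_normalClosure)))
  rw [eY]
  refine ⟨by_contra fun k => ?_, iSup_le fun s => ((cK hK s).mono (lM s.2) le_top).le_Lay,
    fun J J' a b => ?_⟩
  · have pM : PiG {p}ᶜ (M K) := PiN.of_not_dvd k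
    have ex := fun t => inv_syl_exists t (nS K) (pM.coprime' h.syl.pi) (Or.inl h.syl.pi.sol)
    obtain ⟨t, T, hT, nT, qT⟩ : ∃ t T, Syl t T (M K) ∧ S ≤ N(T) ∧ Q ≤ T := by
      by_contra! k
      exact kL ((l1 K).trans (le_of_exists_syl fun t _ _ =>
        let ⟨T, a, b⟩ := ex t
        ⟨T, a, (h.d2 b).resolve_left (k t T a b)⟩))
    have e := (h.tg hT.pi.nil (pM.of_le hT.le) nT qT).1
    have i : PiN {t} (C(A).relIndex (M K)) := fun r hr hd => by_contra fun k => by
      obtain ⟨R, a, b⟩ := ex r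
      exact a.not_dvd_relIndex hr ((le_inf a.le ((h.d2 b).resolve_left fun e => h.nl (eq_bot_mono
        (le_inf qT e) (hT.pi.inf_eq_bot (a.pi.sing_ne k)) ▸ bot_le))).trans (h.cen (nS K) pM)) hd
    have e2 : ⁅M K, A⁆ = Q := le_antisymm (commg_le_iff.2 fun m hm a ha => by
      obtain ⟨x, hx, y, hy, rfl⟩ := H2.exists_mul_of_coprime_relIndex (hT.idx.coprime' i) hm
      rw [mul_assoc x, ← mem_cent.1 hy.1 a ha, show x * (a * y) * (x * y)⁻¹ = x * a * x⁻¹ by group]
      exact e ▸ comm_mem hx.1 ha) (e ▸ commutator_mono hT.le le_rfl)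
    exact hQ ((le_Fit ⟨qM K kL, e2 ▸ commg_norml _ _⟩ (hT.pi.of_le qT).nil).trans (Fit_le_Fit nM))
  · obtain ⟨s, hs, rfl⟩ := or1 J (a.of_normal nM) fun e =>
      H1.Quasisimple.not_le_centralizer a.qs (e.trans (cent_mono a.le))
    obtain ⟨s', hs', rfl⟩ := or1 J' (b.of_normal nM) fun e =>
      H1.Quasisimple.not_le_centralizer b.qs (e.trans (cent_mono b.le))
    exact ⟨s' * s⁻¹, mul_mem hs' (inv_mem hs), by rw [cj_cj, inv_mul_cancel_right]⟩

theorem _root_.H28.S.IP.map (h : IP p S P Q L A) {G' : Type u} [Group G'] [Finite G'] {f : G →* G'}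
    (hf : Function.Surjective f) (hk : f.ker ≤ A) :
    IP p (S.map f) (P.map f) (Q.map f) (L.map f) (A.map f) where
  pr := h.pr
  syl := map_top_of_surjective f hf ▸ h.syl.map f
  sl := map_mono h.sl
  key H X a b c := by
    rw [← map_comap_eq_self_of_surjective hf H, map_le_iff_le_comap]
    exact h.key _ _ (map_le_iff_le_comap.1 a) (le_trans (inf_le_inf_left _ (le_comap_map f L))
      (comap_inf H _ f ▸ comap_mono b)) fun e => map_le_iff_le_comap.1 (c (map_le_iff_le_comap.2 e))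
  na := ⟨map_mono h.na.le, (map_mono h.na.norm).trans (le_normalizer_map f)⟩
  pa := h.pa.dvd (card_map_dvd _ f)
  np e := h.np (by
    rw [map_le_iff_le_comap, comap_normalizer_eq_of_surjective _ hf, comap_map_eq_self hk] at e
    exact e)
  nq := (map_mono h.nq).trans (le_normalizer_map f)
  qs := by rw [← Subgroup.map_sup, h.qs]
  res K a b := map_le_iff_le_comap.2 (h.res _ (by
      rwa [← comap_normalizer_eq_of_surjective _ hf, ← map_le_iff_le_comap]) (by
      rw [map_le_iff_le_comap, ← comap_sup_eq _ _ _ hf, comap_map_eq_self (hk.trans h.as)] at b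
      exact b))

theorem _root_.H28.S.ip_of [Fact p.Prime] (S : Sylow p G) (hSP : (S : Subgroup G) ≤ P)
    (hL : L = N(S) ⊔ ⨆ P' : {P' : Subgroup G // (S : Subgroup G) ≤ P' ∧ IsPMinimal p ↥P' ∧ P' ≠ P},
      (P' : Subgroup G)) (hi : ¬ pCoreOf p L ≤ pCoreOf p P) :
    IP p S P (pResidualOf p P) L (pCoreOf p L) := by
  have hS := H28.isSylowIn_top S
  have sl : (S : Subgroup G) ≤ L := hL ▸ le_sup_of_le_left le_normalizer
  refine ⟨Fact.out, syl_sylow_top S, sl, fun H X => ?_, ⟨H28.pCoreOf_le p L,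
    H28.le_normalizer_pCoreOf p L⟩, pG_iff.2 (H28.isPGroup_pCoreOf p L), fun e => hi (H28.le_pCoreOf
      (H28.isPGroup_pCoreOf p L) ((hS.mono sl le_top).pCoreOf_le.trans hSP) e),
    hSP.trans (H28.le_normalizer_pResidualOf p P), (hS.mono hSP le_top).pResidualOf_sup,
    fun K a b => (H28.pResidualOf_mono (b.trans (sup_comm _ _).le)).trans
      (H28.pResidualOf_sup_le S.isPGroup' a)⟩
  induction H using WellFoundedLT.induction with
  | ind H ih =>
  intro h a b
  by_cases hn : H ≤ N(S)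
  · exact (le_inf le_rfl (hL ▸ le_sup_of_le_left hn)).trans a
  have h1 : sSup {X | (S : Subgroup G) ≤ X ∧ X < H} ≤ H := sSup_le fun X hX => hX.2.le
  rcases h1.eq_or_lt with e | e
  · exact e.ge.trans (sSup_le fun X hX => ih X hX.2 hX.1 ((inf_le_inf_right _ hX.2.le).trans a)
      fun k => b (k.trans hX.2.le))
  have h2 : (S : Subgroup G) < H := lt_of_le_of_ne h fun e => hn (e ▸ le_normalizer)
  have h3 : IsPMinimal p H := H28.isPMinimal_of_uniqMax (M := sSup {X | (S : Subgroup G) ≤ X ∧ X < H})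
    (hS.mono h le_top) hn ⟨le_sSup ⟨le_rfl, h2⟩, e, fun X a b => le_sSup ⟨a, b⟩⟩
  by_cases k : H = P
  · exact k ▸ b k.ge
  · exact (le_inf le_rfl (hL ▸ le_sup_of_le_right (le_iSup_of_le (⟨H, h, h3, k⟩ : {P' : Subgroup G //
      (S : Subgroup G) ≤ P' ∧ IsPMinimal p ↥P' ∧ P' ≠ P}) le_rfl))).trans a

theorem _root_.H28.S.IP.fin [Fact p.Prime] (h : IP p S P (pResidualOf p P) L (pCoreOf p L))
    {Y : Subgroup G} (hY : Y = normalClosure (pResidualOf p P)) :
    pResidualOf p P ≤ (generalizedFittingSubgroup (G ⧸ pCore p G)).comap (QuotientGroup.mk' _) ∧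
    ((pResidualOf p P = Y ∧ ∃ t : ℕ, t.Prime ∧ t ≠ p ∧ IsPGroup t (Y ⧸ pCore p Y) ∧
      ∃ _ : Group.IsNilpotent (Y ⧸ pCore p Y), Group.nilpotencyClass (Y ⧸ pCore p Y) ≤ 2) ∨
    (p ∣ Nat.card (Y ⧸ pCore p Y) ∧ layer (Y ⧸ pCore p Y) = ⊤ ∧
      ∀ K₁ K₂ : Subgroup (Y ⧸ pCore p Y), IsComponent K₁ → IsComponent K₂ → ∃ s ∈ S,
        (K₂.comap (QuotientGroup.mk' (pCore p Y))).map Y.subtype =
          cj s ((K₁.comap (QuotientGroup.mk' (pCore p Y))).map Y.subtype))) := by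
  set f := QuotientGroup.mk' (pCore p G)
  have hf : Function.Surjective f := QuotientGroup.mk'_surjective _
  have kf : f.ker = pCore p G := QuotientGroup.ker_mk' _
  have oS : pCore p G ≤ S := h.syl.le_of_norm' le_top (pG_iff.2 (H28.isPGroup_pCore p G))
    le_normalizer_of_normal
  haveI : Y.Normal := hY ▸ normalClosure_normal
  obtain ⟨a, b⟩ := (h.map hf (kf.le.trans (H28.le_pCoreOf (H28.isPGroup_pCore p G) (oS.trans h.sl)
    le_normalizer_of_normal))).main ((Oc_top_p h.pr).trans (H28.pCore_quotient_pCore p G))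
  have eY : normalClosure ((pResidualOf p P).map f) = Y.map f := by
    rw [hY, map_normalClosure _ _ hf]; rfl
  have oY : pCoreOf p Y = Y ⊓ pCore p G := by
    rw [H28.pCoreOf_eq_inf_of_normal le_top le_normalizer_of_normal, H28.pCoreOf_top]
  have kφ : pCore p Y = (f.subgroupMap Y).ker := by
    rw [ker_subgroupMap, kf, ← H28.pCoreOf_subgroupOf, oY, inf_subgroupOf_left]
  let e := (QuotientGroup.quotientMulEquivOfEq kφ).trans
    (QuotientGroup.quotientKerEquivOfSurjective _ (f.subgroupMap_surjective Y))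
  refine ⟨map_le_iff_le_comap.1 a, b.imp (fun ⟨c, t, ht, tp, d, k⟩ => ?_) fun ⟨c, d, k⟩ => ?_⟩
  · rw [normalClosure_eq_self] at eY
    refine ⟨le_antisymm (hY ▸ le_normalClosure) ?_, t, ht, tp, (eY ▸ d).isPGroup.of_equiv e.symm, ?_⟩
    · have n : pResidualOf p P ⊔ pCore p G ≤ N(pResidualOf p P) :=
        sup_le le_normalizer (oS.trans h.nq)
      have l : Y ≤ pResidualOf p P ⊔ pCore p G := by
        rw [← kf, ← comap_map_eq, eY]; exact le_comap_map f Y
      haveI : (pResidualOf p Y).Normal := NormalIn.normal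
        ⟨le_top, H28.le_normalizer_pResidualOf' le_normalizer_of_normal⟩
      refine hY.le.trans ((normalClosure_le_normal (N := pResidualOf p Y) ?_).trans
        ((H28.pResidualOf_mono (l.trans (sup_comm _ _).le)).trans (H28.pResidualOf_sup_le
        (H28.isPGroup_pCore p G) (oS.trans h.nq))))
      rw [← H28.pResidualOf_pResidualOf]
      exact H28.pResidualOf_mono (hY ▸ le_normalClosure)
    · rw [eY] at d k
      haveI := d.nil
      haveI := nilpotent_of_mulEquiv e.symm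
      refine ⟨this, (Group.nilpotencyClass_le_of_surjective e.symm.toMonoidHom e.symm.surjective).trans
        (Subgroup.lowerCentralSeries_eq_bot_iff_nilpotencyClass_le.1 ?_)⟩
      rw [← map_eq_bot_iff_of_injective _ (Y.map f).subtype_injective, map_lowerCentralSeries,
        H28.map_subtype_top]
      exact commg_eq_bot.2 k
  · rw [eY] at c d k
    refine ⟨Nat.card_congr e.toEquiv ▸ c, ?_, fun K₁ K₂ k1 k2 => ?_⟩
    · rw [← H1.map_layer_equiv e.symm, (map_subtype_le_map_subtype.1 ((H28.map_subtype_top _).le.trans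
        d)).antisymm' le_top, map_top_of_surjective _ e.symm.surjective]
    have m : ∀ K : Subgroup (Y ⧸ pCore p Y), ((K.comap (QuotientGroup.mk' _)).map Y.subtype).map f =
        (K.map e).map (Y.map f).subtype := fun K => by
      conv_rhs => rw [← map_comap_eq_self_of_surjective (QuotientGroup.mk'_surjective _) K]
      simp only [map_map]
      rfl
    obtain ⟨_, ⟨s, hs, rfl⟩, e'⟩ := k _ _ (H1.isComponent_iff_map_subtype.1
      ((H1.isComponent_map_equiv_iff e).2 k1)) (H1.isComponent_iff_map_subtype.1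
      ((H1.isComponent_map_equiv_iff e).2 k2))
    have l : ∀ K : Subgroup (Y ⧸ pCore p Y), pCore p G ⊓ Y ≤
        (K.comap (QuotientGroup.mk' _)).map Y.subtype := fun K =>
      ((inf_comm _ _).trans oY.symm).le.trans (map_mono (QuotientGroup.le_comap_mk' _ _))
    have r : ∀ X ≤ Y, pCore p G ⊓ Y ≤ X → (X.map f).comap f ⊓ Y = X := fun X a b => by
      rw [comap_map_eq, kf, sup_comm, sup_inf_modr le_normalizer_of_normal a, sup_eq_right.2 b]
    refine ⟨s, hs, ?_⟩
    rw [← m, ← m, cj_def, ← H28.map_cj] at e'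
    rw [← r _ (map_subtype_le _) (l K₂), e', ← cj_def, r _ (cj_le_of_mem_norm (le_normalizer_of_normal
      (mem_top s)) (map_subtype_le _)) (le_cj_iff.2 ((cj_of_mem_norm (le_normalizer_of_normal
      (mem_top _))).le.trans (l K₁)))]
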