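import Cfsg.Agent.H28.T4c
import Cfsg.Agent.H1.NM2

/-!
Coprime action with nilpotent invariant subgroups of order divisible by `p`.
-/

set_option autoImplicit false
set_option linter.unusedSectionVars false

open Cfsg Subgroup H18 H19 H17.GS H2.GW

namespace H28.K

universe u

variable {G : Type u} [Group G] [Finite G] {p : ℕ} {A K P : Subgroup G}

/-- a normal Sylow `2`-subgroup is detected in the normalizers `N(ZJ(T))` -/
theorem norm_two_of_ZJ [HGold.{u}] [HEL.{u}] (hP : Syl 2 P K)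
    (h : ∀ q, q.Prime → q ≠ 2 → q ∣ #K → ∃ T, Syl q T K ∧ NR q (K ⊓ N(H9.ZJ 0 T))) : K ≤ N(P) := by
  obtain ⟨P, rfl⟩ := hP.exists_sylow
  refine (@normalIn_map_subtype _ _ _ _ (syl_normal_of_ZJ (fun q hq q2 T => ?_) P)).norm
  by_cases d : q ∣ #K
  · obtain ⟨U, hU, n⟩ := h q hq.out q2 d
    obtain ⟨g, hg, e⟩ := hU.sconj (syl_sylow T)
    have : NR q ((cj g _).subgroupOf K) := (n.conj g).subgroupOf K
    rw [cj_inf, cj_norm, cj_of_mem hg, show cj g _ = H9.ZJ 0 (cj g U) from H9.cj_ZJ g U, e, ← H9.map_ZJ_of_injective K.subtype_injective,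
      ← H1.map_subtype_normalizer] at this
    rwa [subgroupOf, comap_map_eq_self_of_injective K.subtype_injective] at this
  · refine (nR_ZJ_iff T).2 fun x hx x1 => (x1 (mem_bot.1 ?_)).elim
    rwa [← eq_bot_of_isPGroup_of_not_dvd (H := ⊤) T.isPGroup' le_top (by rwa [card_top])]

theorem nR_of_nil (hp : p.Prime) (h2 : p ≠ 2) (h : Nil K) : NR p K := by
  haveI := Fact.mk hp
  exact nR_top.1 (nR_of_syl_normal h2 default inferInstance)

theorem inv_nil_sol [HGold.{u}] [HEL.{u}] (hn : A ≤ N(K)) (hc : (#K).Coprime #A) (hp : p.Prime)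
    (hd : p ∣ #K) (h : ∀ H < K, A ≤ N(H) → p ∣ #H → Nil H) : Sol K := by
  obtain ⟨n, e⟩ : ∃ n, #K = n := ⟨_, rfl⟩
  induction n using Nat.strong_induction_on generalizing G p with
  | _ n ih =>
  by_cases hO : ∃ r, Oc {r} K ≠ ⊥
  · obtain ⟨r, R0⟩ := hO
    have hR := Oc_normal {r} K
    have nR := norms_Oc {r} hn
    refine sol_of_quo hR.norm (sol_mono (Oc_pi {r} K).sol inf_le_left) ?_
    by_cases K0 : quo (Oc {r} K) K = ⊥
    · exact K0 ▸ sol_of_nil nil_bot
    have key : ∀ H < quo (Oc {r} K) K, quo _ A ≤ N(H) → p ∣ #(Oc {r} K) * #H → Nil H := fun H a b c =>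
      quo_qpre H ▸ nil_quo (h _ ((qpre_le hR.le a.le).lt_of_ne fun e => a.ne ((quo_qpre H).symm.trans (congrArg _ e)))
        (norms_qpre nR b) (by rwa [card_qpre])) _
    have lt : #(quo (Oc {r} K) K) < n := by
      rw [← e, ← card_mul_relIndex hR.le, card_quo hR.norm]
      exact lt_mul_of_one_lt_left (relIndex_pos _ _) (ne_bot_iff_one_lt_card.1 R0)
    rw [← card_mul_relIndex hR.le, ← card_quo hR.norm] at hd
    rcases (Nat.Prime.dvd_mul hp).1 hd with d | d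
    · obtain ⟨q, hq, dq⟩ := exists_prime_dvd_card K0
      exact ih _ lt (quo_norms hn) (cop_quo hc _) hq dq (fun H a b _ => key H a b (d.mul_right _)) rfl
    · exact ih _ lt (quo_norms hn) (cop_quo hc _) hp d (fun H a b c => key H a b (c.mul_left _)) rfl
  push Not at hO
  by_contra hs
  have sA : Sol A := by
    by_contra k
    exact (Nat.Prime.not_coprime_iff_dvd.2 ⟨2, Nat.prime_two,
      by_contra fun d => hs (Hub0.ft (PiN.of_not_dvd d)),
      by_contra fun d => k (Hub0.ft (PiN.of_not_dvd d))⟩) hc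
  have nn : ∀ q T, PG q T → T ≤ K → K ≤ N(T) → T = ⊥ := fun q T a b c =>
    H19.eq_bot_mono (le_Oc ⟨b, c⟩ a) (hO q)
  have loc : ∀ q e T, q.Prime → e = q ∨ e = 0 → q ∣ #K → Syl q T K → A ≤ N(T) →
      p ∣ #(K ⊓ N(H9.ZJ e T)) → Nil (K ⊓ N(H9.ZJ e T)) := fun q e T hq he d a b c => by
    haveI := Fact.mk hq
    refine h _ (inf_le_left.lt_of_ne fun k => H9.ZJ_ne_bot he a.pi.isPGroup (a.sne_bot hq d)
      (nn q _ (a.pi.of_le (H9.ZJ_le _ _)) ((H9.ZJ_le _ _).trans a.le) (k.ge.trans inf_le_right)))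
      (norms_inf hn (norms_norm (b.trans (H9.normalizer_le_normalizer_ZJ _ _)))) c
  obtain ⟨P, hP, nP⟩ := inv_syl_exists p hn hc (.inl sA)
  refine hP.sne_bot hp hd (nn p P hP.pi hP.le ?_)
  by_cases p2 : p = 2
  · subst p2
    refine norm_two_of_ZJ hP fun q hq q2 d => ?_
    haveI := Fact.mk hq
    obtain ⟨T, hT, nT⟩ := inv_syl_exists q hn hc (.inl sA)
    refine ⟨T, hT, ?_⟩
    by_cases c : 2 ∣ #(K ⊓ N(H9.ZJ 0 T))
    · exact nR_of_nil hq q2 (loc q 0 T hq (.inr rfl) d hT nT c)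
    · exact nR_of_odd q2 c
  have hH := H1.hall_of_zj hp p2 hP (loc p p P hp (.inl rfl) hd hP nP ((hP.sdvd_card hp hd).trans
    (card_dvd (le_inf hP.le (le_normalizer.trans (H9.normalizer_le_normalizer_ZJ _ _))))))
  have hN := Oc_normal {p}ᶜ K
  rw [← hP.sup_compl hH]
  refine sup_le le_normalizer (norms_of_cents (le_of_exists_syl fun q hq d => ?_))
  obtain ⟨Q, hQ, nQ⟩ := inv_syl_exists q (sup_le (hN.norms hP.le) (norms_Oc _ hn))
    (((hH.pi.coprime' hP.pi).mul_right (hc.coprime_dvd_left (card_dvd hN.le))).coprime_dvd_right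
      (card_sup_dvd nP)) (.inl (sol_sup hP.pi.sol sA nP))
  have n1 := le_sup_left.trans nQ
  have l : Q ⊔ P ≤ K := sup_le (hQ.le.trans hN.le) hP.le
  refine ⟨Q, hQ, nil_cents_pi (h _ (l.lt_of_ne fun k => hs (k ▸ sol_sup hQ.pi.sol hP.pi.sol n1))
    (norms_sup (le_sup_right.trans nQ) nP) ((hP.sdvd_card hp hd).trans (card_dvd le_sup_right)))
    le_sup_left le_sup_right (hH.pi.of_le hQ.le) hP.pi.compl_compl⟩

theorem s4241 [HGold.{u}] [HEL.{u}] {X : Type*} [Group X] [Finite X] (φ : X →* MulAut G)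
    (hc : (Nat.card X).Coprime (Nat.card G)) (hp : p.Prime) (hd : p ∣ Nat.card G)
    (h : ∀ H : Subgroup G, H ≠ ⊤ → (∀ a, ∀ x ∈ H, φ a x ∈ H) →
      (∀ K : Subgroup G, H < K → (∀ a, ∀ x ∈ K, φ a x ∈ K) → K = ⊤) → p ∣ #H → Nil H) :
    Group.IsSolvable G := by
  let ψ := φ.range.subtype
  haveI := H2.sdK_top_normal (φ := ψ)
  haveI := inv_nil_sol (K := H2.sdK ψ ⊤) (A := H2.sdA ψ) le_normalizer_of_normal
    (by rw [H2.card_sdK, H2.card_sdA, card_top]
        exact (hc.coprime_dvd_left (card_range_dvd φ)).symm) hp (by rwa [H2.card_sdK, card_top])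
    fun H a b c => by
      obtain ⟨H, -, rfl⟩ := H2.exists_eq_sdK a.le
      have i : ∀ a, ∀ x ∈ H, φ a x ∈ H := fun a => H2.sdA_le_normalizer_iff.1 b ⟨_, a, rfl⟩
      obtain ⟨M, l, m⟩ := Finite.exists_le_maximal
        (p := fun M : Subgroup G => M ≠ ⊤ ∧ ∀ a, ∀ x ∈ M, φ a x ∈ M) (a := H) ⟨fun e => a.ne (e ▸ rfl), i⟩
      rw [H2.card_sdK] at c
      have := nil_mono (h M m.1.1 m.1.2 (fun L k j => by_contra fun t => k.not_ge (m.2 ⟨t, j⟩ k.le))
        (c.trans (card_dvd l))) l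
      exact Group.nilpotent_of_mulEquiv (H2.sdKEquiv ψ H)
  have e' := (H2.sdKEquiv ψ ⊤).symm.trans topEquiv
  exact Group.isSolvable_of_isSolvable_injective (f := e'.symm.toMonoidHom) e'.symm.injective

end H28.K
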