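import Cfsg.Agent.H28.Sylow
import Mathlib.Tactic.Abel
import Mathlib.Tactic.Module
import Mathlib.Tactic.Linarith
import Mathlib.Data.Set.Card
import Mathlib.GroupTheory.Index

/-! Quadratic offenders for groups with a TI Sylow 2-subgroup acting on an abelian 2-group. -/

set_option autoImplicit false
set_option linter.unusedSectionVars false

namespace H28.TI

open Cfsg Subgroup
open scoped Pointwise

local notation:max "#" H:max => Nat.card H

variable {X : Type*} [Group X] [Finite X] (V : Type*) [AddCommGroup V] [Finite V] [DistribMulAction X V]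

/-- faithful action on an abelian 2-group of a group with a non-normal TI Sylow 2-subgroup -/
structure M (T : Subgroup X) : Prop where
  faith : ∀ x : X, (∀ v : V, x • v = v) → x = 1
  two : ∃ k : ℕ, ∀ v : V, 2 ^ k • v = 0
  syl : IsSylowIn 2 T ⊤
  ti : ∀ g, ∀ t ∈ T, t ≠ 1 → g * t * g⁻¹ ∈ T → g ∈ 𝐍 T
  nn : ∃ g, g ∉ 𝐍 T

/-- fixed points of `gAg⁻¹` -/
def Fx (A : Subgroup X) (g : X) : AddSubgroup V where
  carrier := {v | ∀ a ∈ A, (g * a * g⁻¹) • v = v}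
  zero_mem' := fun a _ => smul_zero _
  add_mem' := fun {u v} hu hv a ha => by rw [smul_add, hu a ha, hv a ha]
  neg_mem' := fun {u} hu a ha => by rw [smul_neg, hu a ha]

/-- `[V, x]` -/
def Um (x : X) : AddSubgroup V :=
  (DistribMulAction.toAddMonoidHom V x - AddMonoidHom.id V).range

/-- the stabilizer of a chain `P + U ≥ U ≥ 0` -/
def Stab (P : V → Prop) (U : AddSubgroup V) : Subgroup X where
  carrier := {x | (∀ v : V, P v → x • v - v ∈ U) ∧ ∀ u ∈ U, x • u = u}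
  one_mem' := ⟨fun v _ => by simp, fun u _ => one_smul _ _⟩
  mul_mem' := fun {x y} hx hy => ⟨fun v hv => by
    have : (x * y) • v - v = (y • v - v) + (x • v - v) := by
      rw [← hx.2 _ (hy.1 v hv), mul_smul, smul_sub]; abel
    rw [this]; exact add_mem (hy.1 v hv) (hx.1 v hv), fun u hu => by rw [mul_smul, hy.2 u hu, hx.2 u hu]⟩
  inv_mem' := fun {x} hx => by
    have k : ∀ u ∈ U, x⁻¹ • u = u := fun u hu => by rw [inv_smul_eq_iff, hx.2 u hu]
    refine ⟨fun v hv => ?_, k⟩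
    have : x⁻¹ • v - v = -(x • v - v) := by
      rw [← k _ (hx.1 v hv), smul_sub, inv_smul_smul]; abel
    rw [this]; exact neg_mem (hx.1 v hv)

variable {V} {T A : Subgroup X} {a b c d g h k n t x y : X} {u v w z : V}

theorem mem_Fx : v ∈ Fx V A g ↔ ∀ a ∈ A, (g * a * g⁻¹) • v = v := Iff.rfl

theorem mem_Um : u ∈ Um V x ↔ ∃ v : V, x • v - v = u := Iff.rfl

theorem mem_Fx_mul : v ∈ Fx V A (x * g) ↔ x⁻¹ • v ∈ Fx V A g := by
  simp only [mem_Fx]
  refine forall₂_congr fun a _ => ?_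
  rw [eq_inv_smul_iff, ← mul_smul, ← mul_smul]
  simp [mul_assoc]

theorem card_Fx (A : Subgroup X) (g : X) : #(Fx V A g) = #(Fx V A 1) := by
  refine Nat.card_congr ⟨fun v => ⟨g⁻¹ • v.1, mem_Fx_mul.1 (by simp)⟩,
    fun v => ⟨g • v.1, by simpa using (mem_Fx_mul (g := 1) (x := g) (v := g • v.1)).2 (by simp)⟩,
    fun v => by simp, fun v => by simp⟩

theorem card_sup_inf (H K : AddSubgroup V) : #↥(H ⊔ K) * #↥(H ⊓ K) = #H * #K := by
  have k : ∀ A B : AddSubgroup V, A ≤ B → #A * A.relIndex B = #B := fun A B h => by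
    rw [← Nat.card_congr (AddSubgroup.addSubgroupOfEquivOfLe h).toEquiv]
    exact AddSubgroup.card_mul_index _
  rw [← k K _ le_sup_right, ← k _ H inf_le_left, AddSubgroup.relIndex_sup_right, AddSubgroup.inf_relIndex_left]
  ring

theorem pow_smul_eq (h : x • (x • v - v) = x • v - v) (m : ℕ) : x ^ m • v = v + m • (x • v - v) := by
  induction m with
  | zero => simp
  | succ m ih => rw [pow_succ', mul_smul, ih, smul_add, smul_comm x m, h, succ_nsmul]; abel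

namespace M
variable (H : M V T)
include H

theorem omega (hx : ∀ v : V, 2 • v = 0 → x • v = v) : ∃ k, x ^ 2 ^ k = 1 := by
  have key : ∀ i : ℕ, ∀ v : V, 2 ^ (i + 1) • v = 0 → x ^ 2 ^ i • v = v := fun i => by
    induction i with
    | zero => simpa using hx
    | succ i ih =>
      intro v hv
      have h1 : x ^ 2 ^ i • (2 • v) = 2 • v := ih _ (by rw [← mul_smul, ← pow_succ]; exact hv)
      have h2 : 2 • (x ^ 2 ^ i • v - v) = 0 := by rw [smul_sub, smul_comm, h1, sub_self]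
      have h3 := pow_smul_eq (x := x ^ 2 ^ i) (v := v) (ih _ (by rw [pow_succ, mul_smul, h2, smul_zero])) 2
      rw [pow_succ, pow_mul, h3, h2, add_zero]
  obtain ⟨k, hk⟩ := H.two
  exact ⟨k, H.faith _ fun v => key k v (by rw [pow_succ', mul_smul, hk, smul_zero])⟩

theorem pg_Stab (U : AddSubgroup V) : IsPGroup 2 (Stab V (2 • · = 0) U : Subgroup X) := by
  refine isPGroup_iff_mem.2 fun x hx => ?_
  obtain ⟨k, hk⟩ := H.omega (x := x ^ 2) fun v hv => by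
    rw [pow_smul_eq (hx.2 _ (hx.1 v hv)), smul_sub, smul_comm, hv, smul_zero, sub_zero, add_zero]
  exact ⟨k + 1, by rw [pow_succ', pow_mul, hk]⟩

theorem opp_symm (h1 : g⁻¹ * h ∉ 𝐍 T) : h⁻¹ * g ∉ 𝐍 T := fun k => h1 (by simpa using inv_mem k)

theorem eqv (h1 : g⁻¹ * x * g ∈ T) (h2 : h⁻¹ * x * h ∈ T) (x1 : x ≠ 1) : g⁻¹ * h ∈ 𝐍 T :=
  H.ti _ _ h2 (fun e => x1 (by simpa [mul_assoc, mul_eq_one_iff_eq_inv] using e)) (by simpa [mul_assoc] using h1)

theorem no2 {P : Subgroup X} (hP : IsPGroup 2 P) (ha : a ∈ P) (hb : b ∈ P) (h1 : g⁻¹ * a * g ∈ T)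
    (h2 : h⁻¹ * b * h ∈ T) (a1 : a ≠ 1) (b1 : b ≠ 1) : g⁻¹ * h ∈ 𝐍 T := by
  obtain ⟨k, -, hk⟩ := H.syl.exists_le_conj hP le_top
  have := mul_mem (H.eqv h1 (mem_cj.1 (hk ha)) a1) (H.eqv (mem_cj.1 (hk hb)) h2 b1)
  simpa [mul_assoc] using this

theorem semi (h1 : g⁻¹ * x * g ∈ T) (x1 : x ≠ 1) (h2 : g⁻¹ * h ∉ 𝐍 T) : h⁻¹ * (x * h) ∉ 𝐍 T := fun k => by
  obtain ⟨m, hm⟩ := isPGroup_iff_mem.1 H.syl.isPGroup _ h1
  have : (h⁻¹ * (x * h)) ^ 2 ^ m = 1 := by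
    have e : h⁻¹ * (x * h) = (h⁻¹ * g) * (g⁻¹ * x * g) * (h⁻¹ * g)⁻¹ := by group
    rw [e, conj_pow, hm]; simp
  exact h2 (H.eqv h1 (by
    simpa [mul_assoc] using H.syl.le_of_le_normalizer (isPGroup_zpowers this) le_top (zpowers_le.2 k)
      (mem_zpowers _)) x1)

/-- no nontrivial element of `T` centralizes `Ω₁(V)` -/
theorem om (ht : t ∈ T) (h1 : ∀ v : V, 2 • v = 0 → t • v = v) : t = 1 := by
  by_contra t1
  obtain ⟨g, hg⟩ := H.nn
  refine hg (by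
    simpa using H.no2 (H.pg_Stab ⊥) (a := t) (b := g * t * g⁻¹) (g := 1) (h := g)
      ⟨fun v hv => by simp [h1 v hv], fun u hu => by simp [AddSubgroup.mem_bot.1 hu]⟩
      ⟨fun v hv => by
        rw [mul_smul, mul_smul, h1 _ (by rw [smul_comm, hv, smul_zero])]; simp,
        fun u hu => by simp [AddSubgroup.mem_bot.1 hu]⟩ (by simpa using ht) (by simpa [mul_assoc] using ht) t1
      (by simpa using t1))

/-- an involution with cyclic commutator -/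
theorem cyc (hd : d ∈ T) (d1 : d ≠ 1) (d2 : d * d = 1)
    (hz : ∀ v : V, 2 • (d • v - v) = 0 → d • v - v = 0 ∨ d • v - v = z) :
    (∀ v : V, d • v - v = 0 ∨ d • v - v = z) ∨ ∃ y : V, d • y = y ∧ 2 • y = z := by
  have dd : ∀ v : V, d • d • v = v := fun v => by rw [← mul_smul, d2, one_smul]
  by_contra hc
  obtain ⟨h1, h2⟩ := not_or.1 hc
  obtain ⟨v, hv⟩ := not_forall.1 h1
  obtain ⟨k, hk⟩ := H.two
  have ex : ∃ i : ℕ, 2 ^ i • (2 • (d • v - v)) = 0 := ⟨k, hk _⟩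
  classical
  have i0 : Nat.find ex ≠ 0 := fun e => by
    have := Nat.find_spec ex
    rw [e] at this
    exact hv (hz v (by simpa using this))
  obtain ⟨i, hi⟩ := Nat.exists_eq_succ_of_ne_zero i0
  have s1 := Nat.find_spec ex
  have s2 := Nat.find_min ex (m := i) (by omega)
  rw [hi] at s1
  set a0 := 2 ^ i • (d • v - v) with ha0
  have e : d • (2 ^ i • 2 • v) - 2 ^ i • 2 • v = 2 • a0 := by
    rw [smul_comm d, smul_comm d, ha0]; generalize d • v = w; module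
  have s3 : 2 • 2 • a0 = 0 := by
    rw [← s1, ha0, Nat.succ_eq_add_one, pow_succ]; generalize d • v = w; module
  have z2 : 2 • a0 = z := by
    refine ((hz (2 ^ i • 2 • v) (e ▸ s3)).resolve_left ?_) ▸ e.symm
    rw [e, ha0]; intro k; exact s2 (by rw [← k, smul_comm])
  have zz : 2 • z = 0 := z2 ▸ s3
  have dz : d • z = z := by
    have : d • z = -z := by rw [← z2, ← e, smul_sub, dd]; abel
    rw [this, neg_eq_iff_add_eq_zero, ← two_nsmul, zz]
  have fix : ∀ g : X, d • g • z = g • z := fun g => by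
    have g2 : 2 • g • z = 0 := by rw [smul_comm, zz, smul_zero]
    refine sub_eq_zero.1 ((hz (g • z) (by rw [smul_sub, smul_comm, g2]; simp)).resolve_right fun k => h2
      ⟨g • a0 + d • g • a0, by rw [smul_add, dd, add_comm], ?_⟩)
    rw [smul_add, smul_comm 2 d, smul_comm 2 g, z2, ← sub_eq_zero]
    calc _ = g • z + d • g • z - (d • g • z - g • z) := by rw [k]
      _ = _ := by rw [← g2]; abel
  obtain ⟨g, hg⟩ := H.nn
  have om : ∀ v : V, 2 • v = 0 → d • v - v = 0 ∨ d • v - v = z := fun v hv =>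
    hz v (by rw [smul_sub, smul_comm, hv]; simp)
  have m : ∀ x : X, x • z ∈ AddSubgroup.closure {z, g • z} → 
      x * d * x⁻¹ ∈ Stab V (2 • · = 0) (AddSubgroup.closure {z, g • z}) :=
    fun x hx => ⟨fun v hv => by
      have : (x * d * x⁻¹) • v - v = x • (d • x⁻¹ • v - x⁻¹ • v) := by simp [mul_smul, smul_sub]
      rw [this]
      rcases om (x⁻¹ • v) (by rw [smul_comm, hv, smul_zero]) with e | e <;> rw [e]
      · simp
      · exact hx, fun u hu => by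
      induction hu using AddSubgroup.closure_induction with
      | mem u hu =>
        rcases hu with rfl | rfl
        · rw [mul_smul, mul_smul, fix, smul_inv_smul]
        · rw [mul_smul, mul_smul, ← mul_smul x⁻¹, fix, mul_smul, smul_inv_smul]
      | zero => simp
      | add u w _ _ h1 h2 => rw [smul_add, h1, h2]
      | neg u _ h1 => rw [smul_neg, h1]⟩
  exact hg (by
    simpa using H.no2 (H.pg_Stab _) (g := 1) (h := g) (m 1 (AddSubgroup.subset_closure (by simp)))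
      (m g (AddSubgroup.subset_closure (by simp))) (by simpa using hd) (by simpa [mul_assoc] using hd)
      (by simpa using d1) (by simpa using d1))

end M

variable (V) in
/-- `A` is a quadratic offender -/
structure Off (T A : Subgroup X) : Prop extends M V T where
  le : A ≤ T
  ne : A ≠ ⊥
  quad : ∀ a ∈ A, ∀ v : V, a • v - v ∈ Fx V A 1
  off : #V ≤ #A * #(Fx V A 1)

theorem eq_of_le_card {U W : AddSubgroup V} (h : U ≤ W) (k : #W ≤ #U) : U = W :=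
  AddSubgroup.eq_of_le_of_card_ge h k

theorem inf_le_conj (ha : a ∈ A) : Fx V A g ⊓ Fx V A h ≤ Fx V A (h * a * h⁻¹ * g) := fun v hv => by
  rw [mem_Fx_mul, show (h * a * h⁻¹)⁻¹ = h * a⁻¹ * h⁻¹ by group, hv.2 _ (inv_mem ha)]
  exact hv.1

namespace Off
variable (H : Off V T A)
include H

theorem quad' (ha : a ∈ A) (g : X) (v : V) : (g * a * g⁻¹) • v - v ∈ Fx V A g := by
  have := H.quad a ha (g⁻¹ • v)
  rw [← mul_one g, mem_Fx_mul, mul_one]
  simpa [smul_sub, mul_smul] using this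

theorem mT (ha : a ∈ A) (g : X) : g⁻¹ * (g * a * g⁻¹) * g ∈ T := by simpa [mul_assoc] using H.le ha

theorem ex : ∃ a ∈ A, a ≠ 1 := (bot_or_exists_ne_one A).resolve_left H.ne

theorem not_le (h1 : g⁻¹ * h ∉ 𝐍 T) : ¬ Fx V A g ≤ Fx V A h := fun k => by
  have e := eq_of_le_card k (by rw [card_Fx, card_Fx A g])
  obtain ⟨a, ha, a1⟩ := H.ex
  exact h1 (H.no2 (H.pg_Stab (Fx V A g)) (a := g * a * g⁻¹) (b := h * a * h⁻¹)
    ⟨fun v _ => H.quad' ha g v, fun u hu => hu a ha⟩ ⟨fun v _ => e ▸ H.quad' ha h v, fun u hu => k hu a ha⟩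
    (H.mT ha g) (H.mT ha h) (by simpa using a1) (by simpa using a1))

theorem opp_conj (h1 : g⁻¹ * h ∉ 𝐍 T) (ha : a ∈ A) (a1 : a ≠ 1) : g⁻¹ * (h * a * h⁻¹ * g) ∉ 𝐍 T :=
  H.semi (H.mT ha h) (by simpa using a1) (H.opp_symm h1)

theorem m1_of (h1 : g⁻¹ * h ∉ 𝐍 T)
    (hm : ∀ k, g⁻¹ * k ∉ 𝐍 T → #↥(Fx V A g ⊓ Fx V A k) ≤ #↥(Fx V A g ⊓ Fx V A h))
    (hw : w ∈ Fx V A g) (ha : a ∈ A) (a1 : a ≠ 1) (k : (h * a * h⁻¹) • w ∈ Fx V A g) : w ∈ Fx V A h := by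
  have e := eq_of_le_card (le_inf inf_le_left (inf_le_conj (V := V) (g := g) (h := h) (inv_mem ha)))
    (hm _ (H.opp_conj h1 (inv_mem ha) (by simpa using a1)))
  refine (e.ge ⟨hw, mem_Fx_mul.2 ?_⟩).2
  rwa [show (h * a⁻¹ * h⁻¹)⁻¹ = h * a * h⁻¹ by group]

theorem cnt (h1 : g⁻¹ * h ∉ 𝐍 T)
    (hm : ∀ k, g⁻¹ * k ∉ 𝐍 T → #↥(Fx V A g ⊓ Fx V A k) ≤ #↥(Fx V A g ⊓ Fx V A h)) :
    #A * #↥(Fx V A g ⊓ Fx V A h) ≤ #(Fx V A 1) := by
  obtain ⟨w, hw, hw'⟩ := SetLike.not_le_iff_exists.1 (H.not_le h1)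
  rw [← Nat.card_prod, ← card_Fx A h]
  refine Nat.card_le_card_of_injective (fun p => ⟨(h * p.1 * h⁻¹) • w - w + p.2,
    add_mem (H.quad' p.1.2 h w) p.2.2.2⟩) ?_
  rintro ⟨⟨a, ha⟩, c, hc⟩ ⟨⟨b, hb⟩, c', hc'⟩ e
  simp only [Subtype.mk.injEq] at e
  have : b⁻¹ * a = 1 := by_contra fun k => hw' (H.m1_of h1 hm hw (mul_mem (inv_mem hb) ha) k (by
    have e1 : (h * a * h⁻¹) • w = (h * b * h⁻¹) • (w + (c' - c)) := by
      rw [smul_add, (sub_mem hc'.2 hc.2 : c' - c ∈ Fx V A h) b hb, ← sub_eq_zero, ← sub_eq_zero.2 e]; abel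
    rw [show h * (b⁻¹ * a) * h⁻¹ = (h * b * h⁻¹)⁻¹ * (h * a * h⁻¹) by group, mul_smul, e1, inv_smul_smul]
    exact add_mem hw (sub_mem hc'.1 hc.1)))
  obtain rfl : b = a := inv_mul_eq_one.1 this
  simp [add_left_cancel e]

theorem num (h1 : g⁻¹ * h ∉ 𝐍 T) : #V = #A * #(Fx V A 1) ∧
    #A * #↥(Fx V A g ⊓ Fx V A h) = #(Fx V A 1) ∧ Fx V A g ⊔ Fx V A h = ⊤ := by
  haveI : Nonempty {p : X × X // p.1⁻¹ * p.2 ∉ 𝐍 T} := ⟨⟨(g, h), h1⟩⟩
  obtain ⟨⟨⟨g0, h0⟩, k0⟩, hm⟩ := Finite.exists_max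
    fun p : {p : X × X // p.1⁻¹ * p.2 ∉ 𝐍 T} => #↥(Fx V A p.1.1 ⊓ Fx V A p.1.2)
  have c1 := H.cnt k0 fun k hk => hm ⟨(g0, k), hk⟩
  have c2 := hm ⟨(g, h), h1⟩
  have c3 := card_sup_inf (Fx V A g) (Fx V A h)
  have c4 := H.off
  have c5 : #↥(Fx V A g ⊔ Fx V A h) ≤ #V := AddSubgroup.card_le_card_addGroup _
  rw [card_Fx, card_Fx A h] at c3
  have p1 : 0 < #(Fx V A 1) := Nat.card_pos
  have p2 : 0 < #↥(Fx V A g ⊓ Fx V A h) := Nat.card_pos
  simp only at c1 c2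
  rw [← AddSubgroup.card_eq_iff_eq_top]
  generalize #(Fx V A 1) = f at *
  generalize #↥(Fx V A g ⊓ Fx V A h) = m at *
  generalize #↥(Fx V A g ⊔ Fx V A h) = s at *
  generalize #↥(Fx V A g0 ⊓ Fx V A h0) = m0 at *
  generalize #A = α at *
  generalize #V = n at *
  have e1 : α * m ≤ f := (Nat.mul_le_mul_left _ c2).trans c1
  have e2 : f * f ≤ f * (α * m) := by nlinarith
  have e3 : α * m = f := le_antisymm e1 (Nat.le_of_mul_le_mul_left e2 p1)
  have e4 : s = α * f := Nat.eq_of_mul_eq_mul_right p2 (by rw [c3, ← e3]; ring)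
  omega

theorem cardV : #V = #A * #(Fx V A 1) := let ⟨g, hg⟩ := H.nn; (H.num (g := 1) (h := g) (by simpa using hg)).1

theorem two_le : 2 ≤ #A := (one_lt_card_iff_ne_bot A).2 H.ne

theorem card_inf (h1 : g⁻¹ * h ∉ 𝐍 T) (h2 : x⁻¹ * y ∉ 𝐍 T) :
    #↥(Fx V A g ⊓ Fx V A h) = #↥(Fx V A x ⊓ Fx V A y) :=
  Nat.eq_of_mul_eq_mul_left Nat.card_pos ((H.num h1).2.1.trans (H.num h2).2.1.symm)

theorem m1 (h1 : g⁻¹ * h ∉ 𝐍 T) (hw : w ∈ Fx V A g) (ha : a ∈ A) (a1 : a ≠ 1)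
    (k : (h * a * h⁻¹) • w ∈ Fx V A g) : w ∈ Fx V A h :=
  H.m1_of h1 (fun _ hk => (H.card_inf hk h1).le) hw ha a1 k

theorem dec (h1 : g⁻¹ * h ∉ 𝐍 T) (v : V) : ∃ u ∈ Fx V A g, ∃ w ∈ Fx V A h, u + w = v :=
  AddSubgroup.mem_sup.1 ((H.num h1).2.2.ge trivial)

theorem ex_opp (g : X) : ∃ h, g⁻¹ * h ∉ 𝐍 T := let ⟨x, hx⟩ := H.nn; ⟨g * x, by simpa using hx⟩

/-- commutators avoid opposite fixed point subgroups -/
theorem g4 (h1 : h⁻¹ * g ∉ 𝐍 T) (ha : a ∈ A) (a1 : a ≠ 1) (k : (g * a * g⁻¹) • v - v ∈ Fx V A h) :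
    v ∈ Fx V A g := by
  obtain ⟨w, hw, u, hu, rfl⟩ := H.dec h1 v
  refine add_mem (H.m1 h1 hw ha a1 ?_) hu
  rw [smul_add, hu a ha, add_sub_add_right_eq_sub] at k
  simpa using add_mem k hw

theorem g2 (ha : a ∈ A) (a1 : a ≠ 1) (k : (g * a * g⁻¹) • v = v) : v ∈ Fx V A g :=
  let ⟨_, hh⟩ := H.ex_opp g
  H.g4 (H.opp_symm hh) ha a1 (by rw [k, sub_self]; exact zero_mem _)

theorem sq (ha : a ∈ A) : a * a = 1 := by
  obtain ⟨g, hg⟩ := H.ex_opp 1
  obtain ⟨w, hw, hw'⟩ := SetLike.not_le_iff_exists.1 (H.not_le (H.opp_symm hg))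
  obtain ⟨k, hk⟩ := H.two
  have ex : ∃ i : ℕ, 2 ^ i • w ∈ Fx V A 1 := ⟨k, hk w ▸ zero_mem _⟩
  classical
  obtain ⟨i, hi⟩ := Nat.exists_eq_succ_of_ne_zero (n := Nat.find ex) fun e => by
    have := Nat.find_spec ex
    rw [e] at this
    exact hw' (by simpa using this)
  have s1 := Nat.find_spec ex
  have s2 := Nat.find_min ex (m := i) (by omega)
  rw [hi, Nat.succ_eq_add_one, pow_succ', mul_smul] at s1
  generalize 2 ^ i • w = u at s1 s2
  by_contra k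
  refine s2 (H.g2 (mul_mem ha ha) k ?_)
  have e1 := s1 a ha
  have e2 := H.quad a ha u a ha
  simp only [one_mul, inv_one, mul_one] at e1 e2 ⊢
  rw [smul_comm] at e1
  rw [← pow_two, pow_smul_eq e2, smul_sub, e1, sub_self, add_zero]

theorem two_mem (g : X) (v : V) : 2 • v ∈ Fx V A g := fun a ha => by
  have := pow_smul_eq (H.quad' ha g v a ha) 2
  rw [conj_pow, pow_two, H.sq ha, mul_one, mul_inv_cancel, one_smul, left_eq_add, smul_sub, sub_eq_zero] at this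
  rw [smul_comm, this]

theorem card_Um (ha : a ∈ A) (a1 : a ≠ 1) (g : X) : #(Um V (g * a * g⁻¹)) = #A := by
  have h1 := AddSubgroup.card_mul_index
    (DistribMulAction.toAddMonoidHom V (g * a * g⁻¹) - AddMonoidHom.id V).ker
  have e : (DistribMulAction.toAddMonoidHom V (g * a * g⁻¹) - AddMonoidHom.id V).ker = Fx V A g := by
    ext v
    exact ⟨fun k => H.g2 ha a1 (sub_eq_zero.1 k), fun k => sub_eq_zero.2 (k a ha)⟩
  rw [AddSubgroup.index_ker, e, card_Fx, H.cardV, mul_comm] at h1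
  exact Nat.eq_of_mul_eq_mul_right Nat.card_pos h1

theorem Um_le (ha : a ∈ A) (g : X) : Um V (g * a * g⁻¹) ≤ Fx V A g := by
  rintro _ ⟨v, rfl⟩; exact H.quad' ha g v

theorem Um_zero (h1 : h⁻¹ * g ∉ 𝐍 T) (ha : a ∈ A) (a1 : a ≠ 1) (hu : u ∈ Um V (g * a * g⁻¹))
    (k : u ∈ Fx V A h) : u = 0 := by
  obtain ⟨v, rfl⟩ := hu
  exact sub_eq_zero.2 (H.g4 h1 ha a1 k a ha)

theorem Um_two (ha : a ∈ A) (hu : u ∈ Um V (g * a * g⁻¹)) : 2 • u = 0 := by
  obtain ⟨v, rfl⟩ := mem_Um.1 hu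
  rw [smul_sub, smul_comm, H.two_mem g v a ha, sub_self]

theorem decU (h1 : h⁻¹ * g ∉ 𝐍 T) (ha : a ∈ A) (a1 : a ≠ 1) (v : V) :
    ∃ u ∈ Um V (g * a * g⁻¹), ∃ w ∈ Fx V A h, u + w = v := by
  have c := card_sup_inf (Um V (g * a * g⁻¹)) (Fx V A h)
  rw [(AddSubgroup.eq_bot_iff_forall (Um V (g * a * g⁻¹) ⊓ Fx V A h)).2 fun u hu => H.Um_zero h1 ha a1 hu.1 hu.2,
    AddSubgroup.card_bot, mul_one, H.card_Um ha a1, card_Fx, ← H.cardV, AddSubgroup.card_eq_iff_eq_top] at c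
  exact AddSubgroup.mem_sup.1 (c.ge trivial)

/-- the counting lemma -/
theorem count {I : Type*} [Finite I] (p : I → X) (hp : ∀ i j, i ≠ j → (p i)⁻¹ * p j ∉ 𝐍 T) (W : AddSubgroup V)
    (hW : ∀ i, W ≤ Fx V A (p i)) (D : Set V)
    (hD : ∀ v ∈ D, ∃ g, v ∈ Fx V A g ∧ W ≤ Fx V A g ∧ ∀ i, g⁻¹ * p i ∉ 𝐍 T) {g0 : X} (h0 : W ≤ Fx V A g0)
    (h0' : ∀ i, g0⁻¹ * p i ∉ 𝐍 T) : #I * (#A - 1) * #W + D.ncard ≤ #V := by
  obtain ⟨a, ha, a1⟩ := H.ex
  classical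
  haveI := Fintype.ofFinite I
  let f : (Σ i : I, {u : Um V (p i * a * (p i)⁻¹) // u ≠ 0} × W) ⊕ D → V :=
    Sum.elim (fun s => s.2.1.1.1 + s.2.2.1) Subtype.val
  have k : ∀ i, ∀ u : {u : Um V (p i * a * (p i)⁻¹) // u ≠ 0}, ∀ g, g⁻¹ * p i ∉ 𝐍 T → u.1.1 ∉ Fx V A g :=
    fun i u g hg k => u.2 (Subtype.ext (H.Um_zero hg ha a1 u.1.2 k))
  have k' : ∀ s v, f (.inl s) ≠ f (.inr v) := fun s v e => by
    obtain ⟨g, k1, k2, k3⟩ := hD v.1 v.2
    have e' : s.2.1.1.1 + s.2.2.1 = v.1 := e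
    exact k _ s.2.1 g (k3 _) (by
      have := sub_mem (e' ▸ k1) (k2 s.2.2.2)
      rwa [add_sub_cancel_right] at this)
  have inj : Function.Injective f := by
    rintro (⟨i, u, c⟩ | v) (⟨j, u', c'⟩ | v') e
    · have e0 : u.1.1 + c.1 = u'.1.1 + c'.1 := e
      have e' : u.1.1 = u'.1.1 + (c'.1 - c.1) := by rw [← add_sub_assoc, ← e0]; simp
      obtain rfl : i = j := by_contra fun ij => k _ u _ (hp j i (Ne.symm ij))
        (e' ▸ add_mem (H.Um_le ha _ u'.1.2) (hW j (sub_mem c'.2 c.2)))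
      have : u.1.1 - u'.1.1 = 0 := H.Um_zero (h0' i) ha a1 (sub_mem u.1.2 u'.1.2)
        (by rw [e', add_sub_cancel_left]; exact h0 (sub_mem c'.2 c.2))
      obtain rfl : u = u' := Subtype.ext (Subtype.ext (sub_eq_zero.1 this))
      obtain rfl : c = c' := Subtype.ext (add_left_cancel e0)
      rfl
    · exact (k' _ _ e).elim
    · exact (k' _ _ e.symm).elim
    · exact congrArg _ (Subtype.ext e)
  have := Nat.card_le_card_of_injective f inj
  rw [Nat.card_sum, Nat.card_sigma, Finset.sum_congr rfl (g := fun _ => (#A - 1) * #W) fun i _ => by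
    haveI := Fintype.ofFinite (Um V (p i * a * (p i)⁻¹))
    rw [Nat.card_prod, ← H.card_Um ha a1 (p i), Nat.card_eq_fintype_card,
      Fintype.card_subtype_compl, Fintype.card_subtype_eq, ← Nat.card_eq_fintype_card]] at this
  simpa [mul_assoc] using this

theorem count1 {I : Type*} [Finite I] (p : I → X) (hp : ∀ i j, i ≠ j → (p i)⁻¹ * p j ∉ 𝐍 T) (W : AddSubgroup V)
    (hW : ∀ i, W ≤ Fx V A (p i)) (h0 : W ≤ Fx V A g) (h0' : ∀ i, g⁻¹ * p i ∉ 𝐍 T) :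
    #I * #W ≤ #(Fx V A 1) := by
  have c := H.count p hp W hW (Fx V A g) (fun v hv => ⟨g, hv, h0, h0'⟩) h0 h0'
  rw [← Nat.card_coe_set_eq, SetLike.coe_sort_coe, card_Fx, H.cardV] at c
  obtain ⟨m, hm⟩ : ∃ m, #A = m + 2 := ⟨#A - 2, by have := H.two_le; omega⟩
  rw [hm] at c
  refine Nat.le_of_mul_le_mul_left (c := m + 1) ?_ (by omega)
  simp only [show m + 2 - 1 = m + 1 from rfl] at c
  nlinarith

theorem three (h1 : g⁻¹ * h ∉ 𝐍 T) (k : X) :
    #(Fx V A 1) ≤ #A * #A * #↥(Fx V A g ⊓ Fx V A h ⊓ Fx V A k) := by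
  have c3 := card_sup_inf (Fx V A g ⊓ Fx V A h) (Fx V A k)
  have c5 : #↥(Fx V A g ⊓ Fx V A h ⊔ Fx V A k) ≤ #V := AddSubgroup.card_le_card_addGroup _
  rw [card_Fx, mul_comm _ #(Fx V A 1)] at c3
  rw [H.cardV] at c5
  rw [← (H.num h1).2.1, mul_assoc]
  refine Nat.mul_le_mul_left _ (Nat.le_of_mul_le_mul_left (c := #(Fx V A 1)) ?_ Nat.card_pos)
  rw [← c3, ← mul_assoc, mul_comm _ #A]
  exact Nat.mul_le_mul_right _ c5

theorem max (ht : t ∈ T) (h1 : ∀ v : V, t • v - v ∈ Fx V A 1) (h2 : ∀ u ∈ Fx V A 1, t • u = u) : t ∈ A := by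
  have l : A ≤ T ⊓ Stab V (fun _ => True) (Fx V A 1) := fun a ha =>
    ⟨H.le ha, fun v _ => H.quad a ha v, fun u hu => by simpa using hu a ha⟩
  have e : Fx V (T ⊓ Stab V (fun _ => True) (Fx V A 1)) 1 = Fx V A 1 :=
    le_antisymm (fun v hv a ha => hv a (l ha)) fun v hv a ha => by simpa using ha.2.2 v hv
  have K : Off V T (T ⊓ Stab V (fun _ => True) (Fx V A 1)) :=
    ⟨H.toM, inf_le_left, fun k => H.ne (eq_bot_iff.2 (k ▸ l)), fun a ha v => e.ge (ha.2.1 v trivial),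
      by rw [e]; exact H.off.trans (Nat.mul_le_mul_right _ (card_le_of_le' l))⟩
  have c := K.cardV
  rw [e, H.cardV] at c
  exact (eq_of_le_of_card_le l (Nat.eq_of_mul_eq_mul_right Nat.card_pos c).ge).ge ⟨ht, fun v _ => h1 v, h2⟩

theorem opp_mul (hn : n ∈ 𝐍 T) (ht : t ∈ T) (h1 : h ∉ 𝐍 T) : n⁻¹ * (t * h) ∉ 𝐍 T := fun k =>
  h1 (by simpa using mul_mem (inv_mem (le_normalizer ht)) (mul_mem hn k))

theorem opp_T (hs : x ∈ T) (ht : t ∈ T) (ne : x ≠ t) (h1 : h ∉ 𝐍 T) : (x * h)⁻¹ * (t * h) ∉ 𝐍 T := by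
  have := H.semi (g := 1) (x := x⁻¹ * t) (h := h) (by simpa using mul_mem (inv_mem hs) ht)
    (fun e => ne (inv_mul_eq_one.1 e)) (by simpa using h1)
  simpa [mul_assoc] using this

theorem wc (hn : n ∈ 𝐍 T) : Fx V A n = Fx V A 1 := by
  by_contra ne
  obtain ⟨h, hh⟩ := H.nn
  have m : ∀ p : A × A, p.1 * (n * p.2 * n⁻¹) ∈ T := fun p =>
    mul_mem (H.le p.1.2) (conj_mem_of_mem_normalizer hn (H.le p.2.2))
  have l : ∀ g, Fx V A 1 ⊓ Fx V A h ⊓ Fx V A n ≤ Fx V A g → g ∈ 𝐍 T → ∀ v ∈ Fx V A g, ∃ g, v ∈ Fx V A g ∧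
      Fx V A 1 ⊓ Fx V A h ⊓ Fx V A n ≤ Fx V A g ∧ ∀ p : A × A, g⁻¹ * (p.1 * (n * p.2 * n⁻¹) * h) ∉ 𝐍 T :=
    fun g k1 k2 v hv => ⟨g, hv, k1, fun p => H.opp_mul k2 (m p) hh⟩
  have c := H.count (fun p : A × A => p.1 * (n * p.2 * n⁻¹) * h) (fun p q pq => H.opp_T (m p) (m q) (fun e => ?_) hh)
    (Fx V A 1 ⊓ Fx V A h ⊓ Fx V A n) (fun p v hv => ?_) (Fx V A 1 ∪ Fx V A n)
    (fun v hv => hv.elim (l 1 (inf_le_left.trans inf_le_left) (one_mem _) v) (l n inf_le_right hn v))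
    inf_le_right fun p => H.opp_mul hn (m p) hh
  · have c1 := H.three (g := 1) (h := h) (by simpa using hh) n
    have c2 : #(Fx V A 1) < ((Fx V A 1 : Set V) ∪ Fx V A n).ncard := by
      rw [← SetLike.coe_sort_coe, Nat.card_coe_set_eq]
      refine Set.ncard_lt_ncard (Set.ssubset_iff_subset_ne.2 ⟨Set.subset_union_left, fun e => ne ?_⟩)
      exact eq_of_le_card (fun v hv => (e.ge (Or.inr hv) : v ∈ (Fx V A 1 : Set V))) (card_Fx A n).ge
    obtain ⟨m, hm⟩ : ∃ m, #A = m + 1 := ⟨#A - 1, by have := H.two_le; omega⟩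
    rw [Nat.card_prod, H.cardV, hm, Nat.add_sub_cancel] at c
    rw [hm] at c1
    nlinarith
  · obtain ⟨⟨a, ha⟩, ⟨b, hb⟩⟩ := p
    obtain ⟨⟨a', ha'⟩, ⟨b', hb'⟩⟩ := q
    have e1 : n * (b' * b⁻¹) * n⁻¹ = 1 * (a'⁻¹ * a) * 1⁻¹ := by
      have : a = a' * (n * b' * n⁻¹) * (n * b * n⁻¹)⁻¹ := by
        simp only at e; rw [← e]; group
      rw [this]; group
    by_cases k : b' * b⁻¹ = 1
    · rw [k] at e1
      refine pq ?_
      simp [mul_inv_eq_one.1 k, inv_mul_eq_one.1 (show a'⁻¹ * a = 1 by simpa using e1.symm)]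
    · refine ne (eq_of_le_card (fun v hv => H.g2 (mul_mem hb' (inv_mem hb)) k ?_) (card_Fx A n).le).symm
      rw [e1]; exact hv _ (mul_mem (inv_mem ha') ha)
  · rw [mem_Fx_mul, mul_inv_rev, mul_smul, (inv_smul_eq_iff (a := v) (b := v)).2 (by simpa using (hv.1.1 _ p.1.2).symm),
      inv_smul_eq_iff.2 (hv.2 _ p.2.2).symm]
    exact hv.1.2

theorem Fx_eqv (h1 : g⁻¹ * h ∈ 𝐍 T) : Fx V A h = Fx V A g := by
  ext v
  rw [← mul_inv_cancel_left g h, mem_Fx_mul, H.wc h1, ← mem_Fx_mul, mul_one]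

theorem opp_pt (h1 : g⁻¹ * h ∉ 𝐍 T) (ha : a ∈ A) : g⁻¹ * (g * a * g⁻¹ * h) ∉ 𝐍 T := by
  simpa [mul_assoc] using H.opp_mul (one_mem _) (H.le ha) h1

theorem opp_pt' (h1 : g⁻¹ * h ∉ 𝐍 T) (ha : a ∈ A) (hb : b ∈ A) (ne : a ≠ b) :
    (g * a * g⁻¹ * h)⁻¹ * (g * b * g⁻¹ * h) ∉ 𝐍 T := by
  simpa [mul_assoc] using H.opp_T (H.le ha) (H.le hb) ne h1

theorem all (h1 : g⁻¹ * h ∉ 𝐍 T) (k : X) : Fx V A g ⊓ Fx V A h ≤ Fx V A k := by
  by_contra hk
  let q : Option A → X := fun o => o.elim g fun a => g * a * g⁻¹ * h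
  have q1 : ∀ o, Fx V A g ⊓ Fx V A h ≤ Fx V A (q o) := by
    rintro (_ | a)
    · exact inf_le_left
    · exact inf_comm (Fx V A g) _ ▸ inf_le_conj a.2
  have q2 : ∀ o o', o ≠ o' → (q o)⁻¹ * q o' ∉ 𝐍 T := by
    rintro (_ | a) (_ | b) ne
    · exact (ne rfl).elim
    · exact H.opp_pt h1 b.2
    · exact H.opp_symm (H.opp_pt h1 a.2)
    · exact H.opp_pt' h1 a.2 b.2 fun e => ne (congrArg _ (Subtype.ext e))
  have q3 : ∀ o, k⁻¹ * q o ∉ 𝐍 T := fun o e => hk (H.Fx_eqv e ▸ q1 o)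
  have c := H.count1 (fun p : Option A × A => k * p.2 * k⁻¹ * q p.1) ?_ (Fx V A g ⊓ Fx V A h ⊓ Fx V A k)
    (fun p => (inf_le_inf_right _ (q1 p.1)).trans (inf_le_conj p.2.2)) inf_le_right fun p => H.opp_pt (q3 _) p.2.2
  · have c1 := H.three h1 k
    have c2 : 0 < #↥(Fx V A g ⊓ Fx V A h ⊓ Fx V A k) := Nat.card_pos
    have c3 := H.two_le
    rw [Nat.card_prod, Finite.card_option] at c
    nlinarith
  rintro ⟨o, a⟩ ⟨o', b⟩ ne e
  by_cases oo : o = o'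
  · subst oo
    exact H.opp_pt' (q3 o) a.2 b.2 (fun e => ne (congrArg _ (Subtype.ext e))) e
  have e1 : Fx V A (k * (a.1⁻¹ * b) * k⁻¹ * q o') = Fx V A (q o) := H.Fx_eqv (by simpa [mul_assoc] using e)
  have e2 := eq_of_le_card (le_inf inf_le_left (e1 ▸ inf_le_conj (V := V) (g := q o') (h := k)
    (mul_mem (inv_mem a.2) b.2))) (H.card_inf (q2 _ _ (Ne.symm oo)) (H.opp_symm (q3 o'))).le
  exact hk ((le_inf (q1 o') (q1 o)).trans (e2.ge.trans inf_le_right))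

theorem eq_T : A = T := by
  obtain ⟨h, hh⟩ := H.nn
  have h1 : (1 : X)⁻¹ * h ∉ 𝐍 T := by simpa using hh
  have c := H.count1 (fun t : T => t * h) (fun s t ne => H.opp_T s.2 t.2 (fun e => ne (Subtype.ext e)) hh) _
    (fun t => H.all h1 _) inf_le_left fun t => H.opp_mul (one_mem _) t.2 hh
  rw [← (H.num h1).2.1] at c
  exact eq_of_le_of_card_le H.le (Nat.le_of_mul_le_mul_right c Nat.card_pos)

theorem line (h1 : g⁻¹ * h ∉ 𝐍 T) (h2 : g⁻¹ * k ∉ 𝐍 T) : ∃ a ∈ A, k⁻¹ * (g * a * g⁻¹ * h) ∈ 𝐍 T := by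
  by_contra! hc
  have c := H.count1 (fun o : Option A => o.elim k fun a => g * a * g⁻¹ * h) ?_ _ (fun _ => H.all h1 _) inf_le_left ?_
  · have c2 : 0 < #↥(Fx V A g ⊓ Fx V A h) := Nat.card_pos
    rw [← (H.num h1).2.1, Finite.card_option] at c
    nlinarith
  · rintro (_ | a) (_ | b) ne
    · exact (ne rfl).elim
    · exact hc _ b.2
    · exact H.opp_symm (hc _ a.2)
    · exact H.opp_pt' h1 a.2 b.2 fun e => ne (congrArg _ (Subtype.ext e))
  · rintro (_ | a)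
    · exact h2
    · exact H.opp_pt h1 a.2

end Off

/-- transvections -/
theorem M.tv (H : M V T) (hd : d ∈ T) (d1 : d ≠ 1) (d2 : d * d = 1)
    (hz : ∀ v : V, d • v - v = 0 ∨ d • v - v = z) : (∀ t ∈ T, t = 1 ∨ t = d) ∧ (∀ c : V, 2 • c ≠ z) ∧
    (∀ c : V, d • c = c → (∀ g : X, d • g • c = g • c) ∨ ∀ g : X, d • g • (c + z) = g • (c + z)) ∧
    ∃ h : X, d • h • z = h • z + z ∧ (∀ g : X, g • z = z ∨ g • z = h • z ∨ g • z = h • z + z) ∧
      ∀ g : X, ∃ n ∈ 𝐍 T, ∀ e : V, ∃ i j : ℕ, g • e = n • (e + (i • z + j • h • z)) ∧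
        ((∀ x : X, d • x • e = x • e) → g • e = n • e) := by
  have dd : ∀ v : V, d • d • v = v := fun v => by rw [← mul_smul, d2, one_smul]
  obtain ⟨v, hv⟩ : ∃ v : V, d • v ≠ v := not_forall.1 fun k => d1 (H.faith d k)
  have v0 := sub_ne_zero.2 hv
  have vz := (hz v).resolve_left v0
  have z0 : z ≠ 0 := vz ▸ v0
  have mz : ∀ a ∈ zpowers d, a = 1 ∨ a = d := fun a ha => by
    obtain ⟨n, rfl⟩ := mem_zpowers_iff.1 ha
    have : d ^ (2 : ℤ) = 1 := by rw [zpow_two, d2]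
    rcases Int.even_or_odd' n with ⟨k, rfl | rfl⟩ <;> simp [zpow_add, zpow_mul, this]
  have mF : ∀ (g : X) (v : V), v ∈ Fx V (zpowers d) g ↔ d • g⁻¹ • v = g⁻¹ • v := fun g v => by
    rw [← mul_one g, mem_Fx_mul, mul_one]
    exact ⟨fun k => by simpa using k d (mem_zpowers d), fun k a ha => by
      rcases mz a ha with rfl | rfl <;> simp [k]⟩
  have zz : 2 • z = 0 := by
    have := hz (2 • v)
    rw [smul_comm, ← smul_sub, vz] at this
    exact this.resolve_right fun k => z0 (by rwa [two_nsmul, add_eq_left] at k)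
  have dz : d • z = z := by
    have : d • z = -z := by rw [← vz, smul_sub, dd]; abel
    rw [this, neg_eq_iff_add_eq_zero, ← two_nsmul, zz]
  have K : Off V T (zpowers d) := ⟨H, zpowers_le.2 hd, by simpa using d1, fun a ha w => by
    rw [mF]
    rcases mz a ha with rfl | rfl
    · simp
    · rcases hz w with e | e <;> simp [e, dz], by
    have c : #(zpowers d) = 2 := by rw [Nat.card_zpowers, orderOf_eq_prime (by rw [pow_two, d2]) d1]
    rw [c, mul_comm, ← AddSubgroup.card_mul_index (Fx V (zpowers d) 1), AddSubgroup.index_eq_two_iff.2 ⟨v, fun b => ?_⟩]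
    simp only [mF, inv_one, one_smul, smul_add]
    rcases hz b with e | e <;> rw [sub_eq_iff_eq_add] at e vz <;> rw [e, vz]
    · simp [z0]
    · have : z + b + (z + v) = b + v := by rw [← sub_eq_zero, ← zz]; abel
      simp [z0, this]⟩
  obtain ⟨h, hh⟩ := H.nn
  have h1 : (1 : X)⁻¹ * h ∉ 𝐍 T := by simpa using hh
  have md := mem_zpowers d
  have hU : ∀ (g : X) (w : V), (g * d * g⁻¹) • w - w = 0 ∨ (g * d * g⁻¹) • w - w = g • z := fun g w => by
    have : (g * d * g⁻¹) • w - w = g • (d • g⁻¹ • w - g⁻¹ • w) := by simp [mul_smul, smul_sub]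
    rcases hz (g⁻¹ • w) with e | e <;> simp [this, e]
  have zU : ∀ g : X, g • z ∈ Um V (g * d * g⁻¹) := fun g => ⟨g • v, by
    rw [← vz]; simp [mul_smul, smul_sub]⟩
  have eT := K.eq_T
  have nz : ∀ n ∈ 𝐍 T, n • z = z := fun n hn => by
    obtain ⟨w, hw⟩ := mem_Um.1 (zU n)
    rw [(mz _ (eT.ge (conj_mem_of_mem_normalizer hn hd))).resolve_left (by simpa using d1)] at hw
    exact hw ▸ (hz w).resolve_left (hw ▸ fun k => z0 ((smul_eq_zero_iff_eq n).1 k))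
  have dh : d • h • z = h • z + z := by
    rw [add_comm, ← sub_eq_iff_eq_add]
    exact (hz _).resolve_left fun k => z0 ((smul_eq_zero_iff_eq h).1
      (K.Um_zero h1 md d1 (zU h) ((mF _ _).2 (by simpa using sub_eq_zero.1 k))))
  have al : ∀ c ∈ Fx V (zpowers d) 1, c ∈ Fx V (zpowers d) h → ∀ g : X, d • g • c = g • c := fun c k1 k2 g => by
    simpa using (mF _ _).1 (K.all h1 g⁻¹ ⟨k1, k2⟩)
  refine ⟨fun t ht => mz t (eT ▸ ht), fun c e => z0 (K.Um_zero (H.opp_symm h1) md d1 (by simpa using zU 1)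
    (e ▸ K.two_mem h c)), fun c hc => ?_, h, dh, fun g => ?_, fun g => ?_⟩
  · have hc' : c ∈ Fx V (zpowers d) 1 := (mF _ _).2 (by simpa using hc)
    obtain ⟨u, ⟨w, hw⟩, c', k, e⟩ := K.decU (H.opp_symm h1) md d1 c
    have := hz w
    simp only [one_mul, inv_one, mul_one] at hw
    rw [show d • w - w = u from hw] at this
    rcases this with rfl | rfl
    · exact .inl (al c hc' (by simpa [← e] using k))
    · refine .inr (al _ (add_mem hc' ((mF _ _).2 (by simpa using dz))) ?_)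
      rwa [← e, add_comm u, add_assoc, ← two_nsmul, zz, add_zero]
  · by_cases hg : g ∈ 𝐍 T
    · exact .inl (nz g hg)
    obtain ⟨a, ha, k⟩ := K.line h1 (k := g) (by simpa using hg)
    have := nz _ k
    rw [mul_smul, inv_smul_eq_iff] at this
    rcases mz a ha with rfl | rfl
    · exact .inr (.inl (by simpa using this.symm))
    · exact .inr (.inr (by rw [← this, ← dh]; simp [mul_smul]))
  by_cases hg : g ∈ 𝐍 T
  · exact ⟨g, hg, fun e => ⟨0, 0, by simp, fun _ => rfl⟩⟩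
  obtain ⟨a, ha, k⟩ := K.line (K.opp_conj h1 md d1) (k := g⁻¹) (by simpa using hg)
  simp only [inv_inv, one_mul, inv_one, mul_one] at k
  have a2 := K.sq ha
  have eg : ∀ e : V, g • e = (g * (a * (h * d * h⁻¹))) • (h * d * h⁻¹) • a • e := fun e => by
    rw [← mul_smul, ← mul_smul]; congr 1
    calc g = g * (a * (h * (d * d) * h⁻¹) * a) := by rw [d2]; simp [a2]
      _ = _ := by group
  refine ⟨_, k, fun e => ?_⟩
  have : (∀ x : X, d • x • e = x • e) → g • e = (g * (a * (h * d * h⁻¹))) • e := fun k1 => by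
    have k2 : a • e = e := by
      rcases mz a ha with rfl | rfl
      · simp
      · simpa using k1 1
    rw [eg, k2, mul_smul _ h⁻¹, mul_smul h, k1, smul_inv_smul]
  obtain ⟨i, hi⟩ : ∃ i : ℕ, a • e = e + i • z := by
    rcases mz a ha with rfl | rfl
    · exact ⟨0, by simp⟩
    · rcases hz e with k | k
      · exact ⟨0, by simpa using sub_eq_zero.1 k⟩
      · exact ⟨1, by rw [← k]; simp⟩
  rcases hU h (a • e) with k1 | k1
  · exact ⟨i, 0, by rw [eg, sub_eq_zero.1 k1, hi]; simp, this⟩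
  · exact ⟨i, 1, by rw [eg, sub_eq_iff_eq_add.1 k1, hi]; congr 1; simp only [one_smul]; abel, this⟩

end H28.TI
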